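import Cfsg.Agent.H43.CoverGenerate
import Cfsg.Agent.H43.CoverLift
import Cfsg.Agent.H53.SylowPlane
import Cfsg.Agent.H3.Simple

/-!
A perfect double cover of the six-dimensional unitary group over four elements is a group of
3-transpositions: the lifts of one transvection are not conjugate, so one conjugate per point and the
central involution form a class of transpositions with the point model.
-/

set_option autoImplicit false
set_option linter.unusedSectionVars false

namespace Cfsg.Agent.H98.U62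

open Cfsg Cfsg.Agent.H17.UPoints Cfsg.Agent.H43.FischerTwins
open scoped commutatorElement

variable {F : Type} [Field F] [Fintype F] [DecidableEq F]

/-- A perfect group over the unitary group with kernel of order two. -/
structure Cov (H : Type*) [Group H] (F : Type) [Field F] [Fintype F] [DecidableEq F] where
  card : Fintype.card F = 4
  z : H
  π : H →* Cfsg.PSU 6 F 2
  hker : ∀ h, π h = 1 ↔ h = 1 ∨ h = z
  hzc : ∀ h, Commute z h
  hz1 : z ≠ 1
  hsur : Function.Surjective π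
  perf : commutator H = ⊤

variable {H : Type*} [Group H] [Finite H] (c : Cov H F)
include c

theorem zz : c.z * c.z = 1 := H43.kernel_sq (n := 6) c.hker

theorem same {a b : H} (h : c.π a = c.π b) : a = b ∨ a = b * c.z := H43.same_image (n := 6) c.hker h

theorem mul_z_ne (a : H) : a * c.z ≠ a := fun h => c.hz1 (mul_left_cancel (h.trans (mul_one a).symm))

theorem π_mul_z (a : H) : c.π (a * c.z) = c.π a := by
  rw [map_mul, (c.hker c.z).2 (Or.inr rfl), mul_one]

omit c in
theorem act_ne_zero (g : ↥(Cfsg.SU 6 F 2)) {v : Fin 6 → F} (hv0 : v ≠ 0) : act g v ≠ 0 := fun e => hv0 (by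
  rw [← act_one v, ← inv_mul_cancel g, act_mul, e]; exact Matrix.mulVec_zero _)

/-- The points. -/
def IsPt (v : Fin 6 → F) : Prop := v ≠ 0 ∧ herm v v = 0

theorem trv_inj {u v : Fin 6 → F} (hu : herm u u = 0) (hv : herm v v = 0)
    (h : (trv c.card u : Cfsg.PSU 6 F 2) = trv c.card v) : trv c.card u = trv c.card v :=
  H43.M22.lift_unique c.card (trv_sq c.card hu) (trv_sq c.card hv) h

theorem normal_closure_of_conj {K : Type*} [Group K] {S : Set K} (h : ∀ g, ∀ x ∈ S, g * x * g⁻¹ ∈ S) :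
    (Subgroup.closure S).Normal := ⟨fun n hn g => by
  have : (Subgroup.closure S).map (MulAut.conj g).toMonoidHom ≤ Subgroup.closure S := by
    rw [MonoidHom.map_closure]
    refine Subgroup.closure_mono ?_
    rintro _ ⟨x, hx, rfl⟩
    exact h g x hx
  exact this ⟨n, hn, rfl⟩⟩

/-- The class of transvections of the quotient. -/
def Tr : Set (Cfsg.PSU 6 F 2) := {x | ∃ v : Fin 6 → F, IsPt v ∧ x = (trv c.card v : Cfsg.PSU 6 F 2)}

theorem pt_exists : ∃ v : Fin 6 → F, IsPt v := by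
  refine ⟨![1, 1, 0, 0, 0, 0], fun h => one_ne_zero (congrFun h 0), ?_⟩
  simp only [herm, hermForm, Fin.sum_univ_six, Matrix.cons_val]
  linear_combination add_self c.card (1 : F)

theorem tr_conj {x : Cfsg.PSU 6 F 2} (hx : x ∈ Tr c) (y : Cfsg.PSU 6 F 2) : y * x * y⁻¹ ∈ Tr c := by
  obtain ⟨g, rfl⟩ := QuotientGroup.mk_surjective y
  obtain ⟨v, ⟨hv0, hv⟩, rfl⟩ := hx
  exact ⟨act g v, ⟨act_ne_zero g hv0, by rw [herm_act]; exact hv⟩, by
    rw [← trv_conj c.card g hv]; rfl⟩

theorem trv_order {v : Fin 6 → F} (hv : IsPt v) : orderOf (trv c.card v : Cfsg.PSU 6 F 2) = 2 := by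
  haveI : Fact (Nat.Prime 2) := ⟨Nat.prime_two⟩
  refine orderOf_eq_prime (by rw [pow_two, ← QuotientGroup.mk_mul, trv_sq c.card hv.2]; rfl) fun h => ?_
  exact trv_ne_one c.card hv.2 hv.1
    (H43.M22.lift_unique c.card (trv_sq c.card hv.2) (one_mul 1) h)

theorem tr_class : Cfsg.IsThreeTranspositionClass (Tr c) := by
  refine ⟨⟨?_, ?_⟩, ?_, ?_⟩
  · rintro x ⟨v, hv, rfl⟩
    exact trv_order c hv
  · rintro _ ⟨u, hu, rfl⟩ _ ⟨v, hv, rfl⟩
    by_cases huv : herm u v = 0
    · refine Or.inl ?_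
      have h := (trv_commute_iff c.card hu.2 hv.2 hu.1 hv.1).2 huv
      rw [← QuotientGroup.mk_mul, ← QuotientGroup.mk_pow, h.mul_pow, pow_two, pow_two,
        trv_sq c.card hu.2, trv_sq c.card hv.2, one_mul]
      rfl
    · refine Or.inr ?_
      rw [← QuotientGroup.mk_mul, ← QuotientGroup.mk_pow]
      have hb := H43.trv_braid c.card hu.2 hv.2 huv
      have e : (trv c.card u * trv c.card v) ^ 3 =
          (trv c.card u * trv c.card v * trv c.card u) * (trv c.card v * trv c.card u * trv c.card v) := by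
        simp only [pow_succ, pow_zero, one_mul, mul_assoc]
      rw [e, hb]
      have h2 : ∀ a b : ↥(Cfsg.SU 6 F 2), a * a = 1 → b * b = 1 → a * b * a * (a * b * a) = 1 := by
        intro a b ha hb'
        calc a * b * a * (a * b * a) = a * b * (a * a) * b * a := by group
          _ = a * (b * b) * a := by rw [ha]; group
          _ = 1 := by rw [hb', mul_one, ha]
      rw [h2 _ _ (trv_sq c.card hv.2) (trv_sq c.card hu.2)]
      rfl
  · obtain ⟨v, hv⟩ := pt_exists c
    refine ⟨_, ⟨v, hv, rfl⟩, Set.ext fun x => ⟨?_, fun hx => ?_⟩⟩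
    · rintro ⟨u, hu, rfl⟩
      obtain ⟨g, hg⟩ := trv_transitive c.card (by norm_num) hv.2 hu.2 hv.1 hu.1
      exact isConj_iff.2 ⟨(g : Cfsg.PSU 6 F 2), by rw [← hg]; rfl⟩
    · obtain ⟨y, rfl⟩ := isConj_iff.1 hx
      exact tr_conj c ⟨v, hv, rfl⟩ y
  · haveI := H3.isSimpleGroup_PSU (F := F) (n := 6) (cardSq c.card) (by norm_num) (by norm_num)
    have hn : (Subgroup.closure (Tr c)).Normal := normal_closure_of_conj c
      fun y x hx => tr_conj c hx y
    refine hn.eq_bot_or_eq_top.resolve_left fun h => ?_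
    obtain ⟨v, hv⟩ := pt_exists c
    have h1 := trv_order c hv
    have h2 : (trv c.card v : Cfsg.PSU 6 F 2) = 1 := Subgroup.mem_bot.1
      (h ▸ Subgroup.subset_closure (show _ ∈ Tr c from ⟨v, hv, rfl⟩))
    rw [h2, orderOf_one] at h1
    exact absurd h1 (by norm_num)

theorem lift_comm {u v : Fin 6 → F} {a b : H} (hu : IsPt u) (hv : IsPt v) (huv : herm u v = 0)
    (ha : c.π a = trv c.card u) (hb : c.π b = trv c.card v) : Commute a b :=
  H43.lift_commute c.card c.hker c.hzc c.hsur le_rfl hu.2 hv.2 hu.1 hv.1 huv ha hb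

/-- An element commuting with a transvection below commutes with its lift. -/
theorem commute_of_image {p : Fin 6 → F} (hp : IsPt p) {a : H} (ha : c.π a = trv c.card p) {g : H}
    (hg : Commute (c.π g) (c.π a)) : Commute g a := by
  have hdiff : ∀ h, Commute (c.π h) (c.π a) → ∃ k, c.π k = 1 ∧ h * a * h⁻¹ = a * k := fun h hh =>
    ⟨a⁻¹ * (h * a * h⁻¹), by rw [map_mul, map_inv, map_mul, map_mul, map_inv, hh.eq, mul_inv_cancel_right,
      inv_mul_cancel], (mul_inv_cancel_left _ _).symm⟩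
  have kc : ∀ k, c.π k = 1 → ∀ h, Commute k h := fun k hk h => H43.kernel_commute (n := 6) c.hker c.hzc hk h
  have hcl : ∀ {h : H}, Commute h a → ∀ {h' : H}, c.π h' = c.π h → Commute h' a := fun {h} hh {h'} e => by
    rcases same c e with rfl | rfl
    · exact hh
    · exact hh.mul_left (c.hzc a)
  let N := (Subgroup.centralizer ({a} : Set H)).map c.π
  have hN : ∀ {h}, c.π h ∈ N → Commute h a := fun {h} ⟨h', hh', e⟩ =>
    hcl (Subgroup.mem_centralizer_singleton_iff.1 hh') e.symm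
  refine hN (H43.CoverGenerate.cover_centralizer (tr_class c) ?_ (d := c.π a) ⟨p, hp, ha⟩ N
    ?_ ?_ ?_ ?_ (c.π g) hg.symm)
  · obtain ⟨s, hs⟩ := pt_exists c
    obtain ⟨t, ht, h1⟩ : ∃ t : Fin 6 → F, IsPt t ∧ herm s t ≠ 0 := by
      obtain ⟨y, hy⟩ := exists_one c.card hs.1
      obtain ⟨k, hk, hky⟩ := H89.M22.exists_iso_add c.card hs.2 hy
      exact ⟨_, hk, fun h => one_ne_zero (hky.symm.trans ((herm_zero_comm c.card).1 h))⟩
    refine ⟨_, ⟨s, hs, rfl⟩, _, ⟨t, ht, rfl⟩, fun h => h1 ?_⟩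
    rw [← trv_commute_iff c.card hs.2 ht.2 hs.1 ht.1, trv_inj c hs.2 ht.2 h]
  · rintro _ ⟨h, hh, rfl⟩
    exact ((show Commute h a from Subgroup.mem_centralizer_singleton_iff.1 hh).map c.π).symm
  · intro y hy n hn
    obtain ⟨y', rfl⟩ := c.hsur y
    obtain ⟨h, hh, rfl⟩ := hn
    obtain ⟨k, hk, ek⟩ := hdiff y' hy.symm
    refine ⟨y' * h * y'⁻¹, Subgroup.mem_centralizer_singleton_iff.2 ?_, by rw [map_mul, map_mul, map_inv]⟩
    have h' : Commute (y' * h * y'⁻¹) (a * k) := by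
      have := (show Commute h a from Subgroup.mem_centralizer_singleton_iff.1 hh).map
        (MulAut.conj y').toMonoidHom
      simp only [MulEquiv.coe_toMonoidHom, MulAut.conj_apply, ek] at this
      exact this
    have h'' := h'.mul_right (kc k hk (y' * h * y'⁻¹)).inv_left.symm
    rw [mul_inv_cancel_right] at h''
    exact h''.eq
  · rintro _ ⟨v, hv, rfl⟩ hc
    obtain ⟨h, hh⟩ := c.hsur (trv c.card v)
    have hh' : c.π h = (trv c.card v : Cfsg.PSU 6 F 2) := hh
    refine ⟨h, Subgroup.mem_centralizer_singleton_iff.2 (lift_comm c hv hp ?_ hh ha), hh⟩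
    rw [← trv_commute_iff c.card hv.2 hp.2 hv.1 hp.1]
    exact H43.M22.lift_commute' c.card (trv_sq c.card hv.2) (trv_sq c.card hp.2) (by
      rw [← hh', ← ha]; exact (hh'.symm ▸ hc.symm))
  · intro y hy h3
    obtain ⟨y', rfl⟩ := c.hsur y
    obtain ⟨k, hk, ek⟩ := hdiff y' hy.symm
    refine ⟨y', Subgroup.mem_centralizer_singleton_iff.2 ?_, rfl⟩
    have hkk : k * k = 1 := by
      rcases (c.hker k).1 hk with rfl | rfl
      exacts [one_mul 1, zz c]
    have hca : Commute (y' ^ 3) a := kc _ (by rw [map_pow]; exact h3) a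
    have e1 : y' ^ 3 * a * (y' ^ 3)⁻¹ = a * k := by
      have e : ∀ x : H, y' * (a * x) * y'⁻¹ = (a * k) * (y' * x * y'⁻¹) := fun x => by rw [← ek]; group
      calc y' ^ 3 * a * (y' ^ 3)⁻¹ = y' * (y' * (y' * a * y'⁻¹) * y'⁻¹) * y'⁻¹ := by
            simp only [pow_succ, pow_zero, one_mul, mul_inv_rev, mul_assoc]
        _ = a * k := by
          rw [ek, e, ← (kc k hk y').eq, mul_inv_cancel_right, mul_assoc a k k, hkk, mul_one, ek]
    rw [hca.eq, mul_inv_cancel_right] at e1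
    have hk1 : k = 1 := mul_left_cancel (a := a) (by rw [mul_one]; exact e1.symm)
    rw [hk1, mul_one] at ek
    exact mul_inv_eq_iff_eq_mul.1 ek

/-- The transpositions: the central involution and the conjugates of a lift of a transvection. -/
def DS (a : H) : Set H := insert c.z (conjugatesOf a)

variable {p : Fin 6 → F} (hp : IsPt p) {a : H} (ha : c.π a = trv c.card p)
include hp ha

theorem mem_T {t : H} (ht : t ∈ conjugatesOf a) : ∃ v, IsPt v ∧ c.π t = trv c.card v := by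
  obtain ⟨g, rfl⟩ := isConj_iff.1 ht
  obtain ⟨g', hg'⟩ := QuotientGroup.mk_surjective (c.π g)
  exact ⟨act g' p, ⟨act_ne_zero g' hp.1, by rw [herm_act]; exact hp.2⟩, by
    rw [map_mul, map_mul, map_inv, ha, ← hg', ← trv_conj c.card g' hp.2]; rfl⟩

theorem T_unique {s t : H} (hs : s ∈ conjugatesOf a) (ht : t ∈ conjugatesOf a) (h : c.π s = c.π t) :
    s = t := by
  obtain ⟨g, rfl⟩ := isConj_iff.1 hs
  obtain ⟨k, rfl⟩ := isConj_iff.1 ht
  have hc : Commute (k⁻¹ * g) a := commute_of_image c hp ha (by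
    show _ = _
    simp only [map_mul, map_inv] at h ⊢
    calc (c.π k)⁻¹ * c.π g * c.π a = (c.π k)⁻¹ * (c.π g * c.π a * (c.π g)⁻¹) * c.π g := by group
      _ = _ := by rw [h]; group)
  calc g * a * g⁻¹ = k * ((k⁻¹ * g) * a * (k⁻¹ * g)⁻¹) * k⁻¹ := by group
    _ = _ := by rw [hc.eq, mul_inv_cancel_right]

theorem T_exists {v : Fin 6 → F} (hv : IsPt v) : ∃ t ∈ conjugatesOf a, c.π t = trv c.card v := by
  obtain ⟨g, hg⟩ := trv_transitive c.card (by norm_num) hp.2 hv.2 hp.1 hv.1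
  obtain ⟨g', hg'⟩ := c.hsur g
  refine ⟨g' * a * g'⁻¹, isConj_iff.2 ⟨g', rfl⟩, ?_⟩
  rw [map_mul, map_mul, map_inv, hg', ha, ← hg]; rfl

theorem T_ne_z {t : H} (ht : t ∈ conjugatesOf a) : t ≠ c.z := fun h => by
  obtain ⟨v, hv, hvt⟩ := mem_T c hp ha ht
  have h1 := trv_order c hv
  rw [← hvt, h, (c.hker c.z).2 (Or.inr rfl), orderOf_one] at h1
  exact absurd h1 (by norm_num)

theorem T_sq {t : H} (ht : t ∈ conjugatesOf a) : t * t = 1 := by
  obtain ⟨v, hv, hvt⟩ := mem_T c hp ha ht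
  exact H43.lift_involution c.card c.hker c.hzc c.hsur le_rfl hv.2 hv.1 hvt

theorem T_conj {t : H} (ht : t ∈ conjugatesOf a) (g : H) : g * t * g⁻¹ ∈ conjugatesOf a := by
  obtain ⟨k, rfl⟩ := isConj_iff.1 ht
  exact isConj_iff.2 ⟨g * k, by group⟩

theorem T_commute {u v : Fin 6 → F} {s t : H} (hu : IsPt u) (hv : IsPt v)
    (hs : c.π s = trv c.card u) (ht : c.π t = trv c.card v) : Commute s t ↔ herm u v = 0 := by
  refine ⟨fun h => ?_, fun h => lift_comm c hu hv h hs ht⟩
  rw [← trv_commute_iff c.card hu.2 hv.2 hu.1 hv.1]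
  exact H43.M22.lift_commute' c.card (trv_sq c.card hu.2) (trv_sq c.card hv.2) (by
    rw [← hs, ← ht]; exact h.map c.π)

theorem closure_T : Subgroup.closure (conjugatesOf a) = ⊤ := by
  have hn : (Subgroup.closure (conjugatesOf a)).Normal :=
    normal_closure_of_conj c fun g t ht => T_conj c hp ha ht g
  have hmap : (Subgroup.closure (conjugatesOf a)).map c.π = ⊤ := by
    rw [MonoidHom.map_closure, eq_top_iff, ← (tr_class c).2.2]
    refine Subgroup.closure_mono ?_
    rintro _ ⟨v, hv, rfl⟩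
    exact T_exists c hp ha hv
  rw [eq_top_iff, ← c.perf, commutator_def, Subgroup.commutator_le]
  intro x _ y _
  obtain ⟨x', hx', ex⟩ : c.π x ∈ (Subgroup.closure (conjugatesOf a)).map c.π := hmap ▸ Subgroup.mem_top _
  obtain ⟨y', hy', ey⟩ : c.π y ∈ (Subgroup.closure (conjugatesOf a)).map c.π := hmap ▸ Subgroup.mem_top _
  obtain ⟨k, hk, rfl⟩ : ∃ k, c.π k = 1 ∧ x = x' * k := ⟨x'⁻¹ * x, by rw [map_mul, map_inv, ex, inv_mul_cancel],
    (mul_inv_cancel_left _ _).symm⟩
  obtain ⟨l, hl, rfl⟩ : ∃ l, c.π l = 1 ∧ y = y' * l := ⟨y'⁻¹ * y, by rw [map_mul, map_inv, ey, inv_mul_cancel],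
    (mul_inv_cancel_left _ _).symm⟩
  have hkc := H43.kernel_commute (n := 6) c.hker c.hzc hk
  have hlc := H43.kernel_commute (n := 6) c.hker c.hzc hl
  have e : ⁅x' * k, y' * l⁆ = ⁅x', y'⁆ := by
    rw [commutatorElement_def, commutatorElement_def, mul_inv_rev, mul_inv_rev]
    calc x' * k * (y' * l) * (k⁻¹ * x'⁻¹) * (l⁻¹ * y'⁻¹)
        = x' * (k * (y' * l) * k⁻¹) * x'⁻¹ * (l⁻¹ * y'⁻¹) := by group
      _ = x' * y' * (l * x'⁻¹ * l⁻¹) * y'⁻¹ := by rw [(hkc (y' * l)).eq, mul_inv_cancel_right]; group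
      _ = _ := by rw [(hlc x'⁻¹).eq, mul_inv_cancel_right]
  rw [e, commutatorElement_def]
  exact mul_mem (mul_mem (mul_mem hx' hy') (inv_mem hx')) (inv_mem hy')

theorem group_DS : Cfsg.IsThreeTranspositionGroup (DS c a) := by
  haveI : Fact (Nat.Prime 2) := ⟨Nat.prime_two⟩
  have hsq : ∀ x ∈ DS c a, x * x = 1 := fun x hx => hx.elim (fun h => h ▸ zz c) fun h => T_sq c hp ha h
  refine ⟨⟨?_, ?_⟩, ?_, ?_⟩
  · rintro x hx
    refine orderOf_eq_prime (by rw [pow_two]; exact hsq x hx) ?_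
    rcases hx with rfl | hx
    · exact c.hz1
    · intro h
      obtain ⟨v, hv, hvt⟩ := mem_T c hp ha hx
      have h1 := trv_order c hv
      rw [← hvt, h, map_one, orderOf_one] at h1
      exact absurd h1 (by norm_num)
  · intro x hx y hy
    have comm : Commute x y → (x * y) ^ 2 = 1 := fun h => by
      rw [pow_two, h.symm.mul_mul_mul_comm, hsq x hx, hsq y hy, one_mul]
    rcases hx with rfl | hx'
    · exact Or.inl (comm (c.hzc y))
    rcases hy with rfl | hy'
    · exact Or.inl (comm (c.hzc x).symm)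
    obtain ⟨u, hu, hux⟩ := mem_T c hp ha hx'
    obtain ⟨v, hv, hvy⟩ := mem_T c hp ha hy'
    by_cases huv : herm u v = 0
    · exact Or.inl (comm (lift_comm c hu hv huv hux hvy))
    refine Or.inr ?_
    have hx2 := T_sq c hp ha hx'
    have hy2 := T_sq c hp ha hy'
    have hb : x * y * x = y * x * y := by
      have e1 := T_conj c hp ha hy' x
      have e2 := T_conj c hp ha hx' y
      rw [inv_eq_of_mul_eq_one_right hx2] at e1
      rw [inv_eq_of_mul_eq_one_right hy2] at e2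
      refine T_unique c hp ha e1 e2 ?_
      simp only [map_mul, hux, hvy, ← QuotientGroup.mk_mul]
      exact congrArg QuotientGroup.mk (H43.trv_braid c.card hu.2 hv.2 huv)
    calc (x * y) ^ 3 = (x * y * x) * (y * x * y) := by
          simp only [pow_succ, pow_zero, one_mul, mul_assoc]
      _ = y * x * (y * y) * x * y := by rw [hb]; group
      _ = y * (x * x) * y := by rw [hy2]; group
      _ = 1 := by rw [hx2, mul_one, hy2]
  · rintro g x (rfl | hx)
    · exact Or.inl (by rw [← (c.hzc g).eq, mul_inv_cancel_right])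
    · exact Or.inr (T_conj c hp ha hx g)
  · exact top_le_iff.1 (closure_T c hp ha ▸ Subgroup.closure_mono (Set.subset_insert _ _))

theorem sset_z : Sset (DS c a) c.z = conjugatesOf a := by
  ext x
  constructor
  · rintro ⟨hx | hx, hne, -⟩
    exacts [absurd hx hne, hx]
  · exact fun hx => ⟨Or.inr hx, T_ne_z c hp ha hx, c.hzc x⟩

theorem nearGen_top : H43.M22.nearGen (DS c a) c.z = ⊤ := by
  rw [H43.M22.nearGen, sset_z c hp ha, closure_T c hp ha]

theorem center_eq {x : H} (hx : ∀ y, Commute x y) : x = 1 ∨ x = c.z := by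
  haveI := H3.isSimpleGroup_PSU (F := F) (n := 6) (cardSq c.card) (by norm_num) (by norm_num)
  obtain ⟨-, u, v, huv⟩ := H43.FischerTwins.psu_noncomm c.card
  refine (c.hker x).1 (Subgroup.mem_bot.1 ?_)
  have hzb : Subgroup.center (Cfsg.PSU 6 F 2) = ⊥ :=
    ((inferInstance : (Subgroup.center (Cfsg.PSU 6 F 2)).Normal).eq_bot_or_eq_top).resolve_right fun h =>
      huv (Subgroup.mem_center_iff.1 (h ▸ Subgroup.mem_top v) u)
  rw [← hzb]
  -- (Subgroup.center (Cfsg.PSU 6 F 2)).Normal).eq_bot_or_eq_top.resolve_right fun h =>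
  refine Subgroup.mem_center_iff.2 fun y => ?_
  obtain ⟨y', rfl⟩ := c.hsur y
  exact ((hx y').symm.map c.π).eq

/-- The point model at the central involution. -/
theorem model : ∃ M : H43.M22.Model (DS c a) c.z F c.card, (∀ h : ↥(H43.M22.nearGen (DS c a) c.z), M.proj h = c.π h) ∧
    ∀ v, IsPt v → M.pt v ∈ conjugatesOf a ∧ c.π (M.pt v) = trv c.card v := by
  classical
  have hT : ∀ v, IsPt v → ∃ t, t ∈ conjugatesOf a ∧ c.π t = trv c.card v := fun v hv => T_exists c hp ha hv
  choose! f hfT hfπ using hT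
  have hmem : ∀ h, h ∈ H43.M22.nearGen (DS c a) c.z := fun h => nearGen_top c hp ha ▸ Subgroup.mem_top h
  refine ⟨{
    proj := c.π.comp (H43.M22.nearGen (DS c a) c.z).subtype
    surjective := fun y => (c.hsur y).elim fun h hh => ⟨⟨h, hmem h⟩, hh⟩
    ker_eq := ?_
    pt := f
    pt_mem := fun v hv0 hv => (sset_z c hp ha).symm ▸ hfT v ⟨hv0, hv⟩
    proj_pt := fun v hv0 hv _ => hfπ v ⟨hv0, hv⟩
    pt_surj := fun x hx => ?_
    pt_inj := fun u v hu0 hu hv0 hv h => trv_eq c.card hu hv hu0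
      (trv_inj c hu hv (by rw [← hfπ u ⟨hu0, hu⟩, ← hfπ v ⟨hv0, hv⟩, h]))
    pt_smul := fun k v hk hv0 hv => ?_
    pt_commute := fun u v hu0 hu hv0 hv =>
      T_commute c hp ha ⟨hu0, hu⟩ ⟨hv0, hv⟩ (hfπ u ⟨hu0, hu⟩) (hfπ v ⟨hv0, hv⟩)
    lift := fun g => ?_ }, fun h => rfl, fun v hv => ⟨hfT v hv, hfπ v hv⟩⟩
  · ext x
    rw [MonoidHom.mem_ker, MonoidHom.comp_apply, c.hker, Subgroup.mem_center_iff]
    constructor
    · intro h y
      refine Subtype.ext ?_
      simp only [Subgroup.coe_mul]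
      rcases h with h | h <;> simp only [Subgroup.coe_subtype] at h <;> rw [h]
      · rw [mul_one, one_mul]
      · exact (c.hzc y).eq.symm
    · intro h
      exact center_eq c hp ha fun y => (congrArg Subtype.val (h ⟨y, hmem y⟩)).symm
  · rw [sset_z c hp ha] at hx
    obtain ⟨v, hv, hvx⟩ := mem_T c hp ha hx
    exact ⟨v, hv.1, hv.2, T_unique c hp ha (hfT v hv) hx (by rw [hfπ v hv, hvx])⟩
  · have hkv : IsPt (k • v) := ⟨smul_ne_zero hk hv0, by
      rw [herm_smul_left c.card, herm_smul_right c.card, hv]; ring⟩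
    exact T_unique c hp ha (hfT _ hkv) (hfT v ⟨hv0, hv⟩) (by
      rw [hfπ _ hkv, hfπ v ⟨hv0, hv⟩, trv_smul c.card hk hv])
  · obtain ⟨h, hh⟩ := c.hsur g
    refine ⟨h, hmem h, fun v hv0 hv => ?_⟩
    have hgv : IsPt (act g v) := ⟨act_ne_zero g hv0, by rw [herm_act]; exact hv⟩
    refine T_unique c hp ha (T_conj c hp ha (hfT v ⟨hv0, hv⟩) h) (hfT _ hgv) ?_
    rw [map_mul, map_mul, map_inv, hh, hfπ v ⟨hv0, hv⟩, hfπ _ hgv, ← trv_conj c.card g hv]
    rfl

end Cfsg.Agent.H98.U62
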