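import Cfsg.Agent.H98.U62.Linear

/-! The twenty-two commuting transpositions of a plane in the double cover. -/

set_option autoImplicit false
set_option linter.unusedSectionVars false

namespace Cfsg.Agent.H98.U62

open Cfsg Cfsg.Agent.H17.UPoints Cfsg.Agent.H89.M22 Subgroup

variable {F : Type} [Field F] [Fintype F] [DecidableEq F] {H : Type*} [Group H] [Finite H]

/-- A choice of the class over the transvections, with the point model. -/
structure Cls (c : Cov H F) where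
  p : Fin 6 → F
  hp : IsPt p
  a : H
  ha : c.π a = trv c.card p
  M : H43.M22.Model (DS c a) c.z F c.card
  hproj : ∀ h : ↥(H43.M22.nearGen (DS c a) c.z), M.proj h = c.π h
  hpt : ∀ v, IsPt v → M.pt v ∈ conjugatesOf a ∧ c.π (M.pt v) = trv c.card v

variable {c : Cov H F} (m : Cls c) {w : F} (hw : w + w ^ 2 = 1)

theorem Cls.mk' {p : Fin 6 → F} (hp : IsPt p) {a : H} (ha : c.π a = trv c.card p) :
    ∃ m : Cls c, m.a = a := by
  obtain ⟨M, h1, h2⟩ := model c hp ha
  exact ⟨⟨p, hp, a, ha, M, h1, h2⟩, rfl⟩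

theorem pl_isPt {a b d : F} (h : ¬ (a = 0 ∧ b = 0 ∧ d = 0)) (hF : Fintype.card F = 4) : IsPt (pl a b d) :=
  ⟨fun e => h ⟨by simpa [pl] using congrFun e 0, by simpa [pl] using congrFun e 2,
    by simpa [pl] using congrFun e 4⟩, herm_pl_pl hF a b d a b d⟩

theorem Cls.pt_comm {S : Submodule F (Fin 6 → F)} (hS : H53.SylowPlane.TI S) {u v : Fin 6 → F} (hu : u ∈ S)
    (hv : v ∈ S) (hu0 : u ≠ 0) (hv0 : v ≠ 0) : Commute (m.M.pt u) (m.M.pt v) :=
  (m.M.pt_commute u v hu0 (hS u hu u hu) hv0 (hS v hv v hv)).2 (hS u hu v hv)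

theorem Cls.pt_sq {v : Fin 6 → F} (hv : IsPt v) : m.M.pt v * m.M.pt v = 1 :=
  T_sq c m.hp m.ha (m.hpt v hv).1

theorem Cls.conj {g : ↥(Cfsg.SU 6 F 2)} : ∃ h : H, ∀ v, IsPt v → h * m.M.pt v * h⁻¹ = m.M.pt (act g v) :=
  (m.M.lift g).elim fun h hh => ⟨h, fun v hv => hh.2 v hv.1 hv.2⟩

/-- The product over the five points of the line through two vectors. -/
def Cls.five (w : F) (u v : Fin 6 → F) : H :=
  m.M.pt u * m.M.pt v * (m.M.pt (u + v) * m.M.pt (u + w • v) * m.M.pt (u + w ^ 2 • v))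

include hw

omit [Finite H] in
theorem w_facts : w ≠ 0 ∧ w ≠ 1 ∧ w ^ 2 ≠ 0 ∧ w ^ 2 ≠ 1 ∧ w ^ 2 ≠ w := by
  have hw0 : w ≠ 0 := fun h => by simp [h] at hw
  have hw1 : w ≠ 1 := fun h => by rw [h] at hw; exact one_ne_zero (α := F) (by linear_combination hw)
  refine ⟨hw0, hw1, pow_ne_zero _ hw0, fun h => ?_, fun h => ?_⟩
  · rw [h] at hw
    exact hw0 (by linear_combination hw)
  · refine hw1 (mul_left_cancel₀ hw0 ?_)
    linear_combination h

theorem exists_five (c : Cov H F) : ∃ m : Cls c, m.five w (pl 1 0 0) (pl 0 1 0) = 1 := by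
  obtain ⟨w0, w1, w20, w21, w2w⟩ := w_facts hw
  have hF := c.card
  obtain ⟨v, hv⟩ := pt_exists c
  obtain ⟨a, ha⟩ := c.hsur (trv c.card v)
  obtain ⟨m, -⟩ := Cls.mk' (c := c) hv ha
  have hu := pl_isPt (F := F) (a := 1) (b := 0) (d := 0) (by simp) hF
  have hv' := pl_isPt (F := F) (a := 0) (b := 1) (d := 0) (by simp) hF
  have hk : ∀ k : F, IsPt (pl (1 : F) 0 0 + k • pl (0 : F) 1 0) := fun k => by
    rw [smul_pl, add_pl]; exact pl_isPt (by simp) hF
  have h1 := hk 1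
  rw [one_smul] at h1
  have himg : c.π (m.five w (pl 1 0 0) (pl 0 1 0)) = 1 := by
    simp only [Cls.five, map_mul, (m.hpt _ hu).2, (m.hpt _ hv').2, (m.hpt _ h1).2, (m.hpt _ (hk w)).2,
      (m.hpt _ (hk (w ^ 2))).2, ← QuotientGroup.mk_mul]
    rw [QuotientGroup.eq_one_iff]
    have e := H43.line_relation hF hu.2 hv'.2 (herm_pl_pl hF ..) hw
    have hc : Commute (trv hF (pl (1 : F) 0 0)) (trv hF (pl (0 : F) 1 0)) :=
      (trv_commute_iff hF hu.2 hv'.2 hu.1 hv'.1).2 (herm_pl_pl hF ..)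
    rw [hc.eq, ← mul_assoc, ← mul_assoc, e]
    exact one_mem _
  rcases (c.hker _).1 himg with h | h
  · exact ⟨m, h⟩
  obtain ⟨m', hm'⟩ := Cls.mk' (c := c) (a := m.a * c.z) m.hp (by rw [π_mul_z, m.ha])
  refine ⟨m', ?_⟩
  have e : ∀ x, IsPt x → m'.M.pt x = m.M.pt x * c.z := fun x hx => by
    refine (same c ((m'.hpt x hx).2.trans (m.hpt x hx).2.symm)).resolve_left fun he => ?_
    obtain ⟨g, hg⟩ := isConj_iff.1 (m'.hpt x hx).1
    obtain ⟨k, hk⟩ := isConj_iff.1 (m.hpt x hx).1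
    rw [he, hm', show g * (m.a * c.z) * g⁻¹ = g * m.a * g⁻¹ * c.z by
      rw [mul_assoc (g * m.a) g⁻¹, ← (c.hzc g⁻¹).eq]; group] at hg
    have hu := T_unique c m.hp m.ha (isConj_iff.2 ⟨g, rfl⟩) (m.hpt x hx).1 (by rw [← hg, π_mul_z])
    exact mul_z_ne c _ (hg.trans hu.symm)
  have z2 : ∀ x y : H, x * c.z * (y * c.z) = x * y := fun x y => by
    rw [(c.hzc y).mul_mul_mul_comm, zz, mul_one]
  rw [Cls.five, e _ hu, e _ hv', e _ h1, e _ (hk w), e _ (hk (w ^ 2)), z2, z2, ← mul_assoc _ _ c.z,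
    ← mul_assoc, ← Cls.five.eq_1 m w, h, zz]

theorem cases_F (hF : Fintype.card F = 4) (k : F) : k = 0 ∨ k = 1 ∨ k = w ∨ k = w ^ 2 := by
  obtain ⟨w0, -⟩ := w_facts hw
  rcases eq_or_ne k 0 with h | h
  · exact Or.inl h
  have h0 : (k - 1) * ((k - w) * (k - w ^ 2)) = 0 := by
    linear_combination cube hF h - k ^ 2 * (hw + add_self hF (1 : F)) +
      k * (cube hF w0 + hw + add_self hF (1 : F)) - cube hF w0
  rcases mul_eq_zero.1 h0 with h | h
  · exact Or.inr (Or.inl (sub_eq_zero.1 h))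
  rcases mul_eq_zero.1 h with h | h
  · exact Or.inr (Or.inr (Or.inl (sub_eq_zero.1 h)))
  · exact Or.inr (Or.inr (Or.inr (sub_eq_zero.1 h)))

variable (h5 : m.five w (pl 1 0 0) (pl 0 1 0) = 1)
include h5

/-- The five points of every line of the plane multiply to the identity. -/
theorem five_one {u v : Fin 6 → F} (hu : u ∈ PL (F := F)) (hv : v ∈ PL (F := F)) (hu0 : u ≠ 0)
    (hvu : v ∉ Submodule.span F {u}) : m.five w u v = 1 := by
  have hF := c.card
  obtain ⟨w0, w1, w20, w21, w2w⟩ := w_facts hw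
  have hw3 := cube hF w0
  obtain ⟨x, hx, hxs⟩ : ∃ x ∈ PL (F := F), x ∉ Submodule.span F {u, v} := by
    by_contra hne
    push Not at hne
    have h1 := Submodule.finrank_mono (show PL (F := F) ≤ Submodule.span F {u, v} from hne)
    have h3 := finrank_range_le_card (R := F) ![u, v]
    rw [Set.finrank, Matrix.range_cons_cons_empty, Fintype.card_fin] at h3
    rw [rank_PL hF] at h1
    omega
  obtain ⟨g, hg, ⟨k₁, hk₁, e₁⟩, ⟨k₂, hk₂, e₂⟩, -⟩ := move_std hF hu hv hx hu0 hvu hxs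
  obtain ⟨h, hh⟩ := m.conj (g := g)
  have hv0 : v ≠ 0 := fun e => hvu (e ▸ Submodule.zero_mem _)
  have hline : ∀ k : F, IsPt (u + k • v) := fun k => isPt_of_mem hF (ti_PL hF)
    ((PL).add_mem hu ((PL).smul_mem _ hv)) fun e => hvu (Submodule.mem_span_singleton.2 ⟨k⁻¹ , by
      have hk : k ≠ 0 := fun h0 => hu0 (by rw [h0, zero_smul, add_zero] at e; exact e)
      rw [eq_neg_of_add_eq_zero_left e, smul_neg, inv_smul_smul₀ hk]
      exact funext fun i => by simpa using neg_eq_of_add_eq_zero_left (add_self hF (v i))⟩)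
  have h1 : u + v = u + (1 : F) • v := by rw [one_smul]
  set κ := k₁⁻¹ * k₂ with hκ
  have hκ0 : κ ≠ 0 := mul_ne_zero (inv_ne_zero hk₁) hk₂
  have key : ∀ k : F, m.M.pt (act g (u + k • v)) = m.M.pt (pl 1 0 0 + (k * κ) • pl 0 1 0) := fun k => by
    have hpt : IsPt (pl (1 : F) 0 0 + (k * κ) • pl 0 1 0) := by
      rw [smul_pl, add_pl]; exact pl_isPt (by simp) hF
    rw [act_add', act_smul', e₁, e₂, ← m.M.pt_smul k₁ _ hk₁ hpt.1 hpt.2, smul_add, smul_smul, smul_smul]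
    congr 2
    rw [hκ]
    congr 1
    field_simp
  have e0 : m.five w u v = h⁻¹ * m.five w (pl 1 0 0) (pl 0 1 0) * h := by
    have hpu := isPt_of_mem hF (ti_PL hF) hu hu0
    have hpv := isPt_of_mem hF (ti_PL hF) hv hv0
    have conjmul : ∀ p q : H, h * (p * q) * h⁻¹ = h * p * h⁻¹ * (h * q * h⁻¹) := fun p q => by group
    suffices hs : h * m.five w u v * h⁻¹ = m.five w (pl 1 0 0) (pl 0 1 0) by rw [← hs]; group
    simp only [Cls.five, h1, conjmul, hh _ hpu, hh _ hpv, hh _ (hline _), key]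
    rw [e₁, e₂, m.M.pt_smul _ _ hk₁ (pl_isPt (by simp) hF).1 (herm_pl_pl hF ..),
      m.M.pt_smul _ _ hk₂ (pl_isPt (by simp) hF).1 (herm_pl_pl hF ..), one_mul]
    have hc : ∀ k l : F, Commute (m.M.pt (pl 1 0 0 + k • pl 0 1 0)) (m.M.pt (pl 1 0 0 + l • pl 0 1 0)) :=
      fun k l => m.pt_comm (ti_PL hF) ((PL).add_mem (pl_mem ..) ((PL).smul_mem _ (pl_mem ..)))
        ((PL).add_mem (pl_mem ..) ((PL).smul_mem _ (pl_mem ..)))
        (by rw [smul_pl, add_pl]; exact (pl_isPt (by simp) hF).1)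
        (by rw [smul_pl, add_pl]; exact (pl_isPt (by simp) hF).1)
    congr 1
    rw [show pl (1 : F) 0 0 + pl 0 1 0 = pl 1 0 0 + (1 : F) • pl 0 1 0 by rw [one_smul]]
    rcases cases_F hw hF κ with hκ' | hκ' | hκ' | hκ'
    · exact absurd hκ' hκ0
    · rw [hκ', mul_one, mul_one]
    · rw [hκ', show w * w = w ^ 2 from (sq w).symm, show w ^ 2 * w = 1 from by rw [sq]; exact hw3]
      rw [((hc w 1).mul_left (hc (w ^ 2) 1)).eq, mul_assoc]
    · rw [hκ', show w * w ^ 2 = 1 from by rw [sq, ← mul_assoc]; exact hw3,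
        show w ^ 2 * w ^ 2 = w from by linear_combination w * hw3]
      rw [mul_assoc, ((hc (w ^ 2) 1).mul_right (hc (w ^ 2) w)).eq]
  rw [e0, h5]
  group

/-- A subgroup containing nine points and the three frames contains every point of the plane. -/
theorem pts_mem {K : Subgroup H}
    (hnine : ∀ v ∈ ([pl 1 0 0, pl 0 1 0, pl 0 0 1, pl 1 1 0, pl 1 w 0, pl 1 0 1, pl 1 0 w, pl 0 1 1,
      pl 0 1 w] : List (Fin 6 → F)), m.M.pt v ∈ K)
    (f₁ : m.M.pt (pl 1 1 1) * m.M.pt (pl 1 w (w ^ 2)) * m.M.pt (pl 1 (w ^ 2) w) ∈ K)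
    (f₂ : m.M.pt (pl 1 1 w) * m.M.pt (pl 1 w 1) * m.M.pt (pl 1 (w ^ 2) (w ^ 2)) ∈ K)
    (f₃ : m.M.pt (pl 1 1 (w ^ 2)) * m.M.pt (pl 1 (w ^ 2) 1) * m.M.pt (pl 1 w w) ∈ K) :
    ∀ v ∈ PL (F := F), v ≠ 0 → m.M.pt v ∈ K := by
  have hF := c.card
  obtain ⟨w0, w1, w20, w21, w2w⟩ := w_facts hw
  have hw3 := cube hF w0
  have h11 := add_self hF (1 : F)
  have s1 : 1 + w = w ^ 2 := by linear_combination hw + h11 - add_self hF (w ^ 2)
  have s2 : 1 + w ^ 2 = w := by linear_combination hw + h11 - add_self hF w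
  have s4 : w ^ 2 * w ^ 2 = w := by linear_combination w * hw3
  simp only [List.forall_mem_cons, List.not_mem_nil, IsEmpty.forall_iff, implies_true, and_true] at hnine
  obtain ⟨a100, a010, a001, a110, a1w0, a101, a10w, a011, a01w⟩ := hnine
  let P : F → F → F → H := fun x y z => m.M.pt (pl x y z)
  have scale : ∀ {x y z : F}, ¬ (x = 0 ∧ y = 0 ∧ z = 0) → ∀ k : F, k ≠ 0 →
      P (k * x) (k * y) (k * z) = P x y z := fun {x y z} h k hk => by
    show m.M.pt _ = m.M.pt _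
    rw [← smul_pl, m.M.pt_smul k _ hk (pl_isPt h hF).1 (herm_pl_pl hF ..)]
  have line : ∀ {u v : Fin 6 → F}, u ∈ PL (F := F) → v ∈ PL (F := F) → u ≠ 0 →
      v ∉ Submodule.span F {u} → m.M.pt u ∈ K → m.M.pt v ∈ K →
      m.M.pt (u + v) * m.M.pt (u + w • v) * m.M.pt (u + w ^ 2 • v) ∈ K := fun hu hv hu0 hvu hku hkv => by
    have h := five_one m hw h5 hu hv hu0 hvu
    rw [Cls.five] at h
    exact eq_inv_of_mul_eq_one_right h ▸ inv_mem (mul_mem hku hkv)
  have sp : ∀ {x y z x' y' z' : F}, (¬ ∃ k : F, x = k * x' ∧ y = k * y' ∧ z = k * z') →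
      pl x y z ∉ Submodule.span F {pl x' y' z'} := fun h hm => h (pl_span hm)
  have third : ∀ {p q r : H}, p * q * r ∈ K → p ∈ K → q ∈ K → r ∈ K := fun {p q r} h hp hq => by
    have := mul_mem (inv_mem (mul_mem hp hq)) h
    rwa [inv_mul_cancel_left] at this
  -- the coordinate lines
  have a1x0 : P 1 (w ^ 2) 0 ∈ K := by
    have h := line (u := pl 1 0 0) (v := pl 0 1 0) (pl_mem ..) (pl_mem ..) (pl_isPt (by simp) hF).1
      (sp (by simp)) a100 a010
    simp only [smul_pl, add_pl, mul_zero, mul_one, add_zero, zero_add] at h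
    exact third h a110 a1w0
  have a10x : P 1 0 (w ^ 2) ∈ K := by
    have h := line (u := pl 1 0 0) (v := pl 0 0 1) (pl_mem ..) (pl_mem ..) (pl_isPt (by simp) hF).1
      (sp (by simp)) a100 a001
    simp only [smul_pl, add_pl, mul_zero, mul_one, add_zero, zero_add] at h
    exact third h a101 a10w
  have a01x : P 0 1 (w ^ 2) ∈ K := by
    have h := line (u := pl 0 1 0) (v := pl 0 0 1) (pl_mem ..) (pl_mem ..) (pl_isPt (by simp) hF).1
      (sp (by simp)) a010 a001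
    simp only [smul_pl, add_pl, mul_zero, mul_one, add_zero, zero_add] at h
    exact third h a011 a01w
  -- the lines through none of the coordinate points
  have cross : ∀ s d : F, s ≠ 0 → d ≠ 0 → P 1 s 0 ∈ K → P 0 1 d ∈ K →
      P 1 (s + 1) d * P 1 (s + w) (w * d) * P 1 (s + w ^ 2) (w ^ 2 * d) ∈ K := by
    intro s d hs hd hu hv
    have h := line (u := pl 1 s 0) (v := pl 0 1 d) (pl_mem ..) (pl_mem ..) (pl_isPt (by simp) hF).1
      (sp (by rintro ⟨k, h1, -, h3⟩; exact hd (by rw [h3, mul_zero]))) hu hv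
    simpa only [smul_pl, add_pl, mul_zero, mul_one, add_zero, zero_add] using h
  have first : ∀ {p q r : H}, p * q * r ∈ K → q * r ∈ K → p ∈ K := fun {p q r} h hqr => by
    have := mul_mem h (inv_mem hqr)
    rwa [mul_assoc p q r, mul_inv_cancel_right] at this
  have drop1 : ∀ {p q r : H}, p ∈ K → p * q * r ∈ K → q * r ∈ K := fun {p q r} hp h => by
    have := mul_mem (inv_mem hp) h
    rwa [mul_assoc p, inv_mul_cancel_left] at this
  have com : ∀ {x y z x' y' z' : F}, ¬ (x = 0 ∧ y = 0 ∧ z = 0) → ¬ (x' = 0 ∧ y' = 0 ∧ z' = 0) →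
      Commute (P x y z) (P x' y' z') := fun h h' =>
    m.pt_comm (ti_PL hF) (pl_mem ..) (pl_mem ..) (pl_isPt h hF).1 (pl_isPt h' hF).1
  have sw : ∀ {x y z x' y' z' : F}, ¬ (x = 0 ∧ y = 0 ∧ z = 0) → ¬ (x' = 0 ∧ y' = 0 ∧ z' = 0) →
      P x y z * P x' y' z' ∈ K → P x' y' z' * P x y z ∈ K := fun h h' hm => by
    rwa [(com h h').eq] at hm
  -- s = 1
  have b1 : P 1 1 1 ∈ K := by
    have h := drop1 (by simpa [h11] using (show P 1 0 1 ∈ K from a101)) (cross 1 1 one_ne_zero one_ne_zero a110 a011)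
    simp only [s1, s2, mul_one] at h
    exact first f₁ (sw (by simp) (by simp) h)
  have b2 : P 1 1 w ∈ K := by
    have h := drop1 (by simpa [h11] using (show P 1 0 w ∈ K from a10w)) (cross 1 w one_ne_zero w0 a110 a01w)
    simp only [s1, s2, show w * w = w ^ 2 from (sq w).symm, show w ^ 2 * w = 1 from by rw [sq]; exact hw3] at h
    exact first f₂ (sw (by simp) (by simp) h)
  have b3 : P 1 1 (w ^ 2) ∈ K := by
    have h := drop1 (by simpa [h11] using (show P 1 0 (w ^ 2) ∈ K from a10x))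
      (cross 1 (w ^ 2) one_ne_zero w20 a110 a01x)
    simp only [s1, s2, s4, show w * w ^ 2 = 1 from by rw [sq, ← mul_assoc]; exact hw3] at h
    exact first f₃ h
  -- s = w and s = w ^ 2
  have t1 : w + 1 = w ^ 2 := by rw [add_comm]; exact s1
  have t2 : w ^ 2 + 1 = w := by rw [add_comm]; exact s2
  have t3 : w ^ 2 + w = 1 := by rw [add_comm]; exact hw
  have first' : ∀ {p q r : H}, p * q * r ∈ K → q ∈ K → r ∈ K → p ∈ K := fun h hq hr => first h (mul_mem hq hr)
  have mid : ∀ {p q r : H}, p * q * r ∈ K → q ∈ K → p * q * r = q * p * r → p * r ∈ K := fun h hq e => by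
    exact drop1 hq (e ▸ h)
  have row : ∀ d : F, d ≠ 0 → P 0 1 d ∈ K → P 1 0 (w * d) ∈ K → P 1 1 (w ^ 2 * d) ∈ K →
      P 1 (w ^ 2) d ∈ K := fun d hd h01 h10 h11' => by
    have h := cross w d w0 hd a1w0 h01
    rw [t1, add_self hF, hw] at h
    exact first' h h10 h11'
  have row' : ∀ d : F, d ≠ 0 → P 0 1 d ∈ K → P 1 1 (w * d) ∈ K → P 1 0 (w ^ 2 * d) ∈ K →
      P 1 w d ∈ K := fun d hd h01 h11' h10 => by
    have h := cross (w ^ 2) d w20 hd a1x0 h01
    rw [t2, add_self hF, t3] at h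
    exact first' h h11' h10
  have ww : w * w = w ^ 2 := (sq w).symm
  have www : w * w ^ 2 = 1 := by rw [sq, ← mul_assoc]; exact hw3
  have www' : w ^ 2 * w = 1 := by rw [sq]; exact hw3
  have c1 := row 1 one_ne_zero a011 (by rw [mul_one]; exact a10w) (by rw [mul_one]; exact b3)
  have c2 := row w w0 a01w (by rw [ww]; exact a10x) (by rw [www']; exact b1)
  have c3 := row (w ^ 2) w20 a01x (by rw [www]; exact a101) (by rw [s4]; exact b2)
  have d1 := row' 1 one_ne_zero a011 (by rw [mul_one]; exact b2) (by rw [mul_one]; exact a10x)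
  have d2 := row' w w0 a01w (by rw [ww]; exact b3) (by rw [www']; exact a101)
  have d3 := row' (w ^ 2) w20 a01x (by rw [www]; exact b1) (by rw [s4]; exact a10w)
  -- all points
  have norm1 : ∀ y z : F, P 1 y z ∈ K := fun y z => by
    rcases cases_F hw hF y with rfl | rfl | rfl | rfl <;> rcases cases_F hw hF z with rfl | rfl | rfl | rfl <;>
      assumption
  have norm2 : ∀ z : F, P 0 1 z ∈ K := fun z => by
    rcases cases_F hw hF z with rfl | rfl | rfl | rfl <;> assumption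
  rintro v ⟨x, y, z, rfl⟩ hv
  show P x y z ∈ K
  by_cases hx : x = 0
  · subst hx
    by_cases hy : y = 0
    · subst hy
      have hz : z ≠ 0 := fun h => hv (by subst h; funext i; fin_cases i <;> simp [pl])
      rw [← scale (x := (0 : F)) (y := 0) (z := z) (by simp [hz]) z⁻¹ (inv_ne_zero hz), mul_zero,
        inv_mul_cancel₀ hz]
      exact a001
    · rw [← scale (x := (0 : F)) (y := y) (z := z) (by simp [hy]) y⁻¹ (inv_ne_zero hy), mul_zero,
        inv_mul_cancel₀ hy]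
      exact norm2 _
  · rw [← scale (x := x) (y := y) (z := z) (by simp [hx]) x⁻¹ (inv_ne_zero hx), inv_mul_cancel₀ hx]
    exact norm1 _ _

end Cfsg.Agent.H98.U62
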