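import Cfsg.Agent.H98.U62.Thompson

/-!
A conjugation invariant property of the centre, failing on squares and on which the automorphisms of the
group of a plane preserving it are transitive, holds on exactly 22 of its elements.
-/

set_option autoImplicit false
set_option linter.unusedSectionVars false

namespace Cfsg.Agent.H98.U62

open Cfsg Cfsg.Agent.H17.UPoints Cfsg.Agent.H89.M22 Subgroup H53.SylowPlane

/-- A prime without a multiplicative order of at most ten for two does not divide the automorphism group. -/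
theorem not_dvd_aut {G : Type*} [Group G] [Finite G] (hcard : Nat.card G = 1024) {p : ℕ} (hp : p.Prime)
    (hord : ∀ k < 10, ¬ p ∣ 1024 - 2 ^ k) : ¬ p ∣ Nat.card (MulAut G) := by
  intro h
  haveI := Fact.mk hp
  haveI : Finite (MulAut G) := Finite.of_injective (fun f => (f : G → G)) fun f g e => MulEquiv.ext (congrFun e)
  obtain ⟨σ, hσ⟩ := exists_prime_orderOf_dvd_card' p h
  have hZ : IsPGroup p ↥(Subgroup.zpowers σ) := IsPGroup.of_card (n := 1) (by rw [Nat.card_zpowers, hσ, pow_one])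
  let K : Subgroup G :=
    { carrier := {x | σ x = x}
      mul_mem' := fun {x y} hx hy => by show σ (x * y) = x * y; rw [map_mul, hx, hy]
      one_mem' := map_one σ
      inv_mem' := fun {x} hx => by show σ x⁻¹ = x⁻¹; rw [map_inv, hx] }
  haveI : Finite (MulAction.fixedPoints ↥(Subgroup.zpowers σ) G) := Subtype.finite
  have hmod := hZ.card_modEq_card_fixedPoints G
  have hfix : Nat.card (MulAction.fixedPoints ↥(Subgroup.zpowers σ) G) = Nat.card K := by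
    refine Nat.card_congr (Equiv.setCongr (Set.ext fun x => ?_))
    constructor
    · intro hx; exact hx ⟨σ, Subgroup.mem_zpowers σ⟩
    · rintro hx ⟨τ, hτ⟩
      have hle : Subgroup.zpowers σ ≤ MulAction.stabilizer (MulAut G) x := Subgroup.zpowers_le.2 hx
      exact hle hτ
  rw [hfix, hcard] at hmod
  obtain ⟨k, hk10, hk⟩ := (Nat.dvd_prime_pow Nat.prime_two).1
    (show Nat.card K ∣ 2 ^ 10 by rw [show 2 ^ 10 = Nat.card G by rw [hcard]; norm_num]; exact K.card_subgroup_dvd_card)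
  rcases lt_or_eq_of_le hk10 with hlt | rfl
  · refine hord k hlt ?_
    rw [hk] at hmod
    exact (Nat.modEq_iff_dvd' (by
      calc 2 ^ k ≤ 2 ^ 10 := Nat.pow_le_pow_right (by norm_num) hk10
        _ = 1024 := by norm_num)).1 hmod.symm
  · have hK : K = ⊤ := K.eq_top_of_card_eq (by rw [hk, hcard]; norm_num)
    have : σ = 1 := MulEquiv.ext fun x => by
      have hx : x ∈ K := hK ▸ Subgroup.mem_top x
      exact hx
    rw [this, orderOf_one] at hσ
    exact hp.one_lt.ne hσ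

variable {F : Type} [Field F] [Fintype F] [DecidableEq F] {H : Type*} [Group H] [Finite H]
variable {c : Cov H F} (m : Cls c)

theorem pts_indep {p q : Fin 6 → F} (hp : p ∈ PL (F := F)) (hq : q ∈ PL (F := F)) (hp0 : p ≠ 0) (hq0 : q ≠ 0)
    (hne : m.M.pt p ≠ m.M.pt q) : p ∉ Submodule.span F {q} := fun hm => by
  obtain ⟨k, hk⟩ := Submodule.mem_span_singleton.1 hm
  refine hne ?_
  rw [← hk, m.M.pt_smul k q (fun e => hp0 (by rw [← hk, e, zero_smul])) hq0 (ti_PL c.card q hq q hq)]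

theorem pair_img {p q r s : Fin 6 → F} (hp : p ∈ PL (F := F)) (hq : q ∈ PL (F := F)) (hr : r ∈ PL (F := F))
    (hs : s ∈ PL (F := F)) (hp0 : p ≠ 0) (hq0 : q ≠ 0) (hr0 : r ≠ 0) (hs0 : s ≠ 0)
    (hne : m.M.pt p ≠ m.M.pt q) (h : c.π (m.M.pt p * m.M.pt q) = c.π (m.M.pt r * m.M.pt s)) :
    (m.M.pt r = m.M.pt p ∧ m.M.pt s = m.M.pt q) ∨ (m.M.pt r = m.M.pt q ∧ m.M.pt s = m.M.pt p) := by
  have hS := ti_PL c.card
  have P : ∀ {x : Fin 6 → F}, x ∈ PL (F := F) → x ≠ 0 → IsPt x := isPt_of_mem c.card hS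
  rw [π_pts m (P hp hp0) (P hq hq0), π_pts m (P hr hr0) (P hs hs0)] at h
  have e := su_eq c.card (sq_two c.card (P hp hp0) (P hq hq0) (hS _ hp _ hq))
    (sq_two c.card (P hr hr0) (P hs hs0) (hS _ hr _ hs)) h
  have back : ∀ {x y : Fin 6 → F}, IsPt x → IsPt y → trv c.card x = trv c.card y → m.M.pt x = m.M.pt y :=
    fun hx hy h => T_unique c m.hp m.ha (m.hpt _ hx).1 (m.hpt _ hy).1 (by rw [(m.hpt _ hx).2, (m.hpt _ hy).2, h])
  rcases trv_pair c.card (P hp hp0) (P hq hq0) (P hr hr0) (P hs hs0) (hS _ hp _ hq) (hS _ hr _ hs)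
    (pts_indep m hp hq hp0 hq0 hne) e with ⟨h1, h2⟩ | ⟨h1, h2⟩
  · exact Or.inl ⟨back (P hr hr0) (P hp hp0) h1, back (P hs hs0) (P hq hq0) h2⟩
  · exact Or.inr ⟨back (P hr hr0) (P hq hq0) h1, back (P hs hs0) (P hp hp0) h2⟩

theorem not_single {p q r : Fin 6 → F} (hp : p ∈ PL (F := F)) (hq : q ∈ PL (F := F)) (hr : r ∈ PL (F := F))
    (hp0 : p ≠ 0) (hq0 : q ≠ 0) (hr0 : r ≠ 0) (hne : m.M.pt p ≠ m.M.pt q) :
    c.π (m.M.pt p * m.M.pt q) ≠ c.π (m.M.pt r) ∧ c.π (m.M.pt p * m.M.pt q) ≠ 1 := by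
  have hS := ti_PL c.card
  have P : ∀ {x : Fin 6 → F}, x ∈ PL (F := F) → x ≠ 0 → IsPt x := isPt_of_mem c.card hS
  refine ⟨fun h => ?_, fun h => ?_⟩
  · rw [π_pts m (P hp hp0) (P hq hq0), (m.hpt r (P hr hr0)).2] at h
    exact trv_not_two c.card (P hp hp0) (P hq hq0) (P hr hr0) (hS _ hp _ hq) (pts_indep m hp hq hp0 hq0 hne)
      (su_eq c.card (sq_two c.card (P hp hp0) (P hq hq0) (hS _ hp _ hq)) (trv_sq c.card (P hr hr0).2) h)
  · refine hne (T_unique c m.hp m.ha (m.hpt _ (P hp hp0)).1 (m.hpt _ (P hq hq0)).1 ?_)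
    rw [map_mul] at h
    rw [eq_inv_of_mul_eq_one_left h, ← map_inv, inv_eq_of_mul_eq_one_right (m.pt_sq (P hq hq0))]

/-- A product of two distinct members of the plane is a square. -/
theorem pair_square : ∃ y : H, ∃ p ∈ PL (F := F), ∃ q ∈ PL (F := F), p ≠ 0 ∧ q ≠ 0 ∧ m.M.pt p ≠ m.M.pt q ∧
    y * y = m.M.pt p * m.M.pt q := by
  have hF := c.card
  obtain ⟨v, hv, hv0⟩ := exists_sep hF (S := Submodule.span F {pl (1 : F) 0 0}) (x := pl (0 : F) 1 0) (fun hm => by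
    obtain ⟨k, h1, h2⟩ := pl_span hm
    exact one_ne_zero (α := F) (by simpa using h2.1))
  obtain ⟨k, hk, hka⟩ := exists_iso_add hF (herm_pl_pl hF (0 : F) 1 0 0 1 0) hv
  set f := v + k • pl (0 : F) 1 0 with hf
  set e1 := pl (1 : F) 0 0 with he1
  set e2 := pl (0 : F) 1 0 with he2
  have he11 : herm e1 e1 = 0 := herm_pl_pl hF ..
  have hfe : herm f e1 = 0 := by
    rw [hf, herm_add_left hF, herm_smul_left hF, hv0 _ (Submodule.subset_span rfl), he2, he1, herm_pl_pl hF,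
      mul_zero, add_zero]
  have hef : herm e1 f = 0 := (herm_zero_comm hF).1 hfe
  have hact := sigma_act hF he11 hk.2 hef (μ := 1) one_ne_zero
  obtain ⟨σ, hσ⟩ := c.hsur (trv hF (e1 + (1 : F) • f) * trv hF e1 * trv hF f : ↥(Cfsg.SU 6 F 2))
  have hσ' : c.π σ = ((trv hF (e1 + (1 : F) • f) * trv hF e1 * trv hF f : ↥(Cfsg.SU 6 F 2)) : Cfsg.PSU 6 F 2) := hσ
  have hσ2 : σ * σ = 1 := H43.sq_eq_one_of_image hF c.hker c.hzc c.hsur rfl (by
    rw [map_mul, hσ', ← QuotientGroup.mk_mul, ← QuotientGroup.mk_one]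
    refine congrArg QuotientGroup.mk (ext_act fun x => ?_)
    rw [act_mul, hact, hact, act_one]
    simp only [one_pow, one_mul, herm_add_left hF, herm_smul_left hF, he11, hef, hfe, hk.2, mul_zero, add_zero]
    funext i
    simp only [Pi.add_apply, Pi.smul_apply, smul_eq_mul]
    linear_combination (herm x f * e1 i + herm x e1 * f i) * add_self hF (1 : F))
  have he22 : IsPt e2 := pl_isPt (by simp) hF
  have hg2 : act (trv hF (e1 + (1 : F) • f) * trv hF e1 * trv hF f) e2 = pl 1 1 0 := by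
    rw [hact, show herm e2 f = 1 from by rw [← herm_conj hF, hka, one_pow],
      show herm e2 e1 = 0 from herm_pl_pl hF .., one_pow, one_mul, one_smul, mul_zero, zero_smul, add_zero,
      he1, he2, add_pl]
    simp
  have hconj := conj_pt m hσ' he22
  rw [hg2, inv_eq_of_mul_eq_one_right hσ2] at hconj
  refine ⟨σ * m.M.pt e2, pl 1 1 0, pl_mem .., e2, pl_mem .., (pl_isPt (by simp) hF).1, he22.1, fun h => ?_, ?_⟩
  · obtain ⟨a, -, ha⟩ := m.M.pt_inj _ _ (pl_isPt (by simp) hF).1 (herm_pl_pl hF ..) he22.1 he22.2 h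
    rw [he2, smul_pl, mul_zero] at ha
    exact one_ne_zero (pl_inj ha).1
  · rw [← hconj]; group

/-- The property holds at twenty-two elements, all but the central one the lifts of one kind. -/
theorem kinds {w : F} (hw : w + w ^ 2 = 1) (h5 : m.five w (pl 1 0 0) (pl 0 1 0) = 1) (Q : H → Prop)
    (hQc : ∀ g x, Q x → Q (g * x * g⁻¹)) (hsq : ∀ y, ¬ Q (y * y)) (hQz : Q c.z)
    (hex : ∃ x ∈ m.grpz (PL (F := F)), Q x ∧ x ≠ c.z)
    (htrans : ∀ x : ↥(m.grpz (PL (F := F))), Q x → ∀ y : ↥(m.grpz (PL (F := F))), Q y →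
      ∃ φ : MulAut ↥(m.grpz (PL (F := F))), (∀ u, Q (φ u) ↔ Q u) ∧ φ x = y) :
    {x | x ∈ m.grpz (PL (F := F)) ∧ Q x}.ncard = 22 ∧ ∀ x ∈ m.grpz (PL (F := F)), Q x →
      x = c.z ∨ ∃ v ∈ PL (F := F), v ≠ 0 ∧ (x = m.M.pt v ∨ x = m.M.pt v * c.z) := by
  classical
  have hF := c.card
  have hS := ti_PL hF
  have hzz := zz c
  set A := m.grpz (PL (F := F)) with hA
  obtain ⟨hA2, hAc⟩ := grpz_elementary m hS
  have hA1024 : Nat.card A = 1024 := card_A0 m hw h5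
  have P : ∀ {x : Fin 6 → F}, x ∈ PL (F := F) → x ≠ 0 → IsPt x := isPt_of_mem hF hS
  have inA : ∀ {x : Fin 6 → F}, x ∈ PL (F := F) → x ≠ 0 → m.M.pt x ∈ A := fun h h0 => grp_le m _ (pt_mem m h h0)
  have hzA : c.z ∈ A := z_mem m _
  -- the kinds
  let T : Set H := pts m.M (PL (F := F))
  let Tz : Set H := (· * c.z) '' T
  let R2 : Set H := {x | ∃ p ∈ T, ∃ q ∈ T, p ≠ q ∧ x = p * q}
  let R2z : Set H := (· * c.z) '' R2
  let R3 : Set H := (A : Set H) \ (({1, c.z} : Set H) ∪ T ∪ Tz ∪ R2 ∪ R2z)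
  have hTA : T ⊆ A := fun x ⟨v, hv, hv0, e⟩ => e ▸ inA hv hv0
  have hTzA : Tz ⊆ A := Set.image_subset_iff.2 fun x hx => mul_mem (hTA hx) hzA
  have hR2A : R2 ⊆ A := fun x ⟨p, hp, q, hq, _, e⟩ => e ▸ mul_mem (hTA hp) (hTA hq)
  have hR2zA : R2z ⊆ A := Set.image_subset_iff.2 fun x hx => mul_mem (hR2A hx) hzA
  have πz : ∀ x, c.π (x * c.z) = c.π x := π_mul_z c
  have hTπ : ∀ {x y}, x ∈ T → y ∈ T → c.π x = c.π y → x = y := fun hx hy h =>
    T_unique c m.hp m.ha (pts_T m hS hx) (pts_T m hS hy) h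
  have hT1 : ∀ {x}, x ∈ T → c.π x ≠ 1 := by
    rintro _ ⟨v, hv, hv0, rfl⟩ h
    have h1 := trv_order c (P hv hv0)
    rw [← (m.hpt v (P hv hv0)).2, h, orderOf_one] at h1
    exact absurd h1 (by norm_num)
  have hR2π : ∀ {x}, x ∈ R2 → c.π x ≠ 1 ∧ ∀ t ∈ T, c.π x ≠ c.π t := by
    rintro _ ⟨_, ⟨p, hp, hp0, rfl⟩, _, ⟨q, hq, hq0, rfl⟩, hne, rfl⟩
    refine ⟨(not_single m hp hq hp hp0 hq0 hp0 hne).2, ?_⟩
    rintro _ ⟨r, hr, hr0, rfl⟩
    exact (not_single m hp hq hr hp0 hq0 hr0 hne).1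
  have hR2inj : ∀ {x y}, x ∈ R2 → y ∈ R2 → c.π x = c.π y → x = y := by
    rintro _ _ ⟨_, ⟨p, hp, hp0, rfl⟩, _, ⟨q, hq, hq0, rfl⟩, hne, rfl⟩
      ⟨_, ⟨r, hr, hr0, rfl⟩, _, ⟨s, hs, hs0, rfl⟩, -, rfl⟩ h
    rcases pair_img m hp hq hr hs hp0 hq0 hr0 hs0 hne h with ⟨h1, h2⟩ | ⟨h1, h2⟩
    · rw [h1, h2]
    · rw [h1, h2, (pts_commute m.M hS _ ⟨p, hp, hp0, rfl⟩ _ ⟨q, hq, hq0, rfl⟩).eq]
  have hnz : ∀ x, x * c.z ≠ x := mul_z_ne c
  -- disjointness
  have d1 : Disjoint T Tz := Set.disjoint_left.2 fun x hx ⟨y, hy, e⟩ => by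
    have := hTπ hy hx (by rw [← e, πz])
    exact hnz y (e.trans this.symm)
  have d2 : Disjoint (T ∪ Tz) (R2 ∪ R2z) := Set.disjoint_left.2 fun x hx hx' => by
    obtain ⟨t, ht, et⟩ : ∃ t ∈ T, c.π x = c.π t := hx.elim (fun h => ⟨x, h, rfl⟩)
      fun ⟨y, hy, e⟩ => ⟨y, hy, by rw [← e, πz]⟩
    rcases hx' with h | ⟨y, hy, e⟩
    · exact (hR2π h).2 t ht et
    · exact (hR2π hy).2 t ht (by rw [← et, ← e, πz])
  have d3 : Disjoint R2 R2z := Set.disjoint_left.2 fun x hx ⟨y, hy, e⟩ => by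
    have := hR2inj hy hx (by rw [← e, πz])
    exact hnz y (e.trans this.symm)
  have d0 : Disjoint ({1, c.z} : Set H) (T ∪ Tz ∪ R2 ∪ R2z) := Set.disjoint_left.2 fun x hx hx' => by
    have h1 : c.π x = 1 := (c.hker x).2 hx
    rcases hx' with ((h | ⟨y, hy, e⟩) | h) | ⟨y, hy, e⟩
    · exact hT1 h h1
    · exact hT1 hy (by rw [← πz, show y * c.z = x from e, h1])
    · exact (hR2π h).1 h1
    · exact (hR2π hy).1 (by rw [← πz, show y * c.z = x from e, h1])
  -- sizes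
  have cT : T.ncard = 21 := pts_card21 m hS (rank_PL hF)
  have cTz : Tz.ncard = 21 := by rw [Set.ncard_image_of_injective _ (mul_left_injective _), cT]
  have cR2 : R2.ncard = 210 := by
    haveI := Fintype.ofFinite H
    let Tf : Finset H := T.toFinset
    have e : R2 = (Tf.offDiag.image fun pq : H × H => pq.1 * pq.2 : Finset H) := by
      ext x
      simp only [Finset.coe_image, Set.mem_image, Finset.mem_coe, Finset.mem_offDiag, Tf, Set.mem_toFinset, R2,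
        Set.mem_setOf_eq, Prod.exists]
      exact ⟨fun ⟨p, hp, q, hq, hne, e⟩ => ⟨p, q, ⟨hp, hq, hne⟩, e.symm⟩,
        fun ⟨p, q, ⟨hp, hq, hne⟩, e⟩ => ⟨p, hp, q, hq, hne, e.symm⟩⟩
    rw [e, Set.ncard_coe_finset]
    have h420 : Tf.offDiag.card = 420 := by
      rw [Finset.offDiag_card, show Tf.card = 21 by rw [← cT, Set.ncard_eq_toFinset_card' T]]
    have h2 : ∀ x ∈ Tf.offDiag.image (fun pq : H × H => pq.1 * pq.2),
        (Tf.offDiag.filter fun pq => pq.1 * pq.2 = x).card = 2 := by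
      intro x hx
      obtain ⟨⟨p, q⟩, hpq, rfl⟩ := Finset.mem_image.1 hx
      simp only [Finset.mem_offDiag, Tf, Set.mem_toFinset] at hpq
      obtain ⟨hp, hq, hne⟩ := hpq
      rw [show (Tf.offDiag.filter fun rs => rs.1 * rs.2 = p * q) = {(p, q), (q, p)} from ?_, Finset.card_pair
        (fun h => hne (congrArg Prod.fst h))]
      ext ⟨r, s⟩
      simp only [Finset.mem_filter, Finset.mem_offDiag, Tf, Set.mem_toFinset, Finset.mem_insert,
        Finset.mem_singleton, Prod.mk.injEq]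
      constructor
      · rintro ⟨⟨⟨r', hr, hr0, rfl⟩, ⟨s', hs, hs0, rfl⟩, -⟩, h⟩
        obtain ⟨p', hp', hp0, rfl⟩ := hp
        obtain ⟨q', hq', hq0, rfl⟩ := hq
        exact pair_img m hp' hq' hr hs hp0 hq0 hr0 hs0 hne (by rw [h])
      · rintro (⟨rfl, rfl⟩ | ⟨rfl, rfl⟩)
        · exact ⟨⟨hp, hq, hne⟩, rfl⟩
        · exact ⟨⟨hq, hp, hne.symm⟩, (pts_commute m.M hS _ hq _ hp).eq⟩
    have := Finset.card_eq_sum_card_image (fun pq : H × H => pq.1 * pq.2) Tf.offDiag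
    rw [Finset.sum_congr rfl h2, Finset.sum_const, smul_eq_mul, h420] at this
    omega
  have cR2z : R2z.ncard = 210 := by rw [Set.ncard_image_of_injective _ (mul_left_injective _), cR2]
  have cR3 : R3.ncard = 560 := by
    have hall : ({1, c.z} ∪ T ∪ Tz ∪ R2 ∪ R2z : Set H) ⊆ A := Set.union_subset (Set.union_subset (Set.union_subset
      (Set.union_subset (Set.insert_subset (one_mem A) (Set.singleton_subset_iff.2 hzA)) hTA) hTzA) hR2A) hR2zA
    have e : ({1, c.z} ∪ T ∪ Tz ∪ R2 ∪ R2z : Set H) = {1, c.z} ∪ (T ∪ Tz ∪ R2 ∪ R2z) := by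
      simp only [Set.union_assoc]
    rw [Set.ncard_diff hall (Set.toFinite _), ← Nat.card_coe_set_eq, show Nat.card ↥(A : Set H) = 1024 from hA1024,
      e, Set.ncard_union_eq d0 (Set.toFinite _) (Set.toFinite _), Set.ncard_pair c.hz1.symm,
      show T ∪ Tz ∪ R2 ∪ R2z = (T ∪ Tz) ∪ (R2 ∪ R2z) from Set.union_assoc _ _ _,
      Set.ncard_union_eq d2 (Set.toFinite _) (Set.toFinite _), Set.ncard_union_eq d1 (Set.toFinite _) (Set.toFinite _),
      Set.ncard_union_eq d3 (Set.toFinite _) (Set.toFinite _), cT, cTz, cR2, cR2z]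
  -- each kind is fused
  have Qiff : ∀ {x y g}, g * x * g⁻¹ = y → (Q x ↔ Q y) := fun {x y g} h =>
    ⟨fun hx => h ▸ hQc g x hx, fun hy => by have := hQc g⁻¹ y hy; rwa [← h, show g⁻¹ * (g * x * g⁻¹) * g⁻¹⁻¹ = x by group] at this⟩
  have mulz : ∀ (g x : H), g * (x * c.z) * g⁻¹ = g * x * g⁻¹ * c.z := fun g x => by
    rw [mul_assoc (g * x), ← (c.hzc g⁻¹).eq]; group
  set t1 := m.M.pt (pl 1 0 0) with ht1
  set t2 := m.M.pt (pl 0 1 0) with ht2
  set t3 := m.M.pt (pl 0 0 1) with ht3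
  have e1p := pl_isPt (F := F) (a := 1) (b := 0) (d := 0) (by simp) hF
  have e2p := pl_isPt (F := F) (a := 0) (b := 1) (d := 0) (by simp) hF
  have e3p := pl_isPt (F := F) (a := 0) (b := 0) (d := 1) (by simp) hF
  have pick : ∀ {u v : Fin 6 → F}, u ∈ PL (F := F) → v ∈ PL (F := F) → u ≠ 0 → v ∉ Submodule.span F {u} →
      ∃ r ∈ PL (F := F), r ∉ Submodule.span F {u, v} := fun {u v} _ _ _ _ => by
    by_contra hne
    push Not at hne
    have h1 := Submodule.finrank_mono (show PL (F := F) ≤ Submodule.span F {u, v} from hne)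
    have h3 := finrank_range_le_card (R := F) ![u, v]
    rw [Set.finrank, Matrix.range_cons_cons_empty, Fintype.card_fin] at h3
    rw [rank_PL hF] at h1
    omega
  have trip : ∀ {u v r : Fin 6 → F}, u ∈ PL (F := F) → v ∈ PL (F := F) → r ∈ PL (F := F) → u ≠ 0 →
      v ∉ Submodule.span F {u} → r ∉ Submodule.span F {u, v} →
      ∃ g : H, g * m.M.pt u * g⁻¹ = t1 ∧ g * m.M.pt v * g⁻¹ = t2 ∧ g * m.M.pt r * g⁻¹ = t3 := by
    intro u v r hu hv hr hu0 hvu hruv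
    obtain ⟨g, -, ⟨k₁, hk₁, e₁⟩, ⟨k₂, hk₂, e₂⟩, ⟨k₃, hk₃, e₃⟩⟩ := move_std hF hu hv hr hu0 hvu hruv
    obtain ⟨h, hh⟩ := m.conj (g := g)
    have hv0 : v ≠ 0 := fun e => hvu (e ▸ Submodule.zero_mem _)
    have hr0 : r ≠ 0 := fun e => hruv (e ▸ Submodule.zero_mem _)
    refine ⟨h, ?_, ?_, ?_⟩
    · rw [hh _ (P hu hu0), e₁, m.M.pt_smul _ _ hk₁ e1p.1 e1p.2]
    · rw [hh _ (P hv hv0), e₂, m.M.pt_smul _ _ hk₂ e2p.1 e2p.2]
    · rw [hh _ (P hr hr0), e₃, m.M.pt_smul _ _ hk₃ e3p.1 e3p.2]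
  have flip : ∀ {u v : Fin 6 → F}, v ≠ 0 → u ∉ Submodule.span F {v} → v ∉ Submodule.span F {u} :=
    fun {u v} hv h hm => by
      obtain ⟨k, hk⟩ := Submodule.mem_span_singleton.1 hm
      exact h (Submodule.mem_span_singleton.2 ⟨k⁻¹, by
        rw [← hk, inv_smul_smul₀ (fun e => hv (by rw [← hk, e, zero_smul]))]⟩)
  have kT : ∀ x ∈ T, (Q x ↔ Q t1) ∧ (Q (x * c.z) ↔ Q (t1 * c.z)) := by
    rintro _ ⟨u, hu, hu0, rfl⟩
    obtain ⟨v, hv, hvu⟩ : ∃ v ∈ PL (F := F), v ∉ Submodule.span F {u} := by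
      by_contra hne
      push Not at hne
      have h1 := Submodule.finrank_mono (show PL (F := F) ≤ Submodule.span F {u} from hne)
      rw [rank_PL hF, finrank_span_singleton hu0] at h1
      omega
    obtain ⟨r, hr, hruv⟩ := pick hu hv hu0 hvu
    obtain ⟨g, g1, -, -⟩ := trip hu hv hr hu0 hvu hruv
    exact ⟨Qiff g1, Qiff (by rw [mulz, g1])⟩
  have kR2 : ∀ x ∈ R2, (Q x ↔ Q (t1 * t2)) ∧ (Q (x * c.z) ↔ Q (t1 * t2 * c.z)) := by
    rintro _ ⟨_, ⟨u, hu, hu0, rfl⟩, _, ⟨v, hv, hv0, rfl⟩, hne, rfl⟩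
    have hvu := pts_indep m hv hu hv0 hu0 hne.symm
    obtain ⟨r, hr, hruv⟩ := pick hu hv hu0 hvu
    obtain ⟨g, g1, g2, -⟩ := trip hu hv hr hu0 hvu hruv
    have e : g * (m.M.pt u * m.M.pt v) * g⁻¹ = t1 * t2 := by rw [← g1, ← g2]; group
    exact ⟨Qiff e, Qiff (by rw [mulz, e])⟩
  obtain ⟨h0, hh0⟩ := frame_fused m hw h5
  have hF0 : Q (t1 * t2 * t3 * c.z) ↔ Q (t1 * t2 * t3) := (Qiff hh0).symm
  have ne' : ∀ {u : Fin 6 → F} {X : Set (Fin 6 → F)}, u ∉ Submodule.span F X → u ≠ 0 :=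
    fun h e => h (e ▸ Submodule.zero_mem _)
  have kR3 : ∀ x ∈ R3, (Q x ↔ Q (t1 * t2 * t3)) := by
    rintro x ⟨hxA, hx⟩
    obtain ⟨k, hk, hsh⟩ := elements m hS hxA (PL (F := F)) le_rfl fun g hg => hg.2.1
    rcases hsh with h | ⟨u, hu, hu0, h⟩ | ⟨u, hu, v, hv, hv0, huv, h⟩ | ⟨u, hu, v, hv, r, hr, hr0, hvr, huvr, h⟩
    · exact (hx (Or.inl (Or.inl (Or.inl (Or.inl (h.symm ▸ hk)))))).elim
    · refine (hx ?_).elim
      rcases hk with rfl | rfl
      · rw [mul_one] at h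
        exact Or.inl (Or.inl (Or.inl (Or.inr ⟨u, hu, hu0, h.symm⟩)))
      · exact Or.inl (Or.inl (Or.inr ⟨_, ⟨u, hu, hu0, rfl⟩, h.symm⟩))
    · refine (hx ?_).elim
      have h2 : m.M.pt u * m.M.pt v ∈ R2 := ⟨_, ⟨u, hu, ne' huv, rfl⟩, _, ⟨v, hv, hv0, rfl⟩,
        fun e => huv (by
          obtain ⟨a, -, ha⟩ := m.M.pt_inj u v (ne' huv) (hS u hu u hu) hv0 (hS v hv v hv) e
          exact Submodule.mem_span_singleton.2 ⟨a, ha.symm⟩), rfl⟩
      rcases hk with rfl | rfl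
      · rw [mul_one] at h
        exact Or.inl (Or.inr (h.symm ▸ h2))
      · exact Or.inr ⟨_, h2, h.symm⟩
    · have hrv : r ∉ Submodule.span F {v} := flip hr0 hvr
      obtain ⟨g, g1, g2, g3⟩ := trip hr hv hu hr0 hvr (by rw [Set.pair_comm]; exact huvr)
      have e : g * (m.M.pt u * m.M.pt v * m.M.pt r) * g⁻¹ = t1 * t2 * t3 := by
        have c12 : Commute t1 t2 := m.pt_comm hS (pl_mem ..) (pl_mem ..) e1p.1 e2p.1
        have c13 : Commute t1 t3 := m.pt_comm hS (pl_mem ..) (pl_mem ..) e1p.1 e3p.1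
        have c23 : Commute t2 t3 := m.pt_comm hS (pl_mem ..) (pl_mem ..) e2p.1 e3p.1
        calc _ = (g * m.M.pt u * g⁻¹) * (g * m.M.pt v * g⁻¹) * (g * m.M.pt r * g⁻¹) := by group
          _ = t3 * t2 * t1 := by rw [g1, g2, g3]
          _ = t1 * t2 * t3 := by rw [← (c13.mul_right c12).eq, ← c23.eq, mul_assoc]
      rcases hk with rfl | rfl
      · rw [mul_one] at h
        exact h ▸ Qiff e
      · rw [h]
        exact (Qiff (by rw [mulz, e])).trans hF0
  -- no pair is in the property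
  have noR2 : ¬ Q (t1 * t2) := fun h => by
    obtain ⟨y, p, hp, q, hq, hp0, hq0, hne, hy⟩ := pair_square m
    exact hsq y (hy ▸ (kR2 _ ⟨_, ⟨p, hp, hp0, rfl⟩, _, ⟨q, hq, hq0, rfl⟩, hne, rfl⟩).1.2 h)
  -- the set
  set Ω := {x | x ∈ A ∧ Q x} with hΩ
  have hQ1 : ¬ Q (1 : H) := by simpa using hsq 1
  let sel : Prop → Set H → Set H := fun p s => if p then s else ∅
  let X1 := sel (Q t1) T
  let X2 := sel (Q (t1 * c.z)) Tz
  let X3 := sel (Q (t1 * t2 * c.z)) R2z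
  let X4 := sel (Q (t1 * t2 * t3)) R3
  have msel : ∀ p s (x : H), x ∈ sel p s ↔ p ∧ x ∈ s := fun p s x => by
    by_cases h : p <;> simp [sel, h]
  have hset : Ω = {c.z} ∪ ((X1 ∪ X2) ∪ (X3 ∪ X4)) := by
    ext x
    simp only [X1, X2, X3, X4, Set.mem_union, Set.mem_singleton_iff, msel]
    constructor
    · rintro ⟨hxA, hxQ⟩
      by_cases h3 : x ∈ R3
      · exact Or.inr (Or.inr (Or.inr ⟨(kR3 x h3).1 hxQ, h3⟩))
      have hx : x ∈ ({1, c.z} ∪ T ∪ Tz ∪ R2 ∪ R2z : Set H) := not_not.1 fun h => h3 ⟨hxA, h⟩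
      rcases hx with (((h | h) | ⟨y, hy, rfl⟩) | h) | ⟨y, hy, rfl⟩
      · rcases h with rfl | rfl
        · exact absurd hxQ hQ1
        · exact Or.inl rfl
      · exact Or.inr (Or.inl (Or.inl ⟨(kT x h).1.1 hxQ, h⟩))
      · exact Or.inr (Or.inl (Or.inr ⟨(kT y hy).2.1 hxQ, y, hy, rfl⟩))
      · exact absurd ((kR2 x h).1.1 hxQ) noR2
      · exact Or.inr (Or.inr (Or.inl ⟨(kR2 y hy).2.1 hxQ, y, hy, rfl⟩))
    · rintro (rfl | (⟨h, hx⟩ | ⟨h, y, hy, rfl⟩) | ⟨h, y, hy, rfl⟩ | ⟨h, hx⟩)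
      · exact ⟨hzA, hQz⟩
      · exact ⟨hTA hx, (kT x hx).1.2 h⟩
      · exact ⟨hTzA ⟨y, hy, rfl⟩, (kT y hy).2.2 h⟩
      · exact ⟨hR2zA ⟨y, hy, rfl⟩, (kR2 y hy).2.2 h⟩
      · exact ⟨hx.1, (kR3 x hx).2 h⟩
  have selsub : ∀ p s, sel p s ⊆ s := fun p s x hx => ((msel p s x).1 hx).2
  have hn : Ω.ncard = 1 + ((if Q t1 then 21 else 0) + (if Q (t1 * c.z) then 21 else 0) +
      ((if Q (t1 * t2 * c.z) then 210 else 0) + (if Q (t1 * t2 * t3) then 560 else 0))) := by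
    have hzn : c.z ∉ (X1 ∪ X2) ∪ (X3 ∪ X4) := fun h => by
      have h0 : c.z ∈ ({1, c.z} : Set H) := Or.inr rfl
      rcases h with (h | h) | (h | h)
      · exact Set.disjoint_left.1 d0 h0 (Or.inl (Or.inl (Or.inl (selsub _ _ h))))
      · exact Set.disjoint_left.1 d0 h0 (Or.inl (Or.inl (Or.inr (selsub _ _ h))))
      · exact Set.disjoint_left.1 d0 h0 (Or.inr (selsub _ _ h))
      · exact (selsub _ _ h).2 (Or.inl (Or.inl (Or.inl (Or.inl h0))))
    have d34 : Disjoint R2z R3 := Set.disjoint_left.2 fun x hx hx' => hx'.2 (Or.inr hx)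
    have d1234 : Disjoint (T ∪ Tz) (R2z ∪ R3) := Set.disjoint_left.2 fun x hx hx' => hx'.elim
      (fun h => Set.disjoint_left.1 d2 hx (Or.inr h))
      (fun h => h.2 (hx.elim (fun h' => Or.inl (Or.inl (Or.inl (Or.inr h')))) (fun h' => Or.inl (Or.inl (Or.inr h')))))
    have csel : ∀ p s, (sel p s).ncard = if p then s.ncard else 0 := fun p s => by
      by_cases h : p <;> simp [sel, h]
    rw [hset, Set.ncard_union_eq (Set.disjoint_singleton_left.2 hzn) (Set.toFinite _) (Set.toFinite _),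
      Set.ncard_union_eq (d1234.mono (Set.union_subset_union (selsub _ _) (selsub _ _))
        (Set.union_subset_union (selsub _ _) (selsub _ _))) (Set.toFinite _) (Set.toFinite _),
      Set.ncard_union_eq (d1.mono (selsub _ _) (selsub _ _)) (Set.toFinite _) (Set.toFinite _),
      Set.ncard_union_eq (d34.mono (selsub _ _) (selsub _ _)) (Set.toFinite _) (Set.toFinite _),
      Set.ncard_singleton, csel, csel, csel, csel, cT, cTz, cR2z, cR3]
  suffices h22 : Ω.ncard = 22 by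
    refine ⟨h22, fun x hx hxQ => ?_⟩
    have q34 : ¬ Q (t1 * t2 * c.z) ∧ ¬ Q (t1 * t2 * t3) := by
      constructor <;> intro h <;> simp only [h, if_true] at hn <;> omega
    have hxΩ : x ∈ Ω := ⟨hx, hxQ⟩
    rw [hset] at hxΩ
    simp only [X1, X2, X3, X4, Set.mem_union, Set.mem_singleton_iff, msel, q34.1, q34.2, false_and,
      or_false] at hxΩ
    rcases hxΩ with h | ⟨-, v, hv, hv0, h⟩ | ⟨-, _, ⟨v, hv, hv0, rfl⟩, h⟩
    · exact Or.inl h
    · exact Or.inr ⟨v, hv, hv0, Or.inl h.symm⟩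
    · exact Or.inr ⟨v, hv, hv0, Or.inr h.symm⟩
  -- the automorphisms
  haveI : Finite (MulAut ↥A) := Finite.of_injective (fun f => (f : ↥A → ↥A)) fun f g e => MulEquiv.ext (congrFun e)
  let Xg : Subgroup (MulAut ↥A) :=
    { carrier := {φ | ∀ u, Q (φ u) ↔ Q u}
      mul_mem' := fun {φ ψ} hφ hψ u => (hφ (ψ u)).trans (hψ u)
      one_mem' := fun _ => Iff.rfl
      inv_mem' := fun {φ} hφ u => by
        have := hφ (φ⁻¹ u)
        rw [MulAut.apply_inv_self] at this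
        exact this.symm }
  have hdvd : Ω.ncard ∣ Nat.card (MulAut ↥A) := by
    have horb : MulAction.orbit ↥Xg (⟨c.z, hzA⟩ : ↥A) = {u : ↥A | Q u} := by
      ext u
      constructor
      · rintro ⟨⟨φ, hφ⟩, rfl⟩
        exact (hφ _).2 hQz
      · intro hu
        obtain ⟨φ, hφ, e⟩ := htrans ⟨c.z, hzA⟩ hQz u hu
        exact ⟨⟨φ, hφ⟩, e⟩
    have h1 : Nat.card (MulAction.orbit ↥Xg (⟨c.z, hzA⟩ : ↥A)) ∣ Nat.card Xg := by
      rw [← Nat.card_congr (MulAction.orbitProdStabilizerEquivGroup ↥Xg (⟨c.z, hzA⟩ : ↥A)), Nat.card_prod]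
      exact dvd_mul_right _ _
    have h2 : Nat.card {u : ↥A | Q u} = Ω.ncard := by
      rw [← Nat.card_coe_set_eq]
      exact Nat.card_congr
        { toFun := fun u => ⟨u.1.1, u.1.2, u.2⟩
          invFun := fun u => ⟨⟨u.1, u.2.1⟩, u.2.2⟩
          left_inv := fun u => rfl
          right_inv := fun u => rfl }
    rw [horb, h2] at h1
    exact h1.trans Xg.card_subgroup_dvd_card
  have kill : ∀ p : ℕ, p.Prime → (∀ k < 10, ¬ p ∣ 1024 - 2 ^ k) → p ∣ Ω.ncard → False := fun p hp ho hd =>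
    not_dvd_aut hA1024 hp ho (hd.trans hdvd)
  obtain ⟨x₀, hx₀A, hx₀Q, hx₀z⟩ := hex
  have h1lt : 2 ≤ Ω.ncard := by
    rw [← Set.ncard_pair hx₀z]
    refine Set.ncard_le_ncard ?_ (Set.toFinite _)
    rintro x (rfl | rfl)
    exacts [⟨hx₀A, hx₀Q⟩, ⟨hzA, hQz⟩]
  have ht1T : t1 ∈ T := ⟨_, pl_mem .., e1p.1, rfl⟩
  have ht2T : t2 ∈ T := ⟨_, pl_mem .., e2p.1, rfl⟩
  have ht3T : t3 ∈ T := ⟨_, pl_mem .., e3p.1, rfl⟩
  have hF0A : t1 * t2 * t3 ∈ A := mul_mem (mul_mem (hTA ht1T) (hTA ht2T)) (hTA ht3T)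
  by_cases q4 : Q (t1 * t2 * t3)
  swap
  · by_cases q1 : Q t1 <;> by_cases q2 : Q (t1 * c.z) <;> by_cases q3 : Q (t1 * t2 * c.z) <;>
      simp only [q1, q2, q3, q4, if_true, if_false] at hn
    all_goals first
      | omega
      | exact (kill 43 (by norm_num) (by intro k hk; interval_cases k <;> norm_num) ⟨1, by omega⟩).elim
      | exact (kill 211 (by norm_num) (by intro k hk; interval_cases k <;> norm_num) ⟨1, by omega⟩).elim
      | exact (kill 29 (by norm_num) (by intro k hk; interval_cases k <;> norm_num) ⟨8, by omega⟩).elim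
      | exact (kill 23 (by norm_num) (by intro k hk; interval_cases k <;> norm_num) ⟨11, by omega⟩).elim
  exfalso
  by_cases q3 : Q (t1 * t2 * c.z)
  · by_cases q12 : Q t1 ↔ Q (t1 * c.z)
    · by_cases q1 : Q t1
      · simp only [q1, q12.1 q1, q3, q4, if_true] at hn
        exact kill 271 (by norm_num) (by intro k hk; interval_cases k <;> norm_num) ⟨3, by omega⟩
      · have q2 : ¬ Q (t1 * c.z) := fun h => q1 (q12.2 h)
        simp only [q1, q2, q3, q4, if_true, if_false] at hn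
        exact kill 257 (by norm_num) (by intro k hk; interval_cases k <;> norm_num) ⟨3, by omega⟩
    -- translation by the elements outside
    have hU : ∀ u : ↥A, ¬ Q u → (u : H) ≠ 1 → Q (c.z * u) := by
      intro u hu hu1
      rw [(c.hzc (u : H)).eq]
      by_cases h3 : (u : H) ∈ R3
      · exact absurd ((kR3 _ h3).2 q4) hu
      have hx : (u : H) ∈ ({1, c.z} ∪ T ∪ Tz ∪ R2 ∪ R2z : Set H) := not_not.1 fun h => h3 ⟨u.2, h⟩
      rcases hx with (((h | h) | ⟨y, hy, e⟩) | h) | ⟨y, hy, e⟩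
      · rcases h with h | h
        · exact absurd h hu1
        · exact absurd (h.symm ▸ hQz) hu
      · have : ¬ Q t1 := fun q => hu ((kT _ h).1.2 q)
        exact (kT _ h).2.2 (by_contra fun q => q12 ⟨fun a => absurd a this, fun a => absurd a q⟩)
      · rw [← e] at hu ⊢
        have : ¬ Q (t1 * c.z) := fun q => hu ((kT _ hy).2.2 q)
        show Q (y * c.z * c.z)
        rw [mul_assoc, hzz, mul_one]
        exact (kT _ hy).1.2 (by_contra fun q => q12 ⟨fun a => absurd a q, fun a => absurd a this⟩)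
      · exact (kR2 _ h).2.2 q3
      · exact absurd (e ▸ (kR2 _ hy).2.2 q3) hu
    have hshift : ∀ x u : ↥A, Q x → ¬ Q u → (u : H) ≠ 1 → Q ((x * u : ↥A) : H) := by
      intro x u hx hu hu1
      obtain ⟨φ, hφ, e⟩ := htrans x hx ⟨c.z, hzA⟩ hQz
      rw [← hφ (x * u), map_mul, e]
      exact hU (φ u) (fun h => hu ((hφ u).1 h)) fun h => hu1 (by
        have : φ u = 1 := Subtype.ext h
        rw [map_eq_one_iff φ φ.injective] at this
        rw [this]; rfl)
    have hu23 : t2 * t3 ∈ A := mul_mem (hTA ht2T) (hTA ht3T)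
    have hne23 : t2 ≠ t3 := fun e => by
      obtain ⟨k, -, hk⟩ := m.M.pt_inj _ _ e2p.1 e2p.2 e3p.1 e3p.2 e
      rw [smul_pl, mul_zero] at hk
      exact one_ne_zero (pl_inj hk).2.1
    have h23R : t2 * t3 ∈ R2 := ⟨_, ht2T, _, ht3T, hne23, rfl⟩
    have hnu : ¬ Q (t2 * t3) := fun h => noR2 ((kR2 _ h23R).1.1 h)
    have hu1 : t2 * t3 ≠ 1 := fun h => (hR2π h23R).1 (by rw [h, map_one])
    have hsq23 : t2 * t3 * (t2 * t3) = 1 := hA2 _ hu23
    by_cases q1 : Q t1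
    · have := hshift ⟨t1 * t2 * t3 * c.z, mul_mem hF0A hzA⟩ ⟨t2 * t3, hu23⟩ (hF0.2 q4) hnu hu1
      change Q (t1 * t2 * t3 * c.z * (t2 * t3)) at this
      rw [mul_assoc t1 t2 t3, mul_assoc, (c.hzc (t2 * t3)).eq, ← mul_assoc, mul_assoc t1,
        hsq23, mul_one] at this
      exact q12 ⟨fun _ => this, fun _ => q1⟩
    · have := hshift ⟨t1 * t2 * t3, hF0A⟩ ⟨t2 * t3, hu23⟩ q4 hnu hu1
      change Q (t1 * t2 * t3 * (t2 * t3)) at this
      rw [mul_assoc t1 t2 t3, mul_assoc, hsq23, mul_one] at this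
      exact q1 this
  · by_cases q1 : Q t1
    · by_cases q2 : Q (t1 * c.z) <;> simp only [q1, q2, q3, q4, if_true, if_false] at hn
      · exact kill 67 (by norm_num) (by intro k hk; interval_cases k <;> norm_num) ⟨9, by omega⟩
      · exact kill 97 (by norm_num) (by intro k hk; interval_cases k <;> norm_num) ⟨6, by omega⟩
    by_cases q2 : Q (t1 * c.z)
    · simp only [q1, q2, q3, q4, if_true, if_false] at hn
      exact kill 97 (by norm_num) (by intro k hk; interval_cases k <;> norm_num) ⟨6, by omega⟩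
    simp only [q1, q2, q3, q4, if_true, if_false] at hn
    -- a subgroup of order 562
    have hR : ∀ y : ↥A, Q y → (y : H) ≠ c.z → Q (c.z * y) := by
      intro y hy hyz
      have hy' : (y : H) ∈ Ω := ⟨y.2, hy⟩
      rw [hset] at hy'
      simp only [X1, X2, X3, X4, Set.mem_union, Set.mem_singleton_iff, msel, q1, q2, q3, q4, false_and, false_or,
        true_and] at hy'
      have h3 := hy'.resolve_left hyz
      rw [(c.hzc (y : H)).eq]
      refine (kR3 _ ⟨mul_mem y.2 hzA, fun hm => h3.2 ?_⟩).2 q4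
      rcases hm with (((h | h) | ⟨v, hv, e⟩) | h) | ⟨v, hv, e⟩
      · rcases h with h | h
        · refine Or.inl (Or.inl (Or.inl (Or.inl (Or.inr ?_))))
          calc (y : H) = (y : H) * c.z * c.z := by rw [mul_assoc, hzz, mul_one]
            _ = c.z := by rw [h, one_mul]
        · exact Or.inl (Or.inl (Or.inl (Or.inl (Or.inl (mul_eq_right.1 h)))))
      · exact Or.inl (Or.inl (Or.inr ⟨_, h, by show (y : H) * c.z * c.z = y; rw [mul_assoc, hzz, mul_one]⟩))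
      · exact Or.inl (Or.inl (Or.inl (Or.inr (mul_right_cancel (show v * c.z = (y : H) * c.z from e) ▸ hv))))
      · exact Or.inr ⟨_, h, by show (y : H) * c.z * c.z = y; rw [mul_assoc, hzz, mul_one]⟩
      · exact Or.inl (Or.inr (mul_right_cancel (show v * c.z = (y : H) * c.z from e) ▸ hv))
    let K : Subgroup H :=
      { carrier := {x | x = 1 ∨ x ∈ Ω}
        mul_mem' := by
          rintro x y (rfl | hx) (rfl | hy)
          · exact Or.inl (one_mul 1)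
          · exact Or.inr (by rwa [one_mul])
          · exact Or.inr (by rwa [mul_one])
          · by_cases hxy : x = y
            · exact Or.inl (hxy ▸ hA2 x hx.1)
            refine Or.inr ⟨mul_mem hx.1 hy.1, ?_⟩
            obtain ⟨φ, hφ, e⟩ := htrans ⟨x, hx.1⟩ hx.2 ⟨c.z, hzA⟩ hQz
            have h := hR (φ ⟨y, hy.1⟩) ((hφ _).2 hy.2) fun h => hxy (congrArg Subtype.val
              (φ.injective (e.trans (Subtype.ext h.symm))))
            have hh := (hφ (⟨x, hx.1⟩ * ⟨y, hy.1⟩)).1 (by rw [map_mul, e]; exact h)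
            exact hh
        one_mem' := Or.inl rfl
        inv_mem' := by
          rintro x (rfl | hx)
          · exact Or.inl inv_one
          · exact Or.inr (by rwa [inv_eq_of_mul_eq_one_right (hA2 x hx.1)]) }
    have hK : Nat.card K = 562 := by
      show Nat.card ↥(K : Set H) = 562
      rw [Nat.card_coe_set_eq, show (K : Set H) = insert 1 Ω from Set.ext fun x => by simp [K],
        Set.ncard_insert_of_notMem (fun h => hQ1 h.2) (Set.toFinite _)]
      omega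
    have := Subgroup.card_dvd_of_le (show K ≤ A from fun x hx => hx.elim (fun h => h ▸ one_mem A) fun h => h.1)
    rw [hK, hA1024] at this
    norm_num at this

theorem count {w : F} (hw : w + w ^ 2 = 1) (h5 : m.five w (pl 1 0 0) (pl 0 1 0) = 1) (Q : H → Prop)
    (hQc : ∀ g x, Q x → Q (g * x * g⁻¹)) (hsq : ∀ y, ¬ Q (y * y)) (hQz : Q c.z)
    (hex : ∃ x ∈ m.grpz (PL (F := F)), Q x ∧ x ≠ c.z)
    (htrans : ∀ x : ↥(m.grpz (PL (F := F))), Q x → ∀ y : ↥(m.grpz (PL (F := F))), Q y →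
      ∃ φ : MulAut ↥(m.grpz (PL (F := F))), (∀ u, Q (φ u) ↔ Q u) ∧ φ x = y) :
    {x | x ∈ m.grpz (PL (F := F)) ∧ Q x}.ncard = 22 :=
  (kinds m hw h5 Q hQc hsq hQz hex htrans).1

end Cfsg.Agent.H98.U62
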