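import Cfsg.Agent.H98.U62.Base
import Cfsg.Agent.H89.M22.Quasi

/-! Totally isotropic planes: moves, decomposition of the involutions fixing one, uniqueness of pairs. -/

set_option autoImplicit false
set_option linter.unusedSectionVars false

namespace Cfsg.Agent.H98.U62

open Cfsg Cfsg.Agent.H17.UPoints Cfsg.Agent.H89.M22

variable {F : Type} [Field F] [Fintype F] [DecidableEq F] (hF : Fintype.card F = 4)
include hF

omit hF in
/-- The standard plane. -/
def PL : Submodule F (Fin 6 → F) where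
  carrier := {v | ∃ a b c : F, v = pl a b c}
  add_mem' := by
    rintro _ _ ⟨a, b, c, rfl⟩ ⟨a', b', c', rfl⟩
    exact ⟨a + a', b + b', c + c', by funext i; fin_cases i <;> simp [pl]⟩
  zero_mem' := ⟨0, 0, 0, by funext i; fin_cases i <;> simp [pl]⟩
  smul_mem' := by
    rintro k _ ⟨a, b, c, rfl⟩
    exact ⟨k * a, k * b, k * c, by funext i; fin_cases i <;> simp [pl]⟩

omit hF [Fintype F] [DecidableEq F] in
theorem pl_mem (a b c : F) : pl a b c ∈ PL (F := F) := ⟨a, b, c, rfl⟩

omit hF [Fintype F] [DecidableEq F] in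
theorem pl_inj {a b c a' b' c' : F} (h : pl a b c = pl a' b' c') : a = a' ∧ b = b' ∧ c = c' :=
  ⟨by simpa [pl] using congrFun h 0, by simpa [pl] using congrFun h 2, by simpa [pl] using congrFun h 4⟩

omit hF [Fintype F] [DecidableEq F] in
theorem smul_pl (k a b c : F) : k • pl a b c = pl (k * a) (k * b) (k * c) := by
  funext i; fin_cases i <;> simp [pl]

omit hF [Fintype F] [DecidableEq F] in
theorem add_pl (a b c a' b' c' : F) : pl a b c + pl a' b' c' = pl (a + a') (b + b') (c + c') := by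
  funext i; fin_cases i <;> simp [pl]

theorem ti_PL : H53.SylowPlane.TI (PL (F := F)) := by
  rintro _ ⟨a, b, c, rfl⟩ _ ⟨a', b', c', rfl⟩
  exact herm_pl_pl hF a b c a' b' c'

theorem rank_PL : Module.finrank F (PL (F := F)) = 3 := by
  let L : (Fin 3 → F) →ₗ[F] (Fin 6 → F) :=
    { toFun := fun c => pl (c 0) (c 1) (c 2)
      map_add' := fun u v => by funext i; fin_cases i <;> simp [pl]
      map_smul' := fun a v => by funext i; fin_cases i <;> simp [pl] }
  have hinj : Function.Injective L := fun u v h => by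
    obtain ⟨h0, h1, h2⟩ := pl_inj h
    funext i; fin_cases i <;> assumption
  have : PL (F := F) = LinearMap.range L := by
    ext v
    constructor
    · rintro ⟨a, b, c, rfl⟩; exact ⟨![a, b, c], rfl⟩
    · rintro ⟨u, rfl⟩; exact pl_mem _ _ _
  rw [this, LinearMap.finrank_range_of_inj hinj, Module.finrank_fin_fun]

omit hF [Fintype F] [DecidableEq F] in
theorem herm_zero' (v : Fin 6 → F) : herm v (0 : Fin 6 → F) = 0 := by simp [herm, hermForm]

theorem herm_span_zero {v : Fin 6 → F} {X : Set (Fin 6 → F)} (h : ∀ x ∈ X, herm v x = 0) :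
    ∀ y ∈ Submodule.span F X, herm v y = 0 := by
  intro y hy
  induction hy using Submodule.span_induction with
  | mem x hx => exact h x hx
  | zero => exact herm_zero' v
  | add a b _ _ ha hb => rw [herm_add_right hF, ha, hb, add_zero]
  | smul k a _ ha => rw [herm_smul_right hF, ha, mul_zero]

theorem isPt_of_mem {S : Submodule F (Fin 6 → F)} (hS : H53.SylowPlane.TI S) {v : Fin 6 → F} (hv : v ∈ S)
    (hv0 : v ≠ 0) : IsPt v := ⟨hv0, hS v hv v hv⟩

/-- The product of three transvections of a line acting as a transvection of any plane through it. -/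
theorem sigma_act {u v : Fin 6 → F} (hu : herm u u = 0) (hv : herm v v = 0) (huv : herm u v = 0) {μ : F}
    (hμ : μ ≠ 0) (x : Fin 6 → F) :
    act (trv hF (u + μ • v) * trv hF u * trv hF v) x = x + ((μ ^ 2 * herm x v) • u + (μ * herm x u) • v) := by
  have hvu := (herm_zero_comm hF).1 huv
  have h1 : herm (u + μ • v) (u + μ • v) = 0 := by
    simp only [herm_add_left hF, herm_add_right hF, herm_smul_left hF, herm_smul_right hF, hu, hv, huv, hvu,
      mul_zero, add_zero]
  rw [trv_three hF h1 hu hv (by simp [herm_add_left hF, herm_smul_left hF, hu, hvu])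
    (by simp [herm_add_left hF, herm_smul_left hF, hv, huv]) huv]
  funext i
  simp only [herm_add_right hF, herm_smul_right hF, Pi.add_apply, Pi.smul_apply, smul_eq_mul]
  linear_combination (herm x v * v i) * cube hF hμ + add_self hF (herm x u * u i) +
    add_self hF (herm x v * v i)

/-- A transvection of a plane fixing a line pointwise. -/
theorem move {S : Submodule F (Fin 6 → F)} (hS : H53.SylowPlane.TI S) {a u c₁ c₂ : Fin 6 → F} (ha : a ∈ S)
    (hc₁ : c₁ ∈ S) (hc₂ : c₂ ∈ S) (hu : u ∈ Submodule.span F {c₁, c₂}) (hna : a ∉ Submodule.span F {c₁, c₂}) :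
    ∃ g : ↥(Cfsg.SU 6 F 2), (∀ x ∈ S, act g x ∈ S) ∧ (∀ x ∈ Submodule.span F {c₁, c₂}, act g x = x) ∧
      act g a = a + u := by
  have hsS : Submodule.span F {c₁, c₂} ≤ S := Submodule.span_le.2 (by
    rintro x (rfl | rfl) <;> assumption)
  obtain ⟨s, hs, hs0⟩ := exists_sep hF hna
  obtain ⟨k, hk, hka⟩ := exists_iso_add hF (hS a ha a ha) hs
  set v := s + k • a
  have hv0 : ∀ x ∈ Submodule.span F {c₁, c₂}, herm v x = 0 := fun x hx => by
    rw [herm_add_left hF, herm_smul_left hF, hs0 x hx, hS a ha x (hsS hx), mul_zero, add_zero]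
  have huu := hS u (hsS hu) u (hsS hu)
  have huv : herm u v = 0 := (herm_zero_comm hF).1 (hv0 u hu)
  have hact := sigma_act hF huu hk.2 huv (μ := 1) one_ne_zero
  refine ⟨trv hF (u + (1 : F) • v) * trv hF u * trv hF v, fun x hx => ?_, fun x hx => ?_, ?_⟩
  · rw [hact, hS x hx u (hsS hu), mul_zero, zero_smul, add_zero]
    exact S.add_mem hx (S.smul_mem _ (hsS hu))
  · rw [hact, hS x (hsS hx) u (hsS hu), mul_zero, zero_smul, add_zero, (herm_zero_comm hF).1 (hv0 x hx),
      mul_zero, zero_smul, add_zero]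
  · have hav : herm a v = 1 := by rw [← herm_conj hF, hka, one_pow]
    rw [hact, hS a ha u (hsS hu), hav, mul_zero, zero_smul, add_zero, one_pow, one_mul, one_smul]

omit hF [Fintype F] [DecidableEq F] in
theorem act_smul' (g : ↥(Cfsg.SU 6 F 2)) (k : F) (x : Fin 6 → F) : act g (k • x) = k • act g x :=
  Matrix.mulVec_smul _ _ _

omit hF [Fintype F] [DecidableEq F] in
theorem act_add' (g : ↥(Cfsg.SU 6 F 2)) (x y : Fin 6 → F) : act g (x + y) = act g x + act g y :=
  Matrix.mulVec_add _ _ _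

omit hF [Fintype F] [DecidableEq F] in
theorem not_span_act (g : ↥(Cfsg.SU 6 F 2)) {v : Fin 6 → F} {X : Set (Fin 6 → F)}
    (h : v ∉ Submodule.span F X) : act g v ∉ Submodule.span F (act g '' X) := by
  intro hm
  let L : (Fin 6 → F) →ₗ[F] (Fin 6 → F) :=
    Matrix.mulVecLin ((g : Matrix.SpecialLinearGroup (Fin 6) F) : Matrix (Fin 6) (Fin 6) F)
  rw [show act g '' X = L '' X from rfl, Submodule.span_image] at hm
  obtain ⟨w, hw, e⟩ := hm
  have : w = v := by
    have e' : act g w = act g v := e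
    rw [← act_one w, ← inv_mul_cancel g, act_mul, e', ← act_mul, inv_mul_cancel, act_one]
  exact h (this ▸ hw)

/-- Independent pairs and triples of the standard plane are alike. -/
theorem move_std {v₁ v₂ v₃ : Fin 6 → F} (h₁ : v₁ ∈ PL (F := F)) (h₂ : v₂ ∈ PL (F := F))
    (h₃ : v₃ ∈ PL (F := F)) (n₁ : v₁ ≠ 0) (n₂ : v₂ ∉ Submodule.span F {v₁})
    (n₃ : v₃ ∉ Submodule.span F {v₁, v₂}) :
    ∃ g : ↥(Cfsg.SU 6 F 2), (∀ x ∈ PL (F := F), act g x ∈ PL (F := F)) ∧
      (∃ k : F, k ≠ 0 ∧ act g v₁ = k • pl 1 0 0) ∧ (∃ k : F, k ≠ 0 ∧ act g v₂ = k • pl 0 1 0) ∧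
      ∃ k : F, k ≠ 0 ∧ act g v₃ = k • pl 0 0 1 := by
  have hS := ti_PL hF
  have hvv : ∀ v : Fin 6 → F, v + v = 0 := fun v => funext fun i => add_self hF (v i)
  have hcomb : ∀ {a b : Fin 6 → F}, a + (a + b) = b := fun {a b} => by rw [← add_assoc, hvv, zero_add]
  obtain ⟨g₁, hg₁, k₁, hk₁, e₁⟩ : ∃ g : ↥(Cfsg.SU 6 F 2), (∀ x ∈ PL (F := F), act g x ∈ PL (F := F)) ∧
      ∃ k : F, k ≠ 0 ∧ act g v₁ = k • pl 1 0 0 := by
    by_cases hs : v₁ ∈ Submodule.span F {pl (1 : F) 0 0}
    · obtain ⟨k, hk⟩ := Submodule.mem_span_singleton.1 hs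
      exact ⟨1, fun x hx => by rwa [act_one], k, fun h => n₁ (by rw [← hk, h, zero_smul]),
        by rw [act_one, hk]⟩
    · have hc : v₁ + pl 1 0 0 ∈ PL (F := F) := (PL).add_mem h₁ (pl_mem _ _ _)
      obtain ⟨g, hg, -, he⟩ := move hF hS h₁ hc hc (u := v₁ + pl 1 0 0)
        (Submodule.subset_span (by simp)) (fun hm => by
          rw [Set.pair_eq_singleton] at hm
          obtain ⟨k, hk⟩ := Submodule.mem_span_singleton.1 hm
          by_cases hk1 : k = 1
          · rw [hk1, one_smul, add_eq_left] at hk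
            exact one_ne_zero (α := F) (by simpa [pl] using congrFun hk 0)
          · refine hs (Submodule.mem_span_singleton.2 ⟨(1 - k)⁻¹ * k, ?_⟩)
            rw [mul_smul, show k • pl 1 0 0 = (1 - k) • v₁ by
              rw [sub_smul, one_smul]; exact eq_sub_of_add_eq' (by rw [← smul_add]; exact hk),
              inv_smul_smul₀ (sub_ne_zero.2 (Ne.symm hk1))])
      exact ⟨g, hg, 1, one_ne_zero, by rw [he, hcomb, one_smul]⟩
  obtain ⟨g₂, hg₂, f₁, k₂, hk₂, e₂⟩ : ∃ g : ↥(Cfsg.SU 6 F 2), (∀ x ∈ PL (F := F), act g x ∈ PL (F := F)) ∧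
      act g (pl 1 0 0) = pl 1 0 0 ∧ ∃ k : F, k ≠ 0 ∧ act g (act g₁ v₂) = k • pl 0 1 0 := by
    obtain ⟨a, b, c, hw⟩ := hg₁ v₂ h₂
    have hn : act g₁ v₂ ∉ Submodule.span F {pl (1 : F) 0 0} := fun hm => by
      refine not_span_act g₁ n₂ ?_
      rw [Set.image_singleton, e₁, Submodule.span_singleton_smul_eq (IsUnit.mk0 _ hk₁)]
      exact hm
    by_cases hc0 : c = 0
    · have hb : b ≠ 0 := fun hb => hn (Submodule.mem_span_singleton.2 ⟨a, by
        rw [hw, hb, hc0, smul_pl, mul_one, mul_zero]⟩)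
      obtain ⟨g, hg, hfix, he⟩ := move hF hS (hg₁ v₂ h₂) (pl_mem 1 0 0) (pl_mem 1 0 0)
        (u := a • pl 1 0 0) (Submodule.smul_mem _ _ (Submodule.subset_span (by simp))) (by
          rw [Set.pair_eq_singleton]; exact hn)
      refine ⟨g, hg, hfix _ (Submodule.subset_span (by simp)), b, hb, ?_⟩
      rw [he, hw, hc0, smul_pl, smul_pl, add_pl]
      simp [add_self hF]
    · obtain ⟨g, hg, hfix, he⟩ := move hF hS (hg₁ v₂ h₂) (pl_mem 1 0 0)
        ((PL).add_mem (hg₁ v₂ h₂) (pl_mem 0 1 0)) (u := act g₁ v₂ + pl 0 1 0)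
        (Submodule.subset_span (by simp)) (fun hm => by
          obtain ⟨α, β, h⟩ := Submodule.mem_span_pair.1 hm
          rw [hw, add_pl, smul_pl, smul_pl, add_pl] at h
          obtain ⟨-, hb, hc⟩ := pl_inj h
          have hβ : β = 1 := mul_right_cancel₀ hc0 (by rw [one_mul]; linear_combination hc)
          rw [hβ] at hb
          exact one_ne_zero (by linear_combination hb))
      exact ⟨g, hg, hfix _ (Submodule.subset_span (by simp)), 1, one_ne_zero,
        by rw [he, hcomb, one_smul]⟩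
  obtain ⟨a, b, k₃, hw⟩ := hg₂ _ (hg₁ v₃ h₃)
  have hn : act g₂ (act g₁ v₃) ∉ Submodule.span F {pl (1 : F) 0 0, pl 0 1 0} := fun hm => by
    refine not_span_act (g₂ * g₁) n₃ ?_
    rw [Set.image_pair, act_mul, act_mul, act_mul, e₁, act_smul', f₁, e₂]
    rwa [Submodule.span_insert, Submodule.span_singleton_smul_eq (IsUnit.mk0 _ hk₁),
      Submodule.span_singleton_smul_eq (IsUnit.mk0 _ hk₂), ← Submodule.span_insert]
  have hk₃ : k₃ ≠ 0 := fun h => hn (Submodule.mem_span_pair.2 ⟨a, b, by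
    rw [hw, h, smul_pl, smul_pl, add_pl]; simp⟩)
  obtain ⟨g₃, hg₃, hfix, he⟩ := move hF hS (hg₂ _ (hg₁ v₃ h₃)) (pl_mem 1 0 0) (pl_mem 0 1 0)
    (u := pl a b 0) (Submodule.mem_span_pair.2 ⟨a, b, by rw [smul_pl, smul_pl, add_pl]; simp⟩) hn
  refine ⟨g₃ * g₂ * g₁, fun x hx => ?_, ⟨k₁, hk₁, ?_⟩, ⟨k₂, hk₂, ?_⟩, ⟨k₃, hk₃, ?_⟩⟩
  · rw [act_mul, act_mul]; exact hg₃ _ (hg₂ _ (hg₁ x hx))
  · rw [act_mul, act_mul, e₁, act_smul', act_smul', f₁, hfix _ (Submodule.subset_span (by simp))]
  · rw [act_mul, act_mul, e₂, act_smul', hfix _ (Submodule.subset_span (by simp))]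
  · rw [act_mul, act_mul, he, hw, smul_pl, add_pl]
    simp [add_self hF]

omit hF [Fintype F] [DecidableEq F] in
/-- A vector killed off by a triangular pairing is outside the span of the later ones. -/
theorem not_span_tri {a v : Fin 6 → F} {X : Set (Fin 6 → F)} (hv : herm v a = 1)
    (hX : ∀ x ∈ X, herm x a = 0) (hadd : ∀ p q r : Fin 6 → F, herm (p + q) r = herm p r + herm q r)
    (hsmul : ∀ (k : F) (p r : Fin 6 → F), herm (k • p) r = k * herm p r) :
    v ∉ Submodule.span F X := by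
  intro h
  have : herm v a = 0 := by
    clear hv
    induction h using Submodule.span_induction with
    | mem x hx => exact hX x hx
    | zero => simp [herm, hermForm]
    | add p q _ _ hp hq => rw [hadd, hp, hq, add_zero]
    | smul k p _ hp => rw [hsmul, hp, mul_zero]
  exact one_ne_zero (hv.symm.trans this)

/-- An involution moving into a totally isotropic subspace of dimension at most three is a product of at
most three transvections at independent points of it. -/
theorem decomp {S : Submodule F (Fin 6 → F)} (hS : H53.SylowPlane.TI S) (hd : Module.finrank F S ≤ 3)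
    (g : ↥(Cfsg.SU 6 F 2)) (hgg : g * g = 1) (himg : ∀ x, act g x + x ∈ S) :
    g = 1 ∨ (∃ u ∈ S, u ≠ 0 ∧ g = trv hF u) ∨
      (∃ u ∈ S, ∃ v ∈ S, v ≠ 0 ∧ u ∉ Submodule.span F {v} ∧ g = trv hF u * trv hF v) ∨
      ∃ u ∈ S, ∃ v ∈ S, ∃ w ∈ S, w ≠ 0 ∧ v ∉ Submodule.span F {w} ∧ u ∉ Submodule.span F {v, w} ∧
        g = trv hF u * trv hF v * trv hF w := by
  have hvv : ∀ v : Fin 6 → F, v + v = 0 := fun v => funext fun i => add_self hF (v i)
  have hfix : ∀ (k : ↥(Cfsg.SU 6 F 2)) a, act k a + a = 0 → act k a = a := fun k a h => by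
    calc act k a = act k a + (a + a) := by rw [hvv, add_zero]
      _ = a := by rw [← add_assoc, h, zero_add]
  have hsym : ∀ k : ↥(Cfsg.SU 6 F 2), k * k = 1 → ∀ a b,
      herm (act k a + a) b = herm a (act k b + b) := fun k hk a b => by
    rw [herm_add_left hF, herm_add_right hF, ← herm_act k (act k a) b, ← act_mul, hk, act_one]
  -- one step
  have step : ∀ k : ↥(Cfsg.SU 6 F 2), k * k = 1 → (∀ x, act k x + x ∈ S) → k ≠ 1 →
      ∃ k' : ↥(Cfsg.SU 6 F 2), ∃ v ∈ S, ∃ a, k = k' * trv hF v ∧ k' * k' = 1 ∧ (∀ x, act k' x + x ∈ S) ∧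
        herm v a = 1 ∧ act k' a = a ∧ ∀ b, act k b = b → herm v b = 0 ∧ act k' b = b := by
    intro k hk hkS hk1
    obtain ⟨a, ha⟩ : ∃ a, herm (act k a + a) a ≠ 0 := by
      by_contra hne
      push Not at hne
      refine hk1 (ext_act fun a => ?_)
      rw [act_one]
      exact hfix k a (polar hF (f := fun a => act k a + a)
        (fun a b => by simp only [act_add']; abel) (fun l a => by simp only [act_smul', smul_add])
        (hsym k hk) hne a)
    set v := act k a + a with hv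
    have hva : herm v a = 1 := by
      have h2 : herm v a ^ 2 = herm v a := by rw [herm_conj hF, hv, hsym k hk]
      exact mul_left_cancel₀ ha (by rw [mul_one, ← pow_two, h2])
    have hvS : v ∈ S := hkS a
    have hvv0 : herm v v = 0 := hS v hvS v hvS
    have hkv : act k v = v := by
      rw [hv, act_add', ← act_mul, hk, act_one, add_comm]
    have hcomm : k * trv hF v = trv hF v * k := by
      have h := trv_conj hF k hvv0
      rw [hkv, mul_inv_eq_iff_eq_mul] at h
      exact h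
    have hact : ∀ x, act (k * trv hF v) x = act k x + herm x v • v := fun x => by
      rw [act_mul, trv_act hF hvv0, act_add', act_smul', hkv]
    have hb0 : ∀ b, act k b = b → herm v b = 0 := fun b hb => by
      rw [hv, hsym k hk, hb, hvv, herm_zero']
    refine ⟨k * trv hF v, v, hvS, a, ?_, ?_, fun x => ?_, hva, ?_, fun b hb => ⟨hb0 b hb, ?_⟩⟩
    · rw [mul_assoc, trv_sq hF hvv0, mul_one]
    · calc k * trv hF v * (k * trv hF v) = k * (trv hF v * k) * trv hF v := by group
        _ = (k * k) * (trv hF v * trv hF v) := by rw [← hcomm]; group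
        _ = 1 := by rw [hk, trv_sq hF hvv0, one_mul]
    · rw [hact, add_right_comm]
      exact S.add_mem (hkS x) (S.smul_mem _ hvS)
    · rw [hact, show herm a v = 1 by rw [← herm_conj hF, hva, one_pow], one_smul, hv, ← add_assoc, hvv,
        zero_add]
    · rw [hact, hb, (herm_zero_comm hF).1 (hb0 b hb), zero_smul, add_zero]
  by_cases h0 : g = 1
  · exact Or.inl h0
  obtain ⟨g₁, v₁, hv₁, a₁, rfl, q₁, i₁, p₁, f₁, -⟩ := step g hgg himg h0
  have nz : ∀ {v a : Fin 6 → F}, herm v a = 1 → v ≠ 0 := fun {v a} h hv =>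
    one_ne_zero (h.symm.trans (by rw [hv]; simp [herm, hermForm]))
  refine Or.inr ?_
  by_cases h1 : g₁ = 1
  · exact Or.inl ⟨v₁, hv₁, nz p₁, by rw [h1, one_mul]⟩
  obtain ⟨g₂, v₂, hv₂, a₂, rfl, q₂, i₂, p₂, f₂, o₂⟩ := step g₁ q₁ i₁ h1
  obtain ⟨z₂₁, f₂₁⟩ := o₂ a₁ f₁
  have tri : ∀ {v a : Fin 6 → F} {X : Set (Fin 6 → F)}, herm v a = 1 → (∀ x ∈ X, herm x a = 0) →
      v ∉ Submodule.span F X := fun h h' => not_span_tri h h' (herm_add_left hF) (herm_smul_left hF)
  have swap2 : ∀ {u v : Fin 6 → F}, u ∈ S → v ∈ S → u ≠ 0 → v ∉ Submodule.span F {u} →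
      u ∉ Submodule.span F {v} := fun {u v} _ _ hu h hm => by
    obtain ⟨k, hk⟩ := Submodule.mem_span_singleton.1 hm
    refine h (Submodule.mem_span_singleton.2 ⟨k⁻¹, ?_⟩)
    rw [← hk, inv_smul_smul₀ (fun e => hu (by rw [← hk, e, zero_smul]))]
  refine Or.inr ?_
  by_cases h2 : g₂ = 1
  · refine Or.inl ⟨v₂, hv₂, v₁, hv₁, nz p₁, swap2 hv₂ hv₁ (nz p₂)
      (tri p₁ fun x hx => (Set.mem_singleton_iff.1 hx) ▸ z₂₁), by rw [h2, one_mul]⟩
  obtain ⟨g₃, v₃, hv₃, a₃, rfl, q₃, i₃, p₃, f₃, o₃⟩ := step g₂ q₂ i₂ h2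
  obtain ⟨z₃₂, f₃₂⟩ := o₃ a₂ f₂
  obtain ⟨z₃₁, f₃₁⟩ := o₃ a₁ f₂₁
  by_cases h3 : g₃ = 1
  · refine Or.inr ⟨v₃, hv₃, v₂, hv₂, v₁, hv₁, nz p₁, swap2 hv₂ hv₁ (nz p₂)
      (tri p₁ fun x hx => (Set.mem_singleton_iff.1 hx) ▸ z₂₁), ?_, by rw [h3, one_mul]⟩
    intro hm
    obtain ⟨α, β, hab⟩ := Submodule.mem_span_pair.1 hm
    have e1 := congrArg (fun x => herm x a₁) hab
    have e2 := congrArg (fun x => herm x a₂) hab
    simp only [herm_add_left hF, herm_smul_left hF, z₂₁, z₃₁, p₁, mul_zero, zero_add, mul_one] at e1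
    simp only [herm_add_left hF, herm_smul_left hF, z₃₂, p₂, e1, zero_mul, add_zero, mul_one] at e2
    exact nz p₃ (by rw [← hab, e1, e2, zero_smul, zero_smul, add_zero])
  obtain ⟨g₄, v₄, hv₄, a₄, rfl, q₄, i₄, p₄, -, o₄⟩ := step g₃ q₃ i₃ h3
  obtain ⟨z₄₁, -⟩ := o₄ a₁ f₃₁
  obtain ⟨z₄₂, -⟩ := o₄ a₂ f₃₂
  obtain ⟨z₄₃, -⟩ := o₄ a₃ f₃
  exfalso
  let L : (Fin 4 → F) →ₗ[F] ↥S :=
    Fintype.linearCombination F ![(⟨v₁, hv₁⟩ : ↥S), ⟨v₂, hv₂⟩, ⟨v₃, hv₃⟩, ⟨v₄, hv₄⟩]
  have hinj : Function.Injective L := by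
    rw [← LinearMap.ker_eq_bot]
    refine (Submodule.eq_bot_iff _).2 fun k hk => ?_
    have hk' : k 0 • v₁ + k 1 • v₂ + k 2 • v₃ + k 3 • v₄ = 0 := by
      have := congrArg Subtype.val (LinearMap.mem_ker.1 hk)
      simpa [L, Fintype.linearCombination_apply, Fin.sum_univ_four] using this
    have hz : ∀ a, herm (0 : Fin 6 → F) a = 0 := fun a => by simp [herm, hermForm]
    have e1 := congrArg (fun x => herm x a₁) hk'
    have e2 := congrArg (fun x => herm x a₂) hk'
    have e3 := congrArg (fun x => herm x a₃) hk'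
    have e4 := congrArg (fun x => herm x a₄) hk'
    simp only [herm_add_left hF, herm_smul_left hF, z₂₁, z₃₁, z₄₁, p₁, hz, mul_zero, add_zero, mul_one] at e1
    simp only [herm_add_left hF, herm_smul_left hF, z₃₂, z₄₂, p₂, e1, hz, zero_mul, mul_zero, add_zero,
      zero_add, mul_one] at e2
    simp only [herm_add_left hF, herm_smul_left hF, z₄₃, p₃, e1, e2, hz, zero_mul, mul_zero, add_zero,
      zero_add, mul_one] at e3
    simp only [herm_add_left hF, herm_smul_left hF, p₄, e1, e2, e3, hz, zero_mul, mul_zero, add_zero,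
      zero_add, mul_one] at e4
    funext i
    fin_cases i <;> assumption
  have := L.finrank_le_finrank_of_injective hinj
  rw [Module.finrank_fin_fun] at this
  omega

/-- A pair of transvections at independent points determines the points. -/
theorem pair_eq_trv {p q r s : Fin 6 → F} (hpq : p ∉ Submodule.span F {q}) (hqp : q ∉ Submodule.span F {p})
    (h : ∀ x, herm x p • p + herm x q • q = herm x r • r + herm x s • s) :
    (∃ a b : F, a ≠ 0 ∧ b ≠ 0 ∧ r = a • p ∧ s = b • q) ∨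
      (∃ a b : F, a ≠ 0 ∧ b ≠ 0 ∧ r = a • q ∧ s = b • p) := by
  obtain ⟨x, hx, hx0⟩ := exists_sep hF hpq
  obtain ⟨y, hy, hy0⟩ := exists_sep hF hqp
  have hpm : p ∈ Submodule.span F {r, s} := by
    have := h x
    rw [hx, hx0 q (Submodule.subset_span rfl), one_smul, zero_smul, add_zero] at this
    rw [this]; exact Submodule.mem_span_pair.2 ⟨_, _, rfl⟩
  have hqm : q ∈ Submodule.span F {r, s} := by
    have := h y
    rw [hy, hy0 p (Submodule.subset_span rfl), one_smul, zero_smul, zero_add] at this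
    rw [this]; exact Submodule.mem_span_pair.2 ⟨_, _, rfl⟩
  have hp0 : p ≠ 0 := fun e => hpq (e ▸ Submodule.zero_mem _)
  have hq0 : q ≠ 0 := fun e => hqp (e ▸ Submodule.zero_mem _)
  have hli : LinearIndependent F ![p, q] := by
    rw [LinearIndependent.pair_iff' hp0]
    exact fun a ha => hqp (Submodule.mem_span_singleton.2 ⟨a, ha⟩)
  have hrs : Submodule.span F {p, q} = Submodule.span F {r, s} := by
    refine Submodule.eq_of_le_of_finrank_le (Submodule.span_le.2 (by
      rintro z (rfl | rfl) <;> assumption)) ?_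
    have h2 : Module.finrank F ↥(Submodule.span F (Set.range ![p, q])) = 2 := by
      rw [finrank_span_eq_card hli, Fintype.card_fin]
    rw [Matrix.range_cons_cons_empty] at h2
    rw [h2]
    have h3 := finrank_range_le_card (R := F) ![r, s]
    rw [Set.finrank, Matrix.range_cons_cons_empty, Fintype.card_fin] at h3
    exact h3
  obtain ⟨α, β, hr⟩ := Submodule.mem_span_pair.1 (hrs ▸ Submodule.subset_span (Set.mem_insert r _) :
    r ∈ Submodule.span F {p, q})
  obtain ⟨γ, δ, hs⟩ := Submodule.mem_span_pair.1 (hrs ▸ Submodule.subset_span (Set.mem_insert_of_mem r rfl) :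
    s ∈ Submodule.span F {p, q})
  have coord : ∀ z, (herm z p = 1 ∧ herm z q = 0) → α ^ 2 * α + γ ^ 2 * γ = 1 := by
    rintro z ⟨hzp, hzq⟩
    have e := h z
    rw [hzp, hzq, ← hr, ← hs, herm_add_right hF, herm_add_right hF, herm_smul_right hF, herm_smul_right hF,
      herm_smul_right hF, herm_smul_right hF, hzp, hzq] at e
    have e' : (α ^ 2 * α + γ ^ 2 * γ - 1) • p + (α ^ 2 * β + γ ^ 2 * δ) • q = 0 := by
      simp only [one_smul, zero_smul, add_zero, mul_one, mul_zero] at e
      rw [smul_add, smul_add, smul_smul, smul_smul, smul_smul, smul_smul] at e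
      rw [sub_smul, add_smul, add_smul, one_smul]
      conv_lhs => arg 1; arg 2; rw [e]
      abel
    exact sub_eq_zero.1 ((LinearIndependent.pair_iff.1 hli) _ _ e').1
  have hA := coord x ⟨hx, hx0 q (Submodule.subset_span rfl)⟩
  have e := h y
  rw [hy, hy0 p (Submodule.subset_span rfl), ← hr, ← hs, herm_add_right hF, herm_add_right hF,
    herm_smul_right hF, herm_smul_right hF, herm_smul_right hF, herm_smul_right hF, hy,
    hy0 p (Submodule.subset_span rfl)] at e
  have e' : (β ^ 2 * α + δ ^ 2 * γ) • p + (β ^ 2 * β + δ ^ 2 * δ - 1) • q = 0 := by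
    simp only [one_smul, zero_smul, zero_add, mul_one, mul_zero] at e
    rw [smul_add, smul_add, smul_smul, smul_smul, smul_smul, smul_smul] at e
    rw [sub_smul, add_smul, add_smul, one_smul]
    conv_lhs => arg 2; arg 2; rw [e]
    abel
  obtain ⟨hB0, hB⟩ := (LinearIndependent.pair_iff.1 hli) _ _ e'
  have hB' := sub_eq_zero.1 hB
  by_cases hα : α = 0
  · refine Or.inr ?_
    have hγ : γ ≠ 0 := fun e => by simp [hα, e] at hA
    have hδ : δ = 0 := by
      rw [hα, mul_zero, zero_add] at hB0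
      exact pow_eq_zero_iff (n := 2) two_ne_zero |>.1 ((mul_eq_zero.1 hB0).resolve_right hγ)
    have hβ : β ≠ 0 := fun e => by simp [hδ, e] at hB'
    exact ⟨β, γ, hβ, hγ, by rw [← hr, hα, zero_smul, zero_add], by rw [← hs, hδ, zero_smul, add_zero]⟩
  · refine Or.inl ?_
    have hγ : γ = 0 := by
      by_contra hγ
      have e1 := cube hF hα
      have e2 := cube hF hγ
      exact one_ne_zero (α := F) (by linear_combination hA - e1 - e2)
    have hβ : β = 0 := by
      rw [hγ, mul_zero, add_zero] at hB0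
      exact pow_eq_zero_iff (n := 2) two_ne_zero |>.1 ((mul_eq_zero.1 hB0).resolve_right hα)
    have hδ : δ ≠ 0 := fun e => by simp [hβ, e] at hB'
    exact ⟨α, δ, hα, hδ, by rw [← hr, hβ, zero_smul, add_zero], by rw [← hs, hγ, zero_smul, zero_add]⟩

/-- The action of two orthogonal transvections. -/
theorem trv_two {p q : Fin 6 → F} (hp : herm p p = 0) (hq : herm q q = 0) (hpq : herm p q = 0)
    (x : Fin 6 → F) : act (trv hF p * trv hF q) x = x + (herm x p • p + herm x q • q) := by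
  rw [act_mul, trv_act hF hq, trv_act hF hp, herm_add_left hF, herm_smul_left hF, (herm_zero_comm hF).1 hpq,
    mul_zero, add_zero]
  abel

theorem trv_pair {p q r s : Fin 6 → F} (hp : IsPt p) (hq : IsPt q) (hr : IsPt r) (hs : IsPt s)
    (hpq : herm p q = 0) (hrs : herm r s = 0) (hne : p ∉ Submodule.span F {q})
    (h : trv hF p * trv hF q = trv hF r * trv hF s) :
    (trv hF r = trv hF p ∧ trv hF s = trv hF q) ∨ (trv hF r = trv hF q ∧ trv hF s = trv hF p) := by
  have hne' : q ∉ Submodule.span F {p} := fun hm => by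
    obtain ⟨k, hk⟩ := Submodule.mem_span_singleton.1 hm
    refine hne (Submodule.mem_span_singleton.2 ⟨k⁻¹, ?_⟩)
    rw [← hk, inv_smul_smul₀ (fun e => hq.1 (by rw [← hk, e, zero_smul]))]
  rcases pair_eq_trv hF hne hne' (fun x => by
      have e := congrArg (fun g => act g x) h
      simp only [trv_two hF hp.2 hq.2 hpq, trv_two hF hr.2 hs.2 hrs] at e
      exact add_left_cancel e) with ⟨a, b, ha, hb, rfl, rfl⟩ | ⟨a, b, ha, hb, rfl, rfl⟩
  · exact Or.inl ⟨trv_smul hF ha hp.2, trv_smul hF hb hq.2⟩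
  · exact Or.inr ⟨trv_smul hF ha hq.2, trv_smul hF hb hp.2⟩

theorem trv_not_two {p q r : Fin 6 → F} (hp : IsPt p) (hq : IsPt q) (hr : IsPt r) (hpq : herm p q = 0)
    (hne : p ∉ Submodule.span F {q}) : trv hF p * trv hF q ≠ trv hF r := by
  intro h
  have hall : ∀ x, herm x p • p + herm x q • q = herm x r • r := fun x => by
    have e := congrArg (fun g => act g x) h
    simp only [trv_two hF hp.2 hq.2 hpq, trv_act hF hr.2] at e
    exact add_left_cancel e
  have hne' : q ∉ Submodule.span F {p} := fun hm => by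
    obtain ⟨k, hk⟩ := Submodule.mem_span_singleton.1 hm
    refine hne (Submodule.mem_span_singleton.2 ⟨k⁻¹, ?_⟩)
    rw [← hk, inv_smul_smul₀ (fun e => hq.1 (by rw [← hk, e, zero_smul]))]
  obtain ⟨x, hx, hx0⟩ := exists_sep hF hne
  obtain ⟨y, hy, hy0⟩ := exists_sep hF hne'
  have e1 := hall x
  rw [hx, hx0 q (Submodule.subset_span rfl), one_smul, zero_smul, add_zero] at e1
  have e2 := hall y
  rw [hy, hy0 p (Submodule.subset_span rfl), one_smul, zero_smul, zero_add] at e2
  refine hne (Submodule.mem_span_singleton.2 ⟨herm x r * (herm y r)⁻¹, ?_⟩)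
  have hyr : herm y r ≠ 0 := fun e => hq.1 (by rw [e2, e, zero_smul])
  conv_lhs => arg 2; rw [e2]
  rw [smul_smul, inv_mul_cancel_right₀ hyr, ← e1]

theorem trv_three_not {p q w r s : Fin 6 → F} (hp : herm p p = 0) (hq : herm q q = 0) (hw : herm w w = 0)
    (hr : IsPt r) (hs : IsPt s) (hpq : herm p q = 0) (hpw : herm p w = 0) (hqw : herm q w = 0)
    (hrs : herm r s = 0) (n1 : p ∉ Submodule.span F {q}) (n2 : p ∉ Submodule.span F {w})
    (n3 : q ∉ Submodule.span F {w}) (n4 : w ∉ Submodule.span F {p, q}) (hq0 : q ≠ 0) (hw0 : w ≠ 0) :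
    trv hF p * trv hF q * trv hF w ≠ trv hF r * trv hF s := by
  intro h
  have hall : ∀ x, herm x p • p + herm x q • q + herm x w • w = herm x r • r + herm x s • s := fun x => by
    have e := congrArg (fun g => act g x) h
    simp only [H89.M22.trv_three hF hp hq hw hpq hpw hqw, trv_two hF hr.2 hs.2 hrs] at e
    exact add_left_cancel e
  have m1 : p ∈ Submodule.span F {r, s} := span_of_sum_all hF n1 n2 n3 hq0 hall
  have sym : ∀ {a b : Fin 6 → F}, b ≠ 0 → a ∉ Submodule.span F {b} → b ∉ Submodule.span F {a} :=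
    fun {a b} hb h hm => by
      obtain ⟨k, hk⟩ := Submodule.mem_span_singleton.1 hm
      exact h (Submodule.mem_span_singleton.2 ⟨k⁻¹, by
        rw [← hk, inv_smul_smul₀ (fun e => hb (by rw [← hk, e, zero_smul]))]⟩)
  have m2 : q ∈ Submodule.span F {r, s} := span_of_sum_all hF n3 (sym hq0 n1) (sym hw0 n2) hw0
    (fun x => by rw [← hall x]; abel)
  have hp0 : p ≠ 0 := fun e => n1 (e ▸ Submodule.zero_mem _)
  have m3 : w ∈ Submodule.span F {r, s} := span_of_sum_all hF (sym hw0 n2) (sym hw0 n3) n1 hp0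
    (fun x => by rw [← hall x]; abel)
  have hle : Submodule.span F {p, q} ≤ Submodule.span F {r, s} := Submodule.span_le.2 (by
    rintro z (rfl | rfl) <;> assumption)
  have hli : LinearIndependent F ![p, q] := by
    rw [LinearIndependent.pair_iff' hp0]
    exact fun a ha => sym hq0 n1 (Submodule.mem_span_singleton.2 ⟨a, ha⟩)
  have h2 : Module.finrank F ↥(Submodule.span F (Set.range ![p, q])) = 2 := by
    rw [finrank_span_eq_card hli, Fintype.card_fin]
  rw [Matrix.range_cons_cons_empty] at h2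
  have h3 := finrank_range_le_card (R := F) ![r, s]
  rw [Set.finrank, Matrix.range_cons_cons_empty, Fintype.card_fin] at h3
  exact n4 ((Submodule.eq_of_le_of_finrank_le hle (by omega)).symm ▸ m3)

end Cfsg.Agent.H98.U62
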