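import Cfsg.Agent.H98.U62.Fusion
import Cfsg.Prelude.Def_CaseTheorems

/-! The group of a plane inside a group with a 2.U6(2) involution centralizer. -/

set_option autoImplicit false
set_option linter.unusedSectionVars false

namespace Cfsg.Agent.H98.U62

open Cfsg Cfsg.Agent.H17.UPoints Cfsg.Agent.H89.M22 Subgroup H53.SylowPlane

variable {F : Type} [Field F] [Fintype F] [DecidableEq F] {H : Type*} [Group H] [Finite H]
variable {c : Cov H F} (m : Cls c) {w : F} (hw : w + w ^ 2 = 1)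
  (h5 : m.five w (pl 1 0 0) (pl 0 1 0) = 1)
include hw h5

/-- Every involution is conjugate into the group of the plane. -/
theorem involution_conj {x : H} (hx : x * x = 1) : ∃ g : H, g * x * g⁻¹ ∈ m.grpz (PL (F := F)) := by
  have hF := c.card
  obtain ⟨y, hy⟩ := QuotientGroup.mk_surjective (c.π x)
  have hyc : y * y ∈ Subgroup.center ↥(Cfsg.SU 6 F 2) := by
    rw [← QuotientGroup.eq_one_iff, QuotientGroup.mk_mul, hy, ← map_mul, hx, map_one]
  have h3 := H43.M22.center_cube hF hyc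
  obtain ⟨l, hl, hp⟩ := H43.involution_decomp hF (y ^ 3) (by
    rw [← pow_add, show 3 + 3 = 2 * 3 from rfl, pow_mul, pow_two]; exact h3)
  have P : ∀ v ∈ l, IsPt v := fun v hv => ⟨(hl v hv).1, (hl v hv).2.1⟩
  obtain ⟨g, hg⟩ := clique_conj m (E := {t | ∃ v ∈ l, m.M.pt v = t})
    (fun t ⟨v, hv, e⟩ => e ▸ Or.inr (m.hpt v (P v hv)).1) fun s ⟨u, hu, es⟩ t ⟨v, hv, et⟩ => by
      rw [← es, ← et]
      exact (m.M.pt_commute u v (P u hu).1 (P u hu).2 (P v hv).1 (P v hv).2).2 ((hl u hu).2.2 v hv)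
  refine ⟨g, ?_⟩
  have hpi : c.π (l.map m.M.pt).prod = c.π x := by
    rw [map_list_prod, List.map_map]
    have : (l.map (c.π ∘ m.M.pt)) = l.map (QuotientGroup.mk' _ ∘ trv hF) :=
      List.map_congr_left fun v hv => (m.hpt v (P v hv)).2
    rw [this, ← List.map_map, ← map_list_prod, ← hp, QuotientGroup.mk'_apply, QuotientGroup.mk_pow, hy,
      pow_succ, pow_two, ← map_mul, hx, map_one, one_mul]
  have hmem : g * (l.map m.M.pt).prod * g⁻¹ ∈ m.grpz (PL (F := F)) := by
    have hgen : ∀ t ∈ l.map m.M.pt, g * t * g⁻¹ ∈ m.grpz (PL (F := F)) := fun t ht => by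
      obtain ⟨v, hv, rfl⟩ := List.mem_map.1 ht
      exact subset_closure (hg _ ⟨v, hv, rfl⟩)
    rw [show g * (l.map m.M.pt).prod * g⁻¹ = (MulAut.conj g).toMonoidHom (l.map m.M.pt).prod from rfl,
      map_list_prod]
    refine list_prod_mem fun t ht => ?_
    obtain ⟨s, hs, rfl⟩ := List.mem_map.1 ht
    exact hgen s hs
  rcases same c hpi with h | h
  · exact h ▸ hmem
  · rw [h] at hmem
    have := mul_mem hmem (z_mem m (PL (F := F)))
    rwa [show g * (x * c.z) * g⁻¹ * c.z = g * x * g⁻¹ by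
      rw [mul_assoc (g * (x * c.z)), ← (c.hzc g⁻¹).eq, ← mul_assoc, mul_assoc g (x * c.z), mul_assoc x, zz,
        mul_one]] at this

/-- The elementary abelian subgroups of a 2-group over the plane. -/
theorem thompson_sylow (S : Sylow 2 H) : ∃ g : H,
    Cfsg.thompsonSubgroupOf 2 (S : Subgroup H) = (m.grpz (PL (F := F))).map (MulAut.conj g).toMonoidHom := by
  haveI : Fact (Nat.Prime 2) := ⟨Nat.prime_two⟩
  obtain ⟨hA2, hAc⟩ := grpz_elementary m (ti_PL c.card)
  obtain ⟨P0, hP0⟩ := (H53.isPGroup_of_sq hA2).exists_le_sylow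
  obtain ⟨g, hg⟩ := MulAction.exists_smul_eq H P0 S
  refine ⟨g, ?_⟩
  set A := (m.grpz (PL (F := F))).map (MulAut.conj g).toMonoidHom with hAd
  have hAS : A ≤ (S : Subgroup H) := by
    rintro _ ⟨x, hx, rfl⟩
    rw [← hg, Sylow.coe_subgroup_smul]
    exact ⟨x, hP0 hx, rfl⟩
  have hA2' : ∀ x ∈ A, x * x = 1 := by
    rintro _ ⟨x, hx, rfl⟩
    rw [← map_mul, hA2 x hx, map_one]
  have hAc' : ∀ x ∈ A, ∀ y ∈ A, Commute x y := by
    rintro _ ⟨x, hx, rfl⟩ _ ⟨y, hy, rfl⟩
    exact (hAc x hx y hy).map _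
  have hAcard : Nat.card A = 1024 := by
    rw [hAd, Subgroup.card_map_of_injective (MulAut.conj g).injective, card_A0 m hw h5]
  have hel : Cfsg.IsElementaryAbelian 2 (A.subgroupOf (S : Subgroup H)) :=
    ⟨⟨⟨fun x y => Subtype.ext (Subtype.ext (hAc' _ x.2 _ y.2).eq)⟩⟩,
      fun x hx => Subtype.ext (by simpa [pow_two] using hA2' _ hx)⟩
  have hcardA : Nat.card ↥(A.subgroupOf (S : Subgroup H)) = Nat.card A :=
    Nat.card_congr (subgroupOfEquivOfLe hAS).toEquiv
  have hmax : ∀ B : Subgroup ↥(S : Subgroup H), Cfsg.IsElementaryAbelian 2 B →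
      1024 ≤ Nat.card B → B = A.subgroupOf (S : Subgroup H) := by
    intro B hB hle
    obtain ⟨h1, h2⟩ : (∀ x ∈ B.map (S : Subgroup H).subtype, x * x = 1) ∧
        ∀ x ∈ B.map (S : Subgroup H).subtype, ∀ y ∈ B.map (S : Subgroup H).subtype, Commute x y := by
      refine ⟨?_, ?_⟩
      · rintro _ ⟨x, hx, rfl⟩
        have := congrArg Subtype.val (hB.2 x hx)
        simpa [pow_two] using this
      · rintro _ ⟨x, hx, rfl⟩ _ ⟨y, hy, rfl⟩
        exact congrArg (fun t : ↥B => ((t : ↥(S : Subgroup H)) : H)) (hB.1.is_comm.comm ⟨x, hx⟩ ⟨y, hy⟩)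
    have h : (B.map (S : Subgroup H).subtype).map (MulAut.conj g⁻¹).toMonoidHom = m.grpz (PL (F := F)) := by
      refine big_eq m hw h5 P0.2 hP0 ?_ ?_ ?_ ?_
      · rintro _ ⟨_, ⟨x, -, rfl⟩, rfl⟩
        have hx := x.2
        conv at hx => arg 1; rw [← hg, Sylow.coe_subgroup_smul]
        obtain ⟨y, hy, e⟩ := hx
        show g⁻¹ * (x : H) * (g⁻¹)⁻¹ ∈ (P0 : Subgroup H)
        rw [← e]
        show g⁻¹ * (g * y * g⁻¹) * (g⁻¹)⁻¹ ∈ (P0 : Subgroup H)
        rw [show g⁻¹ * (g * y * g⁻¹) * (g⁻¹)⁻¹ = y by group]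
        exact hy
      · rintro _ ⟨x, hx, rfl⟩
        rw [← map_mul, h1 x hx, map_one]
      · rintro _ ⟨x, hx, rfl⟩ _ ⟨y, hy, rfl⟩
        exact (h2 x hx y hy).map _
      · rw [Subgroup.card_map_of_injective (MulAut.conj g⁻¹).injective,
          Subgroup.card_map_of_injective (Subgroup.subtype_injective _)]
        exact hle
    have h' : B.map (S : Subgroup H).subtype = A := by
      rw [hAd, ← h, Subgroup.map_map]
      convert (Subgroup.map_id _).symm using 2
      ext x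
      simp [mul_assoc]
    exact (show (B.map (S : Subgroup H).subtype).subgroupOf (S : Subgroup H) = B from
      comap_map_eq_self_of_injective (Subgroup.subtype_injective _) B).symm.trans
        (congrArg (fun C => Subgroup.subgroupOf C (S : Subgroup H)) h')
  have hset : Cfsg.maxElementaryAbelianSubgroups 2 ↥(S : Subgroup H) = {A.subgroupOf (S : Subgroup H)} := by
    ext B
    constructor
    · rintro ⟨hB, hBmax⟩
      exact hmax B hB (hAcard ▸ hcardA ▸ hBmax _ hel)
    · rintro rfl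
      refine ⟨hel, fun C hC => ?_⟩
      rcases le_total (Nat.card C) 1024 with h | h
      · exact (hcardA.trans hAcard).symm ▸ h
      · rw [hmax C hC h]
  rw [Cfsg.thompsonSubgroupOf, Cfsg.thompsonSubgroup, hset, sSup_singleton,
    subgroupOf_map_subtype, inf_eq_left.2 hAS]

end Cfsg.Agent.H98.U62
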