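import Cfsg.Agent.H98.U62.Frames
import Cfsg.Agent.H98.U62.Max

/-! The elementary abelian subgroup of a plane: order, elements, and conjugacy. -/

set_option autoImplicit false
set_option linter.unusedSectionVars false

namespace Cfsg.Agent.H98.U62

open Cfsg Cfsg.Agent.H17.UPoints Cfsg.Agent.H89.M22 Subgroup H53.SylowPlane

variable {F : Type} [Field F] [Fintype F] [DecidableEq F] {H : Type*} [Group H] [Finite H]
variable {c : Cov H F} (m : Cls c) {w : F}

/-- The group generated by the lifts at the points of a subspace. -/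
def Cls.grp (S : Submodule F (Fin 6 → F)) : Subgroup H := closure (pts m.M S)

/-- With the centre. -/
def Cls.grpz (S : Submodule F (Fin 6 → F)) : Subgroup H := closure (insert c.z (pts m.M S))

theorem grp_le (S : Submodule F (Fin 6 → F)) : m.grp S ≤ m.grpz S := closure_mono (Set.subset_insert _ _)

theorem z_mem (S : Submodule F (Fin 6 → F)) : c.z ∈ m.grpz S := subset_closure (Set.mem_insert _ _)

theorem pt_mem {S : Submodule F (Fin 6 → F)} {v : Fin 6 → F} (hv : v ∈ S) (hv0 : v ≠ 0) :
    m.M.pt v ∈ m.grp S := subset_closure ⟨v, hv, hv0, rfl⟩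

theorem grpz_elementary {S : Submodule F (Fin 6 → F)} (hS : TI S) :
    (∀ x ∈ m.grpz S, x * x = 1) ∧ ∀ x ∈ m.grpz S, ∀ y ∈ m.grpz S, Commute x y := by
  refine H53.closure_elementary (fun x hx => ?_) fun x hx y hy => ?_
  · rcases hx with rfl | ⟨v, hv, hv0, rfl⟩
    exacts [zz c, m.pt_sq (isPt_of_mem c.card hS hv hv0)]
  · rcases hx with rfl | hx <;> rcases hy with rfl | hy
    exacts [Commute.refl _, c.hzc y, (c.hzc x).symm, pts_commute m.M hS x hx y hy]

/-- Elements of the group lie over involutions moving into the subspace and fixing it. -/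
def Img (S : Submodule F (Fin 6 → F)) (x : H) (g : ↥(Cfsg.SU 6 F 2)) : Prop :=
  g * g = 1 ∧ (∀ y, act g y + y ∈ S) ∧ (∀ v ∈ S, act g v = v) ∧ c.π x = g

theorem img {S : Submodule F (Fin 6 → F)} (hS : TI S) {x : H} (hx : x ∈ m.grpz S) :
    ∃ g, Img (c := c) S x g := by
  have hvv : ∀ v : Fin 6 → F, v + v = 0 := fun v => funext fun i => add_self c.card (v i)
  have hone : Img (c := c) S 1 1 :=
    ⟨one_mul 1, fun y => by rw [act_one, hvv]; exact S.zero_mem, fun v _ => act_one v, map_one _⟩
  induction hx using closure_induction with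
  | mem x hx =>
    rcases hx with rfl | ⟨v, hv, hv0, rfl⟩
    · exact ⟨1, one_mul 1, hone.2.1, hone.2.2.1, (c.hker _).2 (Or.inr rfl)⟩
    · have hp := isPt_of_mem c.card hS hv hv0
      refine ⟨trv c.card v, trv_sq c.card hp.2, fun y => ?_, fun u hu => ?_, (m.hpt v hp).2⟩
      · rw [trv_act c.card hp.2, add_right_comm, hvv, zero_add]
        exact S.smul_mem _ hv
      · rw [trv_act c.card hp.2, hS u hu v hv, zero_smul, add_zero]
  | one => exact ⟨1, hone⟩
  | mul a b _ _ iha ihb =>
    obtain ⟨g, g1, g2, g3, g4⟩ := iha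
    obtain ⟨k, k1, k2, k3, k4⟩ := ihb
    have hgk : ∀ y, act (g * k) y = y + ((act g y + y) + (act k y + y)) := fun y => by
      have e : act k y = y + (act k y + y) := by rw [add_comm (act k y), ← add_assoc, hvv, zero_add]
      have e2 : act g (act k y) = act g y + (act k y + y) := by
        conv_lhs => rw [e, act_add', g3 _ (k2 y)]
      rw [act_mul, e2, ← add_assoc y, add_comm y, add_assoc (act g y), hvv, add_zero]
    refine ⟨g * k, ext_act fun y => ?_, fun y => ?_, fun v hv => ?_, by rw [map_mul, g4, k4]; rfl⟩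
    · rw [act_mul (g * k), act_one]
      conv_lhs => rw [hgk y, act_add']
      have hmem := S.add_mem (g2 y) (k2 y)
      rw [show act (g * k) ((act g y + y) + (act k y + y)) = (act g y + y) + (act k y + y) by
        rw [act_mul, k3 _ hmem, g3 _ hmem], hgk y, add_assoc, hvv, add_zero]
    · rw [hgk, add_right_comm, hvv, zero_add]
      exact S.add_mem (g2 y) (k2 y)
    · rw [act_mul, k3 v hv, g3 v hv]
  | inv a _ iha =>
    obtain ⟨g, g1, g2, g3, g4⟩ := iha
    have e : g⁻¹ = g := inv_eq_of_mul_eq_one_right g1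
    exact ⟨g, g1, g2, g3, by rw [map_inv, g4, ← QuotientGroup.mk_inv, e]⟩

theorem img_unique {S T : Submodule F (Fin 6 → F)} {x y : H} {g k : ↥(Cfsg.SU 6 F 2)}
    (hg : Img (c := c) S x g) (hk : Img (c := c) T y k) (h : c.π x = c.π y) : g = k :=
  H43.M22.lift_unique c.card hg.1 hk.1 (by rw [← hg.2.2.2, h, hk.2.2.2])

/-- Products of pairs and triples. -/
theorem π_pts {u v : Fin 6 → F} (hu : IsPt u) (hv : IsPt v) :
    c.π (m.M.pt u * m.M.pt v) = (trv c.card u * trv c.card v : ↥(Cfsg.SU 6 F 2)) := by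
  rw [map_mul, (m.hpt u hu).2, (m.hpt v hv).2]; rfl

/-- The elements of the group of a subspace. -/
theorem elements {S : Submodule F (Fin 6 → F)} (hS : TI S) {x : H} (hx : x ∈ m.grpz S) (T : Submodule F (Fin 6 → F))
    (hT : T ≤ S) (himg : ∀ g, Img (c := c) S x g → ∀ y, act g y + y ∈ T) :
    ∃ k ∈ ({1, c.z} : Set H), x = k ∨ (∃ u ∈ T, u ≠ 0 ∧ x = m.M.pt u * k) ∨
      (∃ u ∈ T, ∃ v ∈ T, v ≠ 0 ∧ u ∉ Submodule.span F {v} ∧ x = m.M.pt u * m.M.pt v * k) ∨
      ∃ u ∈ T, ∃ v ∈ T, ∃ r ∈ T, r ≠ 0 ∧ v ∉ Submodule.span F {r} ∧ u ∉ Submodule.span F {v, r} ∧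
        x = m.M.pt u * m.M.pt v * m.M.pt r * k := by
  obtain ⟨g, hg⟩ := img m hS hx
  have hTT : TI T := fun a ha b hb => hS a (hT ha) b (hT hb)
  have hd : Module.finrank F T ≤ 3 := (Submodule.finrank_mono hT).trans (ti_bound (hF := c.card) hS).1
  have fin : ∀ y : H, c.π x = c.π y → ∃ k ∈ ({1, c.z} : Set H), x = y * k := fun y h => by
    rcases same c h with h | h
    · exact ⟨1, Or.inl rfl, by rw [mul_one]; exact h⟩
    · exact ⟨c.z, Or.inr rfl, h⟩
  have ne : ∀ {u : Fin 6 → F} {X : Set (Fin 6 → F)}, u ∉ Submodule.span F X → u ≠ 0 :=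
    fun h e => h (e ▸ Submodule.zero_mem _)
  rcases decomp c.card hTT hd g hg.1 (himg g hg) with rfl | ⟨u, hu, hu0, rfl⟩ |
    ⟨u, hu, v, hv, hv0, huv, rfl⟩ | ⟨u, hu, v, hv, r, hr, hr0, hvr, huvr, rfl⟩
  · obtain ⟨k, hk, h⟩ := fin 1 (by rw [hg.2.2.2, map_one]; rfl)
    exact ⟨k, hk, Or.inl (by rw [h, one_mul])⟩
  · obtain ⟨k, hk, h⟩ := fin _ (hg.2.2.2.trans (m.hpt u (isPt_of_mem c.card hTT hu hu0)).2.symm)
    exact ⟨k, hk, Or.inr (Or.inl ⟨u, hu, hu0, h⟩)⟩
  · obtain ⟨k, hk, h⟩ := fin _ (hg.2.2.2.trans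
      (π_pts m (isPt_of_mem c.card hTT hu (ne huv)) (isPt_of_mem c.card hTT hv hv0)).symm)
    exact ⟨k, hk, Or.inr (Or.inr (Or.inl ⟨u, hu, v, hv, hv0, huv, h⟩))⟩
  · obtain ⟨k, hk, h⟩ := fin (m.M.pt u * m.M.pt v * m.M.pt r) (by
      rw [hg.2.2.2, map_mul, π_pts m (isPt_of_mem c.card hTT hu (ne huvr))
        (isPt_of_mem c.card hTT hv (ne hvr)), (m.hpt r (isPt_of_mem c.card hTT hr hr0)).2]
      rfl)
    exact ⟨k, hk, Or.inr (Or.inr (Or.inr ⟨u, hu, v, hv, r, hr, hr0, hvr, huvr, h⟩))⟩

/-- Few commuting involutions generate a small group. -/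
theorem card_closure_list : ∀ l : List H, (∀ x ∈ l, x * x = 1) → (∀ x ∈ l, ∀ y ∈ l, Commute x y) →
    Nat.card ↥(closure {x | x ∈ l}) ≤ 2 ^ l.length := by
  intro l
  induction l with
  | nil => intro _ _; simp
  | cons a r ih =>
    intro h2 hc
    have hr := ih (fun x hx => h2 x (List.mem_cons_of_mem _ hx))
      fun x hx y hy => hc x (List.mem_cons_of_mem _ hx) y (List.mem_cons_of_mem _ hy)
    obtain ⟨K, hK⟩ : ∃ K, K = closure {x | x ∈ r} := ⟨_, rfl⟩
    obtain ⟨-, hcm⟩ := H53.closure_elementary (S := {x | x ∈ a :: r}) h2 hc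
    have hsub : ∀ y ∈ closure {x | x ∈ a :: r}, y ∈ K ∨ a * y ∈ K := by
      intro y hy
      induction hy using closure_induction with
      | mem x hx =>
        rcases List.mem_cons.1 hx with rfl | hx
        · exact Or.inr (by rw [h2 x (List.mem_cons_self ..)]; exact one_mem K)
        · exact Or.inl (hK ▸ subset_closure hx)
      | one => exact Or.inl (one_mem K)
      | mul p q hp _ ihp ihq =>
        have e : a * (p * q) = p * (a * q) := by
          rw [← mul_assoc, (hcm a (subset_closure (List.mem_cons_self ..)) p hp).eq, mul_assoc]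
        rcases ihp with hp' | hp' <;> rcases ihq with hq' | hq'
        · exact Or.inl (mul_mem hp' hq')
        · exact Or.inr (by rw [e]; exact mul_mem hp' hq')
        · exact Or.inr (by rw [← mul_assoc]; exact mul_mem hp' hq')
        · refine Or.inl ?_
          have := mul_mem hp' hq'
          rwa [(hcm a (subset_closure (List.mem_cons_self ..)) p hp).eq, mul_assoc, ← mul_assoc a,
            h2 a (List.mem_cons_self ..), one_mul] at this
      | inv p hp ihp =>
        have := (H53.closure_elementary (S := {x | x ∈ a :: r}) h2 hc).1 p hp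
        rwa [inv_eq_of_mul_eq_one_right this]
    calc Nat.card ↥(closure {x | x ∈ a :: r}) = (closure {x | x ∈ a :: r} : Set H).ncard :=
          Nat.card_coe_set_eq _
      _ ≤ ((K : Set H) ∪ (a * ·) '' (K : Set H)).ncard := Set.ncard_le_ncard (fun y hy =>
          (hsub y hy).imp id fun h => ⟨a * y, h, by
            show a * (a * y) = y
            rw [← mul_assoc, h2 a (List.mem_cons_self ..), one_mul]⟩) (Set.toFinite _)
      _ ≤ (K : Set H).ncard + ((a * ·) '' (K : Set H)).ncard := Set.ncard_union_le _ _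
      _ ≤ 2 ^ r.length + 2 ^ r.length := by
        have e : (K : Set H).ncard ≤ 2 ^ r.length := by
          rw [← Nat.card_coe_set_eq]; exact hK ▸ hr
        exact Nat.add_le_add e ((Set.ncard_image_le (Set.toFinite _)).trans e)
      _ = 2 ^ (a :: r).length := by rw [List.length_cons, pow_succ]; omega

/-- The image of the group of the standard plane has at least 512 elements. -/
theorem image_card (hw : w + w ^ 2 = 1) :
    512 ≤ Nat.card ↥((m.grp (PL (F := F))).map c.π) := by
  have hF := c.card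
  obtain ⟨w0, w1, w20, w21, w2w⟩ := w_facts hw
  let V : Fin 9 → Fin 6 → F :=
    ![pl 1 0 0, pl 0 1 0, pl 0 0 1, pl 1 1 0, pl 1 w 0, pl 1 0 1, pl 1 0 w, pl 0 1 1, pl 0 1 w]
  have hV : ∀ i, IsPt (V i) ∧ V i ∈ PL (F := F) := fun i => by
    fin_cases i <;> exact ⟨pl_isPt (by simp) hF, pl_mem ..⟩
  have hVV : ∀ i j, herm (V i) (V j) = 0 := fun i j => ti_PL hF _ (hV i).2 _ (hV j).2
  let g : (Fin 9 → Bool) → List (Fin 6 → F) := fun e =>
    ((List.finRange 9).filter fun i => e i).map V
  have hact : ∀ l : List (Fin 6 → F), (∀ u ∈ l, IsPt u ∧ u ∈ PL (F := F)) → ∀ x,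
      act (l.map (trv hF)).prod x = x + (l.map fun u => herm x u • u).sum := by
    intro l
    induction l with
    | nil => intro _ x; simp [act_one]
    | cons u s ih =>
      intro h x
      obtain ⟨hu, hus⟩ := h u (List.mem_cons_self ..)
      have hs := fun v hv => h v (List.mem_cons_of_mem _ hv)
      rw [List.map_cons, List.prod_cons, act_mul, ih hs, trv_act hF hu.2, List.map_cons, List.sum_cons]
      have h0 : herm (s.map fun v => herm x v • v).sum u = 0 := by
        refine ti_PL hF _ (list_sum_mem fun y hy => ?_) _ hus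
        obtain ⟨v, hv, rfl⟩ := List.mem_map.1 hy
        exact Submodule.smul_mem _ _ (hs v hv).2
      rw [herm_add_left hF, h0, add_zero]
      abel
  have hg : ∀ e, ∀ u ∈ g e, IsPt u ∧ u ∈ PL (F := F) := fun e u hu => by
    obtain ⟨i, -, rfl⟩ := List.mem_map.1 hu
    exact hV i
  have hmem : ∀ e, ((g e).map (trv hF)).prod * ((g e).map (trv hF)).prod = 1 ∧
      QuotientGroup.mk ((g e).map (trv hF)).prod ∈ (m.grp (PL (F := F))).map c.π := by
    intro e
    refine ⟨ext_act fun x => ?_, ?_⟩
    · have h1 : ((g e).map fun u => herm x u • u).sum ∈ PL (F := F) := list_sum_mem fun y hy => by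
        obtain ⟨v, hv, rfl⟩ := List.mem_map.1 hy
        exact Submodule.smul_mem _ _ (hg e v hv).2
      have h0 : ∀ z ∈ PL (F := F), ((g e).map fun u => herm z u • u).sum = 0 := fun z hz =>
        List.sum_eq_zero fun y hy => by
          obtain ⟨v, hv, rfl⟩ := List.mem_map.1 hy
          rw [ti_PL hF z hz v (hg e v hv).2, zero_smul]
      rw [act_mul, act_one, hact _ (hg e) x, act_add', hact _ (hg e) x, hact _ (hg e) _, h0 _ h1,
        add_zero, add_assoc, show ((g e).map fun u => herm x u • u).sum +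
        ((g e).map fun u => herm x u • u).sum = 0 from funext fun i => add_self hF _, add_zero]
    · show (QuotientGroup.mk' _) _ ∈ _
      rw [map_list_prod]
      refine list_prod_mem fun y hy => ?_
      rw [List.map_map] at hy
      obtain ⟨v, hv, rfl⟩ := List.mem_map.1 hy
      exact ⟨_, pt_mem m (hg e v hv).2 (hg e v hv).1.1, (m.hpt v (hg e v hv).1).2⟩
  have hinj : Function.Injective fun e =>
      (⟨_, (hmem e).2⟩ : ↥((m.grp (PL (F := F))).map c.π)) := by
    intro e e' h
    have h' := H43.M22.lift_unique hF (hmem e).1 (hmem e').1 (congrArg Subtype.val h)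
    let b : Bool → F := fun t => if t then 1 else 0
    have hb : ∀ s t, b s = b t → s = t := fun s t h => by
      cases s <;> cases t <;> simp [b] at h ⊢
    have hsum : ∀ (e : Fin 9 → Bool) x, ((g e).map fun u => herm x u • u).sum =
        ∑ i, (b (e i) * herm x (V i)) • V i := fun e x => by
      rw [List.map_map, ← List.sum_toFinset _ ((List.nodup_finRange 9).filter _)]
      rw [List.toFinset_filter, List.toFinset_finRange, Finset.sum_filter]
      refine Finset.sum_congr rfl fun i _ => ?_
      cases e i <;> simp [b]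
    have hx : ∀ x, (∑ i, (b (e i) * herm x (V i)) • V i) = ∑ i, (b (e' i) * herm x (V i)) • V i := fun x => by
      rw [← hsum, ← hsum]
      have := congrArg (fun k => act k x) h'
      simp only [hact _ (hg e), hact _ (hg e')] at this
      exact add_left_cancel this
    -- the entries
    have ent : ∀ j k : Fin 6, (∑ i, (b (e i) * herm (Pi.single j 1) (V i)) * V i k) =
        ∑ i, (b (e' i) * herm (Pi.single j 1) (V i)) * V i k := fun j k => by
      have := congrFun (hx (Pi.single j 1)) k
      simpa [Finset.sum_apply] using this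
    have q12 := ent 2 0
    have q13 := ent 4 0
    have q23 := ent 4 2
    have q11 := ent 0 0
    have q22 := ent 2 2
    have q33 := ent 4 4
    simp [Fin.sum_univ_succ, V, herm_pl] at q12 q13 q23 q11 q22 q33
    simp [pl] at q12 q13 q23 q11 q22 q33
    have sep : ∀ {k : F}, k ≠ 0 → k ≠ 1 → ∀ {p q p' q' : Bool}, b p + b q * k = b p' + b q' * k →
        p = p' ∧ q = q' := by
      intro k k0 k1 p q p' q' h
      have hk : ¬ (1 : F) + k = 0 := fun e => k1 (by linear_combination e - add_self hF (1 : F))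
      cases p <;> cases q <;> cases p' <;> cases q' <;>
        simp [b, k0, k1, hk, Ne.symm k0, Ne.symm k1, eq_comm (a := k)] at h ⊢
      all_goals first | exact hk h.symm | exact hk h | exact hk (by linear_combination h + add_self hF k)
    obtain ⟨h3, h4⟩ := sep w20 w21 (p := e 3) (q := e 4) (p' := e' 3) (q' := e' 4)
      (by linear_combination q12)
    obtain ⟨h5, h6⟩ := sep w20 w21 (p := e 5) (q := e 6) (p' := e' 5) (q' := e' 6)
      (by linear_combination q13)
    obtain ⟨h7, h8⟩ := sep w20 w21 (p := e 7) (q := e 8) (p' := e' 7) (q' := e' 8)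
      (by linear_combination q23)
    rw [h3, h4, h5, h6] at q11
    rw [h3, h4, h7, h8] at q22
    rw [h5, h6, h7, h8] at q33
    funext i
    fin_cases i
    · exact hb _ _ (add_right_cancel q11)
    · exact hb _ _ (add_right_cancel q22)
    · exact hb _ _ (add_right_cancel q33)
    all_goals assumption
  have := Nat.card_le_card_of_injective _ hinj
  simpa using this

end Cfsg.Agent.H98.U62
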