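import Cfsg.Agent.H98.U62.Sylow
import Cfsg.Agent.H43.M22Order
import Mathlib.GroupTheory.Transfer

/-!
If the three frames of a plane all have the same product then a Sylow 2-subgroup of the cover splits over
the centre, and the transfer shows that the cover is not perfect.
-/

set_option autoImplicit false
set_option linter.unusedSectionVars false

namespace Cfsg.Agent.H98.U62

open Cfsg Cfsg.Agent.H17.UPoints Cfsg.Agent.H89.M22 Subgroup H53.SylowPlane
open scoped Pointwise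

variable {F : Type} [Field F] [Fintype F] [DecidableEq F] {H : Type*} [Group H] [Finite H]
variable {c : Cov H F} (m : Cls c) {w : F}

/-- Conjugation on the points through the image. -/
theorem conj_pt {h : H} {g : ↥(Cfsg.SU 6 F 2)} (hg : c.π h = g) {v : Fin 6 → F} (hv : IsPt v) :
    h * m.M.pt v * h⁻¹ = m.M.pt (act g v) := by
  have hgv : IsPt (act g v) := ⟨act_ne_zero g hv.1, by rw [herm_act]; exact hv.2⟩
  refine T_unique c m.hp m.ha (T_conj c m.hp m.ha (m.hpt v hv).1 h) (m.hpt _ hgv).1 ?_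
  rw [map_mul, map_mul, map_inv, hg, (m.hpt v hv).2, (m.hpt _ hgv).2, ← trv_conj c.card g hv.2]
  rfl

theorem conj_grp {S : Submodule F (Fin 6 → F)} (hS : TI S) {h : H} {g : ↥(Cfsg.SU 6 F 2)} (hg : c.π h = g)
    (hgS : ∀ x ∈ S, act g x ∈ S) :
    (∀ x ∈ pts m.M S, h * x * h⁻¹ ∈ pts m.M S) ∧ ∀ x ∈ m.grp S, h * x * h⁻¹ ∈ m.grp S := by
  have h1 : ∀ x ∈ pts m.M S, h * x * h⁻¹ ∈ pts m.M S := by
    rintro _ ⟨v, hv, hv0, rfl⟩
    exact ⟨act g v, hgS v hv, act_ne_zero g hv0, (conj_pt m hg (isPt_of_mem c.card hS hv hv0)).symm⟩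
  refine ⟨h1, fun x hx => ?_⟩
  have : (m.grp S).map (MulAut.conj h).toMonoidHom ≤ m.grp S := by
    rw [Cls.grp, MonoidHom.map_closure]
    exact closure_mono (Set.image_subset_iff.2 h1)
  exact this ⟨x, hx, rfl⟩

/-- The lift of the product of three transvections at a line. -/
def rho (u v : Fin 6 → F) (μ : F) : H := if μ = 0 then 1 else m.M.pt (u + μ • v) * m.M.pt u * m.M.pt v

theorem rho_spec {u v : Fin 6 → F} (hu : IsPt u) (hv : IsPt v) (huv : herm u v = 0)
    (hind : u ∉ Submodule.span F {v}) (μ : F) :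
    ∃ g : ↥(Cfsg.SU 6 F 2), c.π (rho m u v μ) = g ∧
      (∀ x, act g x = x + ((μ ^ 2 * herm x v) • u + (μ * herm x u) • v)) ∧
      ∀ S : Submodule F (Fin 6 → F), u ∈ S → v ∈ S → rho m u v μ ∈ m.grp S := by
  by_cases hμ : μ = 0
  · exact ⟨1, by rw [rho, if_pos hμ, map_one]; rfl, fun x => by simp [act_one, hμ],
      fun S _ _ => by rw [rho, if_pos hμ]; exact one_mem _⟩
  have hvu := (herm_zero_comm c.card).1 huv
  have h0 : IsPt (u + μ • v) := ⟨fun e => hind (Submodule.mem_span_singleton.2 ⟨-μ, by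
      rw [neg_smul]; exact (eq_neg_of_add_eq_zero_left e).symm⟩), by
    simp only [herm_add_left c.card, herm_add_right c.card, herm_smul_left c.card, herm_smul_right c.card,
      hu.2, hv.2, huv, hvu, mul_zero, add_zero]⟩
  refine ⟨trv c.card (u + μ • v) * trv c.card u * trv c.card v, ?_, sigma_act c.card hu.2 hv.2 huv hμ,
    fun S hSu hSv => ?_⟩
  · rw [rho, if_neg hμ, map_mul, map_mul, (m.hpt _ h0).2, (m.hpt _ hu).2, (m.hpt _ hv).2]; rfl
  · rw [rho, if_neg hμ]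
    exact mul_mem (mul_mem (pt_mem m (S.add_mem hSu (S.smul_mem _ hSv)) h0.1) (pt_mem m hSu hu.1))
      (pt_mem m hSv hv.1)

variable (hw : w + w ^ 2 = 1) (h5 : m.five w (pl 1 0 0) (pl 0 1 0) = 1)
include hw h5

set_option maxHeartbeats 1600000 in
/-- The three frames of the plane do not all have the product of the coordinate frame. -/
theorem not_all_frames
    (f₁ : m.M.pt (pl 1 1 1) * m.M.pt (pl 1 w (w ^ 2)) * m.M.pt (pl 1 (w ^ 2) w) =
      m.M.pt (pl 1 0 0) * m.M.pt (pl 0 1 0) * m.M.pt (pl 0 0 1))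
    (f₂ : m.M.pt (pl 1 1 w) * m.M.pt (pl 1 w 1) * m.M.pt (pl 1 (w ^ 2) (w ^ 2)) =
      m.M.pt (pl 1 0 0) * m.M.pt (pl 0 1 0) * m.M.pt (pl 0 0 1))
    (f₃ : m.M.pt (pl 1 1 (w ^ 2)) * m.M.pt (pl 1 (w ^ 2) 1) * m.M.pt (pl 1 w w) =
      m.M.pt (pl 1 0 0) * m.M.pt (pl 0 1 0) * m.M.pt (pl 0 0 1)) : False := by
  classical
  have hF := c.card
  obtain ⟨w0, w1, w20, w21, w2w⟩ := w_facts hw
  have h11 := add_self hF (1 : F)
  have hw3 := cube hF w0
  let A1 := m.grp (PL (F := F))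
  -- the centre is outside
  let vs : List (Fin 6 → F) := [pl 1 0 0, pl 0 1 0, pl 0 0 1, pl 1 1 0, pl 1 w 0, pl 1 0 1, pl 1 0 w,
    pl 0 1 1, pl 0 1 w]
  have hvs : ∀ v ∈ vs, v ∈ PL (F := F) ∧ IsPt v := by
    simp only [vs, List.forall_mem_cons, List.not_mem_nil, IsEmpty.forall_iff, implies_true, and_true]
    refine ⟨?_, ?_, ?_, ?_, ?_, ?_, ?_, ?_, ?_⟩ <;> exact ⟨pl_mem .., pl_isPt (by simp) hF⟩
  have hA1K : A1 ≤ closure {x | x ∈ vs.map m.M.pt} := by
    refine (closure_le _).2 ?_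
    rintro _ ⟨v, hv, hv0, rfl⟩
    have hnine : ∀ v ∈ vs, m.M.pt v ∈ closure {x | x ∈ vs.map m.M.pt} := fun v hv =>
      subset_closure (List.mem_map.2 ⟨v, hv, rfl⟩)
    have h0 := mul_mem (mul_mem (hnine (pl 1 0 0) (by simp [vs])) (hnine (pl 0 1 0) (by simp [vs])))
      (hnine (pl 0 0 1) (by simp [vs]))
    exact pts_mem m hw h5 hnine (f₁ ▸ h0) (f₂ ▸ h0) (f₃ ▸ h0) v hv hv0
  have hA1card : Nat.card A1 ≤ 512 := by
    refine ((Subgroup.card_le_of_le hA1K).trans (card_closure_list _ ?_ ?_)).trans (by simp [vs])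
    · intro x hx
      obtain ⟨v, hv, rfl⟩ := List.mem_map.1 hx
      exact m.pt_sq (hvs v hv).2
    · intro x hx y hy
      obtain ⟨u, hu, rfl⟩ := List.mem_map.1 hx
      obtain ⟨v, hv, rfl⟩ := List.mem_map.1 hy
      exact m.pt_comm (ti_PL hF) (hvs u hu).1 (hvs v hv).1 (hvs u hu).2.1 (hvs v hv).2.1
  have himc := image_card m hw
  have hz : c.z ∉ A1 := by
    intro hzA
    have hinj : Set.InjOn c.π (A1 : Set H) := by
      refine Set.injOn_of_ncard_image_eq (le_antisymm (Set.ncard_image_le (Set.toFinite _)) ?_) (Set.toFinite _)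
      rw [← Nat.card_coe_set_eq, ← Nat.card_coe_set_eq]
      exact hA1card.trans himc
    exact c.hz1 (hinj hzA (one_mem A1) (by rw [(c.hker c.z).2 (Or.inr rfl), map_one]))
  -- the two further planes
  let Lp : F × F → F × F → F × F → (Fin 3 → F) →ₗ[F] (Fin 6 → F) := fun a b d =>
    { toFun := fun k => ![k 0 * a.1, k 0 * a.2, k 1 * b.1, k 1 * b.2, k 2 * d.1, k 2 * d.2]
      map_add' := fun u v => by funext i; fin_cases i <;> simp [add_mul]
      map_smul' := fun k v => by funext i; fin_cases i <;> simp [mul_assoc] }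
  have hpair : ∀ a : F × F, (a = (1, 1) ∨ a = (w, w ^ 2)) → a.1 * a.1 ^ 2 + a.2 * a.2 ^ 2 = 0 ∧ a.1 ≠ 0 := by
    rintro a (rfl | rfl)
    · exact ⟨by linear_combination h11, one_ne_zero⟩
    · exact ⟨by linear_combination h11 + (1 + (w * w * w + 1)) * hw3, w0⟩
  have plane : ∀ a b d : F × F, (a = (1, 1) ∨ a = (w, w ^ 2)) → (b = (1, 1) ∨ b = (w, w ^ 2)) →
      (d = (1, 1) ∨ d = (w, w ^ 2)) →
      TI (LinearMap.range (Lp a b d)) ∧ Module.finrank F (LinearMap.range (Lp a b d)) = 3 := by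
    intro a b d ha hb hd
    refine ⟨?_, ?_⟩
    · rintro _ ⟨k, rfl⟩ _ ⟨l, rfl⟩
      simp only [Lp, LinearMap.coe_mk, AddHom.coe_mk, herm, Cfsg.hermForm, Fin.sum_univ_six, Matrix.cons_val]
      linear_combination (k 0 * l 0 ^ 2) * (hpair a ha).1 + (k 1 * l 1 ^ 2) * (hpair b hb).1 +
        (k 2 * l 2 ^ 2) * (hpair d hd).1
    · rw [LinearMap.finrank_range_of_inj, Module.finrank_fin_fun]
      intro u v h
      funext i
      fin_cases i
      · exact mul_right_cancel₀ (hpair a ha).2 (congrFun h 0)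
      · exact mul_right_cancel₀ (hpair b hb).2 (congrFun h 2)
      · exact mul_right_cancel₀ (hpair d hd).2 (congrFun h 4)
  let P2 := LinearMap.range (Lp (1, 1) (w, w ^ 2) (w, w ^ 2))
  let P3 := LinearMap.range (Lp (1, 1) (1, 1) (w, w ^ 2))
  obtain ⟨hP2, hP2'⟩ : TI P2 ∧ Module.finrank F P2 = 3 := plane _ _ _ (Or.inl rfl) (Or.inr rfl) (Or.inr rfl)
  obtain ⟨hP3, hP3'⟩ : TI P3 ∧ Module.finrank F P3 = 3 := plane _ _ _ (Or.inl rfl) (Or.inl rfl) (Or.inr rfl)
  have hz2 := z_notMem_grp m hz hP2 hP2'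
  have hz3 := z_notMem_grp m hz hP3 hP3'
  let e1 : Fin 6 → F := pl 1 0 0
  let e2 : Fin 6 → F := pl 0 1 0
  let f2 : Fin 6 → F := ![0, 0, w, w ^ 2, 0, 0]
  let f3 : Fin 6 → F := ![0, 0, 0, 0, w, w ^ 2]
  have hf2 : f2 ∈ P2 := ⟨![0, 1, 0], by funext i; fin_cases i <;> simp [Lp, f2]⟩
  have he12 : e1 ∈ P2 := ⟨![1, 0, 0], by funext i; fin_cases i <;> simp [Lp, e1, pl]⟩
  have hf3 : f3 ∈ P3 := ⟨![0, 0, 1], by funext i; fin_cases i <;> simp [Lp, f3]⟩
  have he13 : e1 ∈ P3 := ⟨![1, 0, 0], by funext i; fin_cases i <;> simp [Lp, e1, pl]⟩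
  have he23 : e2 ∈ P3 := ⟨![0, 1, 0], by funext i; fin_cases i <;> simp [Lp, e2, pl]⟩
  have pe1 : IsPt e1 := pl_isPt (by simp) hF
  have pe2 : IsPt e2 := pl_isPt (by simp) hF
  have pf2 : IsPt f2 := isPt_of_mem hF hP2 hf2 fun e => w0 (by simpa [f2] using congrFun e 2)
  have pf3 : IsPt f3 := isPt_of_mem hF hP3 hf3 fun e => w0 (by simpa [f3] using congrFun e 4)
  have hsep : ∀ {v u : Fin 6 → F} (i : Fin 6), v i ≠ 0 → u i = 0 → v ∉ Submodule.span F {u} :=
    fun {v u} i hv hu hm => by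
      obtain ⟨k, rfl⟩ := Submodule.mem_span_singleton.1 hm
      exact hv (by simp [hu])
  have n12 : e1 ∉ Submodule.span F {f2} := hsep 0 (by simp [e1, pl]) (by simp [f2])
  have n13 : e1 ∉ Submodule.span F {f3} := hsep 0 (by simp [e1, pl]) (by simp [f3])
  have n23 : e2 ∉ Submodule.span F {f3} := hsep 2 (by simp [e2, pl]) (by simp [f3])
  have hww : w ^ 2 + (w ^ 2) ^ 2 = 1 := by linear_combination hw + w * hw3
  have hb2 : ∀ a b d : F, herm (pl a b d) f2 = b := fun a b d => by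
    simp only [herm, Cfsg.hermForm, pl, f2, Fin.sum_univ_six, Matrix.cons_val]
    linear_combination b * hww
  have hb3 : ∀ a b d : F, herm (pl a b d) f3 = d := fun a b d => by
    simp only [herm, Cfsg.hermForm, pl, f3, Fin.sum_univ_six, Matrix.cons_val]
    linear_combination d * hww
  -- the action on the plane
  have act1 : ∀ α a b d : F, ∃ g : ↥(Cfsg.SU 6 F 2), c.π (rho m e1 f2 α) = g ∧
      (∀ x, act g x = x + ((α ^ 2 * herm x f2) • e1 + (α * herm x e1) • f2)) ∧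
      act g (pl a b d) = pl (a + α ^ 2 * b) b d := fun α a b d => by
    obtain ⟨g, hg, hact, -⟩ := rho_spec m pe1 pf2 (hP2 e1 he12 f2 hf2) n12 α
    refine ⟨g, hg, hact, ?_⟩
    rw [hact, hb2, ti_PL hF _ (pl_mem a b d) e1 (pl_mem ..), mul_zero, zero_smul, add_zero, smul_pl, add_pl]
    simp
  have act2 : ∀ {u : Fin 6 → F}, u ∈ PL (F := F) → IsPt u → u ∈ P3 → u ∉ Submodule.span F {f3} → ∀ β a b d : F,
      ∃ g : ↥(Cfsg.SU 6 F 2), c.π (rho m u f3 β) = g ∧ act g (pl a b d) = pl a b d + (β ^ 2 * d) • u := by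
    intro u huP pu hu3 hn β a b d
    obtain ⟨g, hg, hact, -⟩ := rho_spec m pu pf3 (hP3 u hu3 f3 hf3) hn β
    refine ⟨g, hg, ?_⟩
    rw [hact, hb3, ti_PL hF _ (pl_mem a b d) u huP, mul_zero, zero_smul, add_zero]
  -- the subgroups
  let N1 : Subgroup H := Subgroup.normalizer (pts m.M (PL (F := F)))
  have inN1 : ∀ {h : H} {g : ↥(Cfsg.SU 6 F 2)}, c.π h = g → (∀ x ∈ PL (F := F), act g x ∈ PL (F := F)) → h ∈ N1 := by
    intro h g hg hgS
    have hsub := (conj_grp m (ti_PL hF) hg hgS).1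
    have heq : (fun x => h * x * h⁻¹) '' pts m.M (PL (F := F)) = pts m.M (PL (F := F)) :=
      Set.eq_of_subset_of_ncard_le (Set.image_subset_iff.2 hsub)
        (le_of_eq (Set.ncard_image_of_injective _ fun x y e => mul_left_cancel (mul_right_cancel e)).symm)
    exact Subgroup.mem_normalizer_iff_conj_image_eq.2 heq
  let Y : Subgroup H := m.grp P3 ⊓ N1
  have hN1A : ∀ h ∈ N1, ∀ x ∈ A1, h * x * h⁻¹ ∈ A1 := by
    intro h hh x hx
    have : A1.map (MulAut.conj h).toMonoidHom ≤ A1 := by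
      show (Subgroup.closure _).map _ ≤ Subgroup.closure _
      rw [MonoidHom.map_closure]
      exact closure_mono (Subgroup.mem_normalizer_iff_conj_image_eq.1 hh).subset
    exact this ⟨x, hx, rfl⟩
  have rho_prop : ∀ α, rho m e1 f2 α ∈ m.grp P2 ∧ rho m e1 f2 α ∈ N1 ∧
      ∀ x ∈ m.grp P3, rho m e1 f2 α * x * (rho m e1 f2 α)⁻¹ ∈ m.grp P3 := by
    intro α
    obtain ⟨g, hg, hact, hmem⟩ := rho_spec m pe1 pf2 (hP2 e1 he12 f2 hf2) n12 α
    refine ⟨hmem P2 he12 hf2, inN1 hg fun x hx => ?_, (conj_grp m hP3 hg fun x hx => ?_).2⟩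
    · rw [hact, ti_PL hF x hx e1 (pl_mem ..), mul_zero, zero_smul, add_zero]
      exact Submodule.add_mem _ hx (Submodule.smul_mem _ _ (pl_mem ..))
    · rw [hact, hP3 x hx e1 he13, mul_zero, zero_smul, add_zero]
      exact Submodule.add_mem _ hx (Submodule.smul_mem _ _ he13)
  have π2inj : ∀ x ∈ m.grp P2, ∀ y ∈ m.grp P2, c.π x = c.π y → x = y := fun x hx y hy h => by
    refine (same c h).resolve_right fun e => hz2 ?_
    have := mul_mem (inv_mem hy) hx
    rwa [e, inv_mul_cancel_left] at this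
  have rho_add : ∀ α β, rho m e1 f2 α * rho m e1 f2 β = rho m e1 f2 (α + β) := by
    intro α β
    obtain ⟨g, hg, ga, hgm⟩ := rho_spec m pe1 pf2 (hP2 e1 he12 f2 hf2) n12 α
    obtain ⟨k, hk, ka, -⟩ := rho_spec m pe1 pf2 (hP2 e1 he12 f2 hf2) n12 β
    obtain ⟨l, hl, la, hlm⟩ := rho_spec m pe1 pf2 (hP2 e1 he12 f2 hf2) n12 (α + β)
    refine π2inj _ (mul_mem (hgm P2 he12 hf2) (rho_prop β).1) _ (hlm P2 he12 hf2) ?_
    rw [map_mul, hg, hk, hl, ← QuotientGroup.mk_mul]
    congr 1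
    refine ext_act fun x => ?_
    rw [act_mul, ka, ga, la]
    simp only [herm_add_left hF, herm_smul_left hF, hP2 e1 he12 f2 hf2, hP2 f2 hf2 f2 hf2,
      hP2 e1 he12 e1 he12, hP2 f2 hf2 e1 he12, mul_zero, add_zero]
    funext i
    simp only [Pi.add_apply, Pi.smul_apply, smul_eq_mul]
    linear_combination (-(herm x f2 * e1 i * α * β)) * add_self hF (1 : F)
  let Xs : Subgroup H :=
    { carrier := {x | ∃ α, x = rho m e1 f2 α}
      mul_mem' := by rintro _ _ ⟨α, rfl⟩ ⟨β, rfl⟩; exact ⟨α + β, rho_add α β⟩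
      one_mem' := ⟨0, by rw [rho, if_pos rfl]⟩
      inv_mem' := by
        rintro _ ⟨α, rfl⟩
        refine ⟨α, inv_eq_of_mul_eq_one_right ?_⟩
        rw [rho_add, add_self hF, rho, if_pos rfl] }
  have hYN : Y ≤ N1 := inf_le_right
  have hA1N1 : A1 ≤ N1 := (closure_le _).2 fun x hx => by
    obtain ⟨v, hv, hv0, rfl⟩ := hx
    refine inN1 (m.hpt v (isPt_of_mem hF (ti_PL hF) hv hv0)).2 fun y hy => ?_
    rw [trv_act hF (ti_PL hF v hv v hv), ti_PL hF y hy v hv, zero_smul, add_zero]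
    exact hy
  have hM1 : ((A1 ⊔ Y : Subgroup H) : Set H) = (A1 : Set H) * (Y : Set H) := by
    refine Subgroup.coe_mul_of_right_le_normalizer_left A1 Y fun y hy => Subgroup.mem_normalizer_iff.2 fun n => ?_
    refine ⟨hN1A y (hYN hy) n, fun hn => ?_⟩
    have := hN1A y⁻¹ (inv_mem (hYN hy)) _ hn
    simpa [mul_assoc] using this
  have hXnorm : Xs ≤ Subgroup.normalizer ((A1 ⊔ Y : Subgroup H) : Set H) := by
    have step : ∀ α, ∀ x ∈ A1 ⊔ Y, rho m e1 f2 α * x * (rho m e1 f2 α)⁻¹ ∈ A1 ⊔ Y := by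
      intro α x hx
      rw [← SetLike.mem_coe, hM1] at hx
      obtain ⟨a, ha, y, hy, rfl⟩ := hx
      rw [show rho m e1 f2 α * (a * y) * (rho m e1 f2 α)⁻¹ = rho m e1 f2 α * a * (rho m e1 f2 α)⁻¹ *
        (rho m e1 f2 α * y * (rho m e1 f2 α)⁻¹) by group]
      exact mul_mem (mem_sup_left (hN1A _ (rho_prop α).2.1 a ha))
        (mem_sup_right (show _ ∈ Y from ⟨(rho_prop α).2.2 y hy.1,
          (show _ ∈ N1 from mul_mem (mul_mem (rho_prop α).2.1 (hYN hy)) (inv_mem (rho_prop α).2.1))⟩))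
    rintro _ ⟨α, rfl⟩
    refine Subgroup.mem_normalizer_iff.2 fun n => ⟨step α n, fun hn => ?_⟩
    have := step α _ hn
    rwa [← mul_assoc, ← mul_assoc, rho_add, add_self hF, mul_assoc _ _ (rho m e1 f2 α)⁻¹,
      ← mul_inv_rev, rho_add, add_self hF, rho, if_pos rfl, one_mul, inv_one, mul_one] at this
  let L : Subgroup H := (A1 ⊔ Y) ⊔ Xs
  have hLset : (L : Set H) = ((A1 : Set H) * (Y : Set H)) * (Xs : Set H) := by
    rw [← hM1]
    exact Subgroup.coe_mul_of_right_le_normalizer_left _ Xs hXnorm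
  -- fixed points
  have fixA : ∀ a ∈ A1, ∀ v ∈ PL (F := F), v ≠ 0 → a * m.M.pt v * a⁻¹ = m.M.pt v := fun a ha v hv hv0 => by
    rw [((grpz_elementary m (ti_PL hF)).2 a (grp_le m _ ha) _ (grp_le m _ (pt_mem m hv hv0))).eq,
      mul_inv_cancel_right]
  have fixY : ∀ y ∈ Y, y * m.M.pt e2 * y⁻¹ = m.M.pt e2 := fun y hy => by
    rw [((grpz_elementary m hP3).2 y (grp_le m _ hy.1) _ (grp_le m _ (pt_mem m he23 pe2.1))).eq,
      mul_inv_cancel_right]
  have move2 : ∀ a ∈ A1, ∀ y ∈ Y, ∀ α, (a * y * rho m e1 f2 α) * m.M.pt e2 * (a * y * rho m e1 f2 α)⁻¹ =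
      a * (y * m.M.pt (pl (α ^ 2) 1 0) * y⁻¹) * a⁻¹ := fun a _ y _ α => by
    obtain ⟨g, hg, -, hgp⟩ := act1 α 0 1 0
    rw [zero_add, mul_one] at hgp
    rw [← hgp, ← conj_pt m hg pe2]
    group
  have hzL : c.z ∉ L := by
    intro hzL
    rw [← SetLike.mem_coe, hLset] at hzL
    obtain ⟨_, ⟨a, ha, y, hy, rfl⟩, _, ⟨α, rfl⟩, he⟩ := hzL
    have hz' : a * y * rho m e1 f2 α = c.z := he
    have h1 := move2 a ha y hy α
    rw [hz', ← (c.hzc _).symm.eq, mul_inv_cancel_right] at h1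
    have h2 : m.M.pt (pl (α ^ 2) 1 0) = m.M.pt e2 := by
      have hp : IsPt (pl (α ^ 2) 1 0) := pl_isPt (by simp) hF
      have e : y * m.M.pt (pl (α ^ 2) 1 0) * y⁻¹ = a⁻¹ * m.M.pt e2 * a := by rw [h1]; group
      have e' : a⁻¹ * m.M.pt e2 * a = m.M.pt e2 := by
        have := fixA a⁻¹ (inv_mem ha) e2 (pl_mem ..) pe2.1
        rwa [inv_inv] at this
      have h3 := fixY y⁻¹ (inv_mem hy)
      rw [inv_inv] at h3
      rw [e'] at e
      calc m.M.pt (pl (α ^ 2) 1 0) = y⁻¹ * (y * m.M.pt (pl (α ^ 2) 1 0) * y⁻¹) * y := by group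
        _ = m.M.pt e2 := by rw [e]; exact h3
    obtain ⟨k, -, hk⟩ := m.M.pt_inj _ _ (pl_isPt (by simp) hF).1 (herm_pl_pl hF ..) pe2.1 pe2.2 h2
    rw [show e2 = pl 0 1 0 from rfl, smul_pl, mul_zero] at hk
    have hα : α = 0 := by simpa using (pl_inj hk).1
    rw [hα, show rho m e1 f2 0 = 1 from by rw [rho, if_pos rfl], mul_one] at hz'
    have hyz : y ∈ m.grpz (PL (F := F)) := by
      have : y = a⁻¹ * c.z := by rw [← hz', inv_mul_cancel_left]
      rw [this]; exact mul_mem (inv_mem (grp_le m _ ha)) (z_mem m _)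
    obtain ⟨g', hg'⟩ := img m hP3 (grp_le m _ hy.1)
    obtain ⟨k, hk, hsh⟩ := elements m (ti_PL hF) hyz (PL (F := F) ⊓ P3) inf_le_left fun g hg u =>
      ⟨hg.2.1 u, img_unique hg hg' rfl ▸ hg'.2.1 u⟩
    obtain ⟨b, hb1, hb3, rfl⟩ : ∃ b, b ∈ A1 ∧ b ∈ m.grp P3 ∧ y = b * k := by
      have both : ∀ {u : Fin 6 → F}, u ∈ PL (F := F) ⊓ P3 → u ≠ 0 → m.M.pt u ∈ A1 ⊓ m.grp P3 :=
        fun hu hu0 => ⟨pt_mem m hu.1 hu0, pt_mem m hu.2 hu0⟩
      have ne : ∀ {u : Fin 6 → F} {X : Set (Fin 6 → F)}, u ∉ Submodule.span F X → u ≠ 0 :=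
        fun h e => h (e ▸ Submodule.zero_mem _)
      rcases hsh with h | ⟨u, hu, hu0, h⟩ | ⟨u, hu, v, hv, hv0, huv, h⟩ | ⟨u, hu, v, hv, r, hr, hr0, hvr, huvr, h⟩
      · exact ⟨1, one_mem _, one_mem _, by rw [one_mul]; exact h⟩
      · exact ⟨_, (both hu hu0).1, (both hu hu0).2, h⟩
      · have := mul_mem (both hu (ne huv)) (both hv hv0)
        exact ⟨_, this.1, this.2, h⟩
      · have := mul_mem (mul_mem (both hu (ne huvr)) (both hv (ne hvr))) (both hr hr0)
        exact ⟨_, this.1, this.2, h⟩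
    have hk3 : k ∈ m.grp P3 := by
      have := mul_mem (inv_mem hb3) hy.1
      rwa [inv_mul_cancel_left] at this
    rcases hk with rfl | rfl
    · rw [mul_one] at hz'
      exact hz (hz' ▸ mul_mem ha hb1)
    · exact hz3 hk3
  -- the order
  haveI : Fact (Nat.Prime 2) := ⟨Nat.prime_two⟩
  have pgrp : ∀ {S : Submodule F (Fin 6 → F)}, TI S → IsPGroup 2 (m.grp S) := fun hS =>
    H53.isPGroup_of_sq fun x hx => (grpz_elementary m hS).1 x (grp_le m _ hx)
  have hXp : IsPGroup 2 Xs := (pgrp hP2).to_le fun x ⟨α, hx⟩ => hx ▸ (rho_prop α).1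
  have hLp : IsPGroup 2 L := by
    refine IsPGroup.to_sup_of_normal_left' ?_ hXp hXnorm
    refine IsPGroup.to_sup_of_normal_left' (pgrp (ti_PL hF)) ((pgrp hP3).to_le inf_le_left) fun y hy => ?_
    refine Subgroup.mem_normalizer_iff.2 fun n => ⟨hN1A y (hYN hy) n, fun hn => ?_⟩
    have := hN1A y⁻¹ (inv_mem (hYN hy)) _ hn
    simpa [mul_assoc] using this
  have hA1eq : 512 ≤ Nat.card A1 := himc.trans (Nat.card_le_card_of_surjective
    (fun x : ↥A1 => (⟨c.π x, x, x.2, rfl⟩ : ↥(A1.map c.π))) fun ⟨_, x, hx, rfl⟩ => ⟨⟨x, hx⟩, rfl⟩)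
  have hrhoY : ∀ {u : Fin 6 → F}, u ∈ PL (F := F) → IsPt u → u ∈ P3 → u ∉ Submodule.span F {f3} → ∀ β,
      rho m u f3 β ∈ Y := fun {u} huP pu hu3 hn β => by
    obtain ⟨g, hg, hact, hmem⟩ := rho_spec m pu pf3 (hP3 u hu3 f3 hf3) hn β
    refine ⟨hmem P3 hu3 hf3, inN1 hg fun x hx => ?_⟩
    rw [hact, ti_PL hF x hx u huP, mul_zero, zero_smul, add_zero]
    exact Submodule.add_mem _ hx (Submodule.smul_mem _ _ huP)
  have hcardL : 32768 ≤ Nat.card L := by
    let f : ↥A1 × F × F × F → ↥L := fun p => ⟨(p.1 : H) * (rho m e1 f3 p.2.1 * rho m e2 f3 p.2.2.1) *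
      rho m e1 f2 p.2.2.2, mul_mem (mem_sup_left (mul_mem (mem_sup_left p.1.2) (mem_sup_right
        (mul_mem (hrhoY (pl_mem ..) pe1 he13 n13 _) (hrhoY (pl_mem ..) pe2 he23 n23 _)))))
      (mem_sup_right ⟨_, rfl⟩)⟩
    have hf : Function.Injective f := by
      rintro ⟨a, β, γ, α⟩ ⟨a', β', γ', α'⟩ h
      have h' : (a : H) * (rho m e1 f3 β * rho m e2 f3 γ) * rho m e1 f2 α =
          (a' : H) * (rho m e1 f3 β' * rho m e2 f3 γ') * rho m e1 f2 α' := congrArg Subtype.val h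
      have img2 : ∀ (a : ↥A1) (β γ α x y z : F), ¬ (x = 0 ∧ y = 0 ∧ z = 0) →
          ((a : H) * (rho m e1 f3 β * rho m e2 f3 γ) * rho m e1 f2 α) * m.M.pt (pl x y z) *
            ((a : H) * (rho m e1 f3 β * rho m e2 f3 γ) * rho m e1 f2 α)⁻¹ =
          m.M.pt (pl (x + α ^ 2 * y + β ^ 2 * z) (y + γ ^ 2 * z) z) := by
        intro a β γ α x y z hxyz
        obtain ⟨g1, hg1, -, r1⟩ := act1 α x y z
        obtain ⟨g2, hg2, r2⟩ := act2 (pl_mem ..) pe2 he23 n23 γ (x + α ^ 2 * y) y z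
        obtain ⟨g3, hg3, r3⟩ := act2 (pl_mem ..) pe1 he13 n13 β (x + α ^ 2 * y) (y + γ ^ 2 * z) z
        have p1 : IsPt (pl (x + α ^ 2 * y) y z) := r1 ▸ ⟨act_ne_zero g1 (pl_isPt hxyz hF).1,
          by rw [herm_act]; exact herm_pl_pl hF ..⟩
        have r2' : act g2 (pl (x + α ^ 2 * y) y z) = pl (x + α ^ 2 * y) (y + γ ^ 2 * z) z := by
          rw [r2]; show _ + _ • pl 0 1 0 = _; rw [smul_pl, add_pl]; simp
        have r3' : act g3 (pl (x + α ^ 2 * y) (y + γ ^ 2 * z) z) =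
            pl (x + α ^ 2 * y + β ^ 2 * z) (y + γ ^ 2 * z) z := by
          rw [r3]; show _ + _ • pl 1 0 0 = _; rw [smul_pl, add_pl]; simp
        have p2 : IsPt (pl (x + α ^ 2 * y) (y + γ ^ 2 * z) z) := r2' ▸ ⟨act_ne_zero g2 p1.1,
          by rw [herm_act]; exact p1.2⟩
        have p3 : IsPt (pl (x + α ^ 2 * y + β ^ 2 * z) (y + γ ^ 2 * z) z) := r3' ▸ ⟨act_ne_zero g3 p2.1,
          by rw [herm_act]; exact p2.2⟩
        calc _ = (a : H) * (rho m e1 f3 β * (rho m e2 f3 γ * (rho m e1 f2 α * m.M.pt (pl x y z) *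
              (rho m e1 f2 α)⁻¹) * (rho m e2 f3 γ)⁻¹) * (rho m e1 f3 β)⁻¹) * (a : H)⁻¹ := by group
          _ = _ := by
            rw [conj_pt m hg1 (pl_isPt hxyz hF), r1, conj_pt m hg2 p1, r2', conj_pt m hg3 p2, r3',
              fixA a a.2 _ (pl_mem ..) p3.1]
      have k2 := img2 a β γ α 0 1 0 (by simp)
      rw [h', img2 a' β' γ' α' 0 1 0 (by simp)] at k2
      have k3 := img2 a β γ α 0 0 1 (by simp)
      rw [h', img2 a' β' γ' α' 0 0 1 (by simp)] at k3
      simp only [mul_zero, mul_one, add_zero, zero_add] at k2 k3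
      have sq_inj : ∀ {p q : F}, p ^ 2 = q ^ 2 → p = q := fun {p q} e => by
        have e0 : (p + q) * (p + q) = 0 := by linear_combination e + (q ^ 2 + p * q) * h11
        linear_combination mul_self_eq_zero.1 e0 - add_self hF q
      obtain ⟨k, -, hk⟩ := m.M.pt_inj _ _ (pl_isPt (by simp) hF).1 (herm_pl_pl hF ..) (pl_isPt (by simp) hF).1
        (herm_pl_pl hF ..) k2
      rw [smul_pl] at hk
      obtain ⟨ha1, hb1, -⟩ := pl_inj hk
      rw [mul_one] at hb1
      subst hb1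
      rw [one_mul] at ha1
      obtain rfl : α' = α := sq_inj ha1
      obtain ⟨k, -, hk⟩ := m.M.pt_inj _ _ (pl_isPt (by simp) hF).1 (herm_pl_pl hF ..) (pl_isPt (by simp) hF).1
        (herm_pl_pl hF ..) k3
      rw [smul_pl] at hk
      obtain ⟨ha1, hb1, hc1⟩ := pl_inj hk
      rw [mul_one] at hc1
      subst hc1
      rw [one_mul] at ha1 hb1
      obtain rfl : β' = β := sq_inj ha1
      obtain rfl : γ' = γ := sq_inj hb1
      obtain rfl : a = a' := Subtype.ext (mul_right_cancel (mul_right_cancel h'))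
      rfl
    have := Nat.card_le_card_of_injective f hf
    rw [Nat.card_prod, Nat.card_prod, Nat.card_prod, Nat.card_eq_fintype_card (α := F), hF] at this
    nlinarith
  obtain ⟨kL, hkL⟩ := IsPGroup.iff_card.1 hLp
  have hπL : Function.Injective (c.π.comp L.subtype) := by
    intro x y h
    refine Subtype.ext ((same c h).resolve_right fun e => hzL ?_)
    have := mul_mem (inv_mem y.2) x.2
    rw [Subgroup.coe_subtype] at e
    rwa [e, inv_mul_cancel_left] at this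
  have hdvd : Nat.card L ∣ 9196830720 := by
    rw [← H43.M22.card_psu_six hF]
    exact Subgroup.card_dvd_of_injective _ hπL
  have hL15 : Nat.card L = 32768 := by
    rw [hkL] at hdvd hcardL ⊢
    have hle : kL ≤ 15 := by
      by_contra hlt
      have : 2 ^ 16 ∣ 9196830720 := (Nat.pow_dvd_pow 2 (by omega : 16 ≤ kL)).trans hdvd
      norm_num at this
    have : 15 ≤ kL := by
      by_contra hlt
      have : 2 ^ kL ≤ 2 ^ 14 := Nat.pow_le_pow_right (by norm_num) (by omega)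
      omega
    rw [show kL = 15 by omega]; rfl
  -- the transfer
  have hzz := zz c
  let S2 : Subgroup H :=
    { carrier := {x | x ∈ L ∨ x * c.z ∈ L}
      mul_mem' := by
        rintro x y (hx | hx) (hy | hy)
        · exact Or.inl (mul_mem hx hy)
        · exact Or.inr (by rw [mul_assoc]; exact mul_mem hx hy)
        · exact Or.inr (by rw [mul_assoc, ← (c.hzc y).eq, ← mul_assoc]; exact mul_mem hx hy)
        · refine Or.inl ?_
          have := mul_mem hx hy
          rwa [(c.hzc y).mul_mul_mul_comm, hzz, mul_one] at this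
      one_mem' := Or.inl (one_mem L)
      inv_mem' := by
        rintro x (hx | hx)
        · exact Or.inl (inv_mem hx)
        · refine Or.inr ?_
          have := inv_mem hx
          rwa [mul_inv_rev, inv_eq_of_mul_eq_one_right hzz, (c.hzc x⁻¹).eq] at this }
  have hS2 : Nat.card S2 = 65536 := by
    have hset : (S2 : Set H) = (L : Set H) ∪ (· * c.z) '' (L : Set H) := by
      ext x
      refine ⟨fun hx => hx.imp id fun h => ⟨x * c.z, h, by show x * c.z * c.z = x; rw [mul_assoc, hzz, mul_one]⟩, ?_⟩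
      rintro (hx | ⟨y, hy, rfl⟩)
      · exact Or.inl hx
      · exact Or.inr (by rw [mul_assoc, hzz, mul_one]; exact hy)
    have hdisj : Disjoint (L : Set H) ((· * c.z) '' (L : Set H)) := by
      rw [Set.disjoint_left]
      rintro _ hx ⟨y, hy, rfl⟩
      have := mul_mem (inv_mem hy) hx
      rw [inv_mul_cancel_left] at this
      exact hzL this
    show Nat.card ↥(S2 : Set H) = _
    rw [Nat.card_coe_set_eq, hset, Set.ncard_union_eq hdisj (Set.toFinite _) (Set.toFinite _),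
      Set.ncard_image_of_injective _ (mul_left_injective _), ← Nat.card_coe_set_eq,
      show Nat.card ↥(L : Set H) = Nat.card L from rfl, hL15]
  have hH : Nat.card H = 18393661440 := by
    rw [Subgroup.card_eq_card_quotient_mul_card_subgroup c.π.ker,
      Nat.card_congr (QuotientGroup.quotientKerEquivOfSurjective c.π c.hsur).toEquiv, H43.M22.card_psu_six hF,
      show Nat.card ↥c.π.ker = 2 from ?_]
    show Nat.card ↥(c.π.ker : Set H) = 2
    rw [Nat.card_coe_set_eq, show (c.π.ker : Set H) = {1, c.z} from Set.ext fun x => by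
      rw [SetLike.mem_coe, MonoidHom.mem_ker, c.hker]; rfl, Set.ncard_pair c.hz1.symm]
  have hidx : S2.index = 280665 := by
    have := S2.card_mul_index
    rw [hH, hS2] at this
    omega
  let χ : ↥S2 →* ℤˣ :=
    MonoidHom.mk' (fun x => if (x : H) ∈ L then 1 else -1) fun x y => by
      have flip : ∀ {u : ↥S2}, (u : H) ∉ L → (u : H) * c.z ∈ L := fun {u} h => u.2.resolve_left h
      have notboth : ∀ {h : H}, h * c.z ∈ L → h ∉ L := fun {h} h1 h2 => hzL (by
        have := mul_mem (inv_mem h2) h1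
        rwa [inv_mul_cancel_left] at this)
      by_cases hx : (x : H) ∈ L <;> by_cases hy : (y : H) ∈ L
      · rw [if_pos hx, if_pos hy, if_pos (show ((x * y : ↥S2) : H) ∈ L from mul_mem hx hy)]; rfl
      · rw [if_pos hx, if_neg hy, if_neg (show ((x * y : ↥S2) : H) ∉ L from fun h => hy (by
          have := mul_mem (inv_mem hx) h
          rwa [Subgroup.coe_mul, inv_mul_cancel_left] at this))]; rfl
      · rw [if_neg hx, if_pos hy, if_neg (show ((x * y : ↥S2) : H) ∉ L from fun h => hx (by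
          have := mul_mem h (inv_mem hy)
          rwa [Subgroup.coe_mul, mul_inv_cancel_right] at this))]; rfl
      · have := mul_mem (flip hx) (flip hy)
        rw [(c.hzc (y : H)).mul_mul_mul_comm, hzz, mul_one] at this
        rw [if_neg hx, if_neg hy, if_pos (show ((x * y : ↥S2) : H) ∈ L from this)]
        rfl
  haveI : S2.FiniteIndex := ⟨by rw [hidx]; norm_num⟩
  let V : H →* ℤˣ := MonoidHom.transfer χ
  have hodd : c.z ^ S2.index = c.z := by
    rw [hidx, show 280665 = 2 * 140332 + 1 from rfl, pow_succ, pow_mul, pow_two, hzz, one_pow, one_mul]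
  have hV : V c.z = -1 := by
    show MonoidHom.transfer χ c.z = -1
    rw [MonoidHom.transfer_eq_pow χ c.z fun k g _ => by
      rw [mul_assoc, ((c.hzc g).pow_left k).eq, inv_mul_cancel_left]]
    show (if c.z ^ S2.index ∈ L then (1 : ℤˣ) else -1) = -1
    rw [hodd, if_neg hzL]
  have hker : commutator H ≤ V.ker := Abelianization.commutator_subset_ker V
  rw [c.perf] at hker
  have := MonoidHom.mem_ker.1 (hker (Subgroup.mem_top c.z))
  rw [hV] at this
  exact absurd this (by decide)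

end Cfsg.Agent.H98.U62
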