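import Cfsg.Agent.H98.U62.Plane

/-! The transpositions in a Sylow 2-subgroup over a plane, and conjugacy of planes. -/

set_option autoImplicit false
set_option linter.unusedSectionVars false

namespace Cfsg.Agent.H98.U62

open Cfsg Cfsg.Agent.H17.UPoints Cfsg.Agent.H89.M22 Subgroup H53.SylowPlane

variable {F : Type} [Field F] [Fintype F] [DecidableEq F] {H : Type*} [Group H] [Finite H]
variable {c : Cov H F} (m : Cls c)

theorem pts_T {S : Submodule F (Fin 6 → F)} (hS : TI S) {x : H} (hx : x ∈ pts m.M S) :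
    x ∈ conjugatesOf m.a := by
  obtain ⟨v, hv, hv0, rfl⟩ := hx
  exact (m.hpt v (isPt_of_mem c.card hS hv hv0)).1

theorem pts_card21 {S : Submodule F (Fin 6 → F)} (hS : TI S) (h3 : Module.finrank F S = 3) :
    (pts m.M S).ncard = 21 := by
  have h := pts_card m.M hS
  rw [h3] at h
  omega

theorem z_notMem_pts {S : Submodule F (Fin 6 → F)} (hS : TI S) : c.z ∉ pts m.M S := fun h =>
  T_ne_z c m.hp m.ha (pts_T m hS h) rfl

/-- The transpositions in a 2-group containing those of a plane are those of the plane and the centre. -/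
theorem members_eq {S : Submodule F (Fin 6 → F)} (hS : TI S) (h3 : Module.finrank F S = 3) {P : Subgroup H}
    (hP : IsPGroup 2 P) (hle : m.grpz S ≤ P) :
    {x | x ∈ DS c m.a ∧ x ∈ P} = insert c.z (pts m.M S) := by
  have hD := group_DS c m.hp m.ha
  have hcomm : ∀ x ∈ {x | x ∈ DS c m.a ∧ x ∈ P}, ∀ y ∈ {x | x ∈ DS c m.a ∧ x ∈ P}, Commute x y := by
    intro x hx y hy
    by_contra h
    have h3' := H17.cube_one hD.1 hx.1 hy.1 h
    obtain ⟨k, hk⟩ := hP ⟨x * y, mul_mem hx.2 hy.2⟩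
    have hk' : (x * y) ^ 2 ^ k = 1 := by simpa using congrArg Subtype.val hk
    have hcop : Nat.Coprime (2 ^ k) 3 := (by norm_num : Nat.Coprime 2 3).pow_left k
    have h1 : x * y = 1 := by
      have := pow_gcd_eq_one.mpr ⟨hk', h3'⟩
      rwa [hcop.gcd_eq_one, pow_one] at this
    exact h (by rw [eq_inv_of_mul_eq_one_left h1]; exact (Commute.refl y).inv_left)
  have hsub : insert c.z (pts m.M S) ⊆ {x | x ∈ DS c m.a ∧ x ∈ P} := by
    intro x hx
    refine ⟨hx.imp id fun h => pts_T m hS h, hle (subset_closure hx)⟩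
  have h22 := (clique_plane m.M (E := {x | x ∈ DS c m.a ∧ x ∈ P} \ {c.z})
    (fun x hx => ⟨hx.1.1, hx.2, c.hzc x⟩) fun x hx y hy => hcomm x hx.1 y hy.1).1
  refine (Set.eq_of_subset_of_ncard_le hsub ?_).symm
  rw [Set.ncard_insert_of_notMem (z_notMem_pts m hS) (Set.toFinite _), pts_card21 m hS h3]
  have := Set.ncard_diff_singleton_add_one (hsub (Set.mem_insert c.z _)) (Set.toFinite _)
  omega

/-- A commuting set of transpositions is conjugate into the standard plane. -/
theorem clique_conj {E : Set H} (hE : E ⊆ DS c m.a) (hc : ∀ x ∈ E, ∀ y ∈ E, Commute x y) :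
    ∃ g : H, ∀ x ∈ E, g * x * g⁻¹ ∈ insert c.z (pts m.M (PL (F := F))) := by
  haveI : Fact (Nat.Prime 2) := ⟨Nat.prime_two⟩
  have hsq : ∀ x ∈ E, x * x = 1 := fun x hx => (hE hx).elim (fun h => h ▸ zz c) fun h => T_sq c m.hp m.ha h
  obtain ⟨P, hP⟩ := (H53.isPGroup_of_sq (H53.closure_elementary hsq hc).1).exists_le_sylow
  obtain ⟨P0, hP0⟩ := (H53.isPGroup_of_sq (grpz_elementary m (ti_PL c.card)).1).exists_le_sylow
  obtain ⟨g, hg⟩ := MulAction.exists_smul_eq H P P0
  refine ⟨g, fun x hx => ?_⟩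
  rw [← members_eq m (ti_PL c.card) (rank_PL c.card) P0.2 hP0]
  exact ⟨(group_DS c m.hp m.ha).2.1 g x (hE hx), by
    rw [← hg, Sylow.coe_subgroup_smul]; exact ⟨x, hP (subset_closure hx), rfl⟩⟩

/-- All planes are conjugate. -/
theorem plane_conj {S : Submodule F (Fin 6 → F)} (hS : TI S) (h3 : Module.finrank F S = 3) :
    ∃ g : H, (fun x => g * x * g⁻¹) '' pts m.M S = pts m.M (PL (F := F)) := by
  obtain ⟨g, hg⟩ := clique_conj m (E := pts m.M S) (fun x hx => Or.inr (pts_T m hS hx)) (pts_commute m.M hS)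
  refine ⟨g, Set.eq_of_subset_of_ncard_le ?_ ?_⟩
  · rintro _ ⟨x, hx, rfl⟩
    refine (hg x hx).resolve_left fun h => T_ne_z c m.hp m.ha (T_conj c m.hp m.ha (pts_T m hS hx) g) h
  · rw [Set.ncard_image_of_injective _ (fun x y h => mul_left_cancel (mul_right_cancel h)),
      pts_card21 m hS h3, pts_card21 m (ti_PL c.card) (rank_PL c.card)]

theorem z_notMem_grp (hz : c.z ∉ m.grp (PL (F := F))) {S : Submodule F (Fin 6 → F)} (hS : TI S)
    (h3 : Module.finrank F S = 3) : c.z ∉ m.grp S := by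
  intro h
  obtain ⟨g, hg⟩ := plane_conj m hS h3
  refine hz ?_
  have e : (m.grp S).map (MulAut.conj g).toMonoidHom = m.grp (PL (F := F)) := by
    rw [Cls.grp, MonoidHom.map_closure, Cls.grp, ← hg]; rfl
  rw [← e]
  exact ⟨c.z, h, by show g * c.z * g⁻¹ = c.z; rw [← (c.hzc g).eq, mul_inv_cancel_right]⟩

end Cfsg.Agent.H98.U62
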