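import Cfsg.Agent.H98.U62.Split

/-! The group of a plane is the unique largest elementary abelian 2-subgroup up to conjugacy. -/

set_option autoImplicit false
set_option linter.unusedSectionVars false

namespace Cfsg.Agent.H98.U62

open Cfsg Cfsg.Agent.H17.UPoints Cfsg.Agent.H89.M22 Subgroup H53.SylowPlane

variable {F : Type} [Field F] [Fintype F] [DecidableEq F] {H : Type*} [Group H] [Finite H]
variable {c : Cov H F} (m : Cls c) {w : F} (hw : w + w ^ 2 = 1)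
  (h5 : m.five w (pl 1 0 0) (pl 0 1 0) = 1)

theorem su_eq (hF : Fintype.card F = 4) {g k : ↥(Cfsg.SU 6 F 2)} (hg : g * g = 1) (hk : k * k = 1)
    (h : (g : Cfsg.PSU 6 F 2) = k) : g = k := H43.M22.lift_unique hF hg hk h

theorem sq_two (hF : Fintype.card F = 4) {u v : Fin 6 → F} (hu : IsPt u) (hv : IsPt v) (h : herm u v = 0) :
    trv hF u * trv hF v * (trv hF u * trv hF v) = 1 := by
  rw [((trv_commute_iff hF hu.2 hv.2 hu.1 hv.1).2 h).symm.mul_mul_mul_comm, trv_sq hF hu.2, trv_sq hF hv.2,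
    one_mul]

theorem sq_three (hF : Fintype.card F = 4) {u v r : Fin 6 → F} (hu : IsPt u) (hv : IsPt v) (hr : IsPt r)
    (huv : herm u v = 0) (hur : herm u r = 0) (hvr : herm v r = 0) :
    trv hF u * trv hF v * trv hF r * (trv hF u * trv hF v * trv hF r) = 1 := by
  rw [(((trv_commute_iff hF hu.2 hr.2 hu.1 hr.1).2 hur).mul_left
    ((trv_commute_iff hF hv.2 hr.2 hv.1 hr.1).2 hvr)).symm.mul_mul_mul_comm, sq_two hF hu hv huv,
    trv_sq hF hr.2, one_mul]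

include hw h5

theorem frame_image (i : Fin 3) :
    c.π ((![m.M.pt (pl 1 1 1) * m.M.pt (pl 1 w (w ^ 2)) * m.M.pt (pl 1 (w ^ 2) w),
        m.M.pt (pl 1 1 w) * m.M.pt (pl 1 w 1) * m.M.pt (pl 1 (w ^ 2) (w ^ 2)),
        m.M.pt (pl 1 1 (w ^ 2)) * m.M.pt (pl 1 (w ^ 2) 1) * m.M.pt (pl 1 w w)] : Fin 3 → H) i) =
      c.π (m.M.pt (pl 1 0 0) * m.M.pt (pl 0 1 0) * m.M.pt (pl 0 0 1)) := by
  have hF := c.card
  have hw3 := cube hF (w_facts hw).1
  have h11 := add_self hF (1 : F)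
  have key : ∀ x y z x' y' z' x'' y'' z'' : F, x ≠ 0 ∨ y ≠ 0 ∨ z ≠ 0 → x' ≠ 0 ∨ y' ≠ 0 ∨ z' ≠ 0 →
      x'' ≠ 0 ∨ y'' ≠ 0 ∨ z'' ≠ 0 →
      (∀ p q r : F,
        (x ^ 2 * p + y ^ 2 * q + z ^ 2 * r) * x + (x' ^ 2 * p + y' ^ 2 * q + z' ^ 2 * r) * x' +
          (x'' ^ 2 * p + y'' ^ 2 * q + z'' ^ 2 * r) * x'' = p ∧
        (x ^ 2 * p + y ^ 2 * q + z ^ 2 * r) * y + (x' ^ 2 * p + y' ^ 2 * q + z' ^ 2 * r) * y' +
          (x'' ^ 2 * p + y'' ^ 2 * q + z'' ^ 2 * r) * y'' = q ∧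
        (x ^ 2 * p + y ^ 2 * q + z ^ 2 * r) * z + (x' ^ 2 * p + y' ^ 2 * q + z' ^ 2 * r) * z' +
          (x'' ^ 2 * p + y'' ^ 2 * q + z'' ^ 2 * r) * z'' = r) →
      c.π (m.M.pt (pl x y z) * m.M.pt (pl x' y' z') * m.M.pt (pl x'' y'' z'')) =
        c.π (m.M.pt (pl 1 0 0) * m.M.pt (pl 0 1 0) * m.M.pt (pl 0 0 1)) := by
    intro x y z x' y' z' x'' y'' z'' h h' h'' hsum
    have nz : ∀ {a b d : F}, a ≠ 0 ∨ b ≠ 0 ∨ d ≠ 0 → IsPt (pl a b d) := fun h => pl_isPt (by tauto) hF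
    simp only [map_mul, (m.hpt _ (nz h)).2, (m.hpt _ (nz h')).2, (m.hpt _ (nz h'')).2,
      (m.hpt _ (pl_isPt (a := (1 : F)) (b := 0) (d := 0) (by simp) hF)).2,
      (m.hpt _ (pl_isPt (a := (0 : F)) (b := 1) (d := 0) (by simp) hF)).2,
      (m.hpt _ (pl_isPt (a := (0 : F)) (b := 0) (d := 1) (by simp) hF)).2, ← QuotientGroup.mk_mul]
    refine congrArg QuotientGroup.mk (ext_act fun v => ?_)
    have tp : ∀ a b d a' b' d' : F, herm (pl a b d) (pl a' b' d') = 0 := herm_pl_pl hF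
    rw [trv_three hF (nz h).2 (nz h').2 (nz h'').2 (tp ..) (tp ..) (tp ..),
      trv_three hF (tp ..) (tp ..) (tp ..) (tp ..) (tp ..) (tp ..)]
    congr 1
    simp only [smul_pl, add_pl, herm_pl]
    obtain ⟨e0, e1, e2⟩ := hsum (v 0 + v 1) (v 2 + v 3) (v 4 + v 5)
    congr 1
    · linear_combination e0
    · linear_combination e1
    · linear_combination e2
  fin_cases i <;> simp only [Fin.zero_eta, Fin.mk_one, Fin.reduceFinMk, Matrix.cons_val_zero, Matrix.cons_val_one,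
    Matrix.cons_val, Fin.isValue]
  all_goals
    refine key _ _ _ _ _ _ _ _ _ (Or.inl one_ne_zero) (Or.inl one_ne_zero) (Or.inl one_ne_zero) fun p q r => ?_
    refine ⟨?_, ?_, ?_⟩ <;> grobner

/-- Some lift of the coordinate frame is conjugate to the other. -/
theorem frame_fused : ∃ h : H, h * (m.M.pt (pl 1 0 0) * m.M.pt (pl 0 1 0) * m.M.pt (pl 0 0 1)) * h⁻¹ =
    m.M.pt (pl 1 0 0) * m.M.pt (pl 0 1 0) * m.M.pt (pl 0 0 1) * c.z := by
  have hF := c.card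
  obtain ⟨w0, w1, w20, w21, w2w⟩ := w_facts hw
  set F0 := m.M.pt (pl 1 0 0) * m.M.pt (pl 0 1 0) * m.M.pt (pl 0 0 1) with hF0
  have key : ∀ a b a' b' a'' b'' : F, a ≠ 0 → a' ≠ 0 → a'' ≠ 0 → b ≠ 0 → b' ≠ 0 → b'' ≠ 0 → a ≠ a' →
      b ≠ b' → (a' - a) * (b'' - b) ≠ (b' - b) * (a'' - a) →
      m.M.pt (pl 1 a b) * m.M.pt (pl 1 a' b') * m.M.pt (pl 1 a'' b'') = F0 * c.z →
      ∃ h : H, h * F0 * h⁻¹ = F0 * c.z := by
    intro a b a' b' a'' b'' _ _ _ _ _ _ haa _ hdet he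
    obtain ⟨g, -, ⟨k₁, hk₁, e₁⟩, ⟨k₂, hk₂, e₂⟩, ⟨k₃, hk₃, e₃⟩⟩ := move_std hF (pl_mem (1 : F) a b)
      (pl_mem 1 a' b') (pl_mem 1 a'' b'') (pl_isPt (by simp) hF).1 (fun hm => by
        obtain ⟨k, h1, h2, -⟩ := pl_span hm
        rw [mul_one] at h1
        exact haa (by rw [h2, ← h1, one_mul])) (fun hm => by
        obtain ⟨α, β, h⟩ := Submodule.mem_span_pair.1 hm
        rw [smul_pl, smul_pl, add_pl] at h
        obtain ⟨h1, h2, h3⟩ := pl_inj h
        exact hdet (by grobner))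
    obtain ⟨h, hh⟩ := m.conj (g := g)
    refine ⟨h, ?_⟩
    have e : h * (F0 * c.z) * h⁻¹ = F0 := by
      rw [← he, show ∀ p q r : H, h * (p * q * r) * h⁻¹ = h * p * h⁻¹ * (h * q * h⁻¹) * (h * r * h⁻¹) from
        fun p q r => by group, hh _ (pl_isPt (by simp) hF), hh _ (pl_isPt (by simp) hF),
        hh _ (pl_isPt (by simp) hF), e₁, e₂, e₃,
        m.M.pt_smul _ _ hk₁ (pl_isPt (by simp) hF).1 (herm_pl_pl hF ..),
        m.M.pt_smul _ _ hk₂ (pl_isPt (by simp) hF).1 (herm_pl_pl hF ..),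
        m.M.pt_smul _ _ hk₃ (pl_isPt (by simp) hF).1 (herm_pl_pl hF ..)]
    calc h * F0 * h⁻¹ = h * (F0 * c.z * c.z) * h⁻¹ := by rw [mul_assoc F0, zz, mul_one]
      _ = h * (F0 * c.z) * h⁻¹ * c.z := by
        rw [mul_assoc h (F0 * c.z * c.z), mul_assoc (F0 * c.z), (c.hzc h⁻¹).eq]; group
      _ = _ := by rw [e]
  have h11 := add_self hF (1 : F)
  have hw3 := cube hF w0
  have s := frame_image m hw h5
  by_contra hne
  refine not_all_frames m hw h5 ?_ ?_ ?_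
  · refine (same c (by simpa using s 0)).resolve_right fun h => hne
      (key 1 1 w (w ^ 2) (w ^ 2) w one_ne_zero w0 w20 one_ne_zero w20 w0 w1.symm w21.symm (fun h0 => ?_) h)
    exact one_ne_zero (α := F) (by grobner)
  · refine (same c (by simpa using s 1)).resolve_right fun h => hne
      (key 1 w w 1 (w ^ 2) (w ^ 2) one_ne_zero w0 w20 w0 one_ne_zero w20 w1.symm w1 (fun h0 => ?_) h)
    exact one_ne_zero (α := F) (by grobner)
  · refine (same c (by simpa using s 2)).resolve_right fun h => hne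
      (key 1 (w ^ 2) (w ^ 2) 1 w w one_ne_zero w20 w0 w20 one_ne_zero w0 w21.symm w21 (fun h0 => ?_) h)
    exact one_ne_zero (α := F) (by grobner)

/-- The order of the group of the plane with the centre. -/
theorem card_A0 : Nat.card ↥(m.grpz (PL (F := F))) = 1024 := by
  have hF := c.card
  let vs : List (Fin 6 → F) := [pl 1 0 0, pl 0 1 0, pl 0 0 1, pl 1 1 0, pl 1 w 0, pl 1 0 1, pl 1 0 w,
    pl 0 1 1, pl 0 1 w]
  have hvs : ∀ v ∈ vs, v ∈ PL (F := F) ∧ IsPt v := by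
    simp only [vs, List.forall_mem_cons, List.not_mem_nil, IsEmpty.forall_iff, implies_true, and_true]
    refine ⟨?_, ?_, ?_, ?_, ?_, ?_, ?_, ?_, ?_⟩ <;> exact ⟨pl_mem .., pl_isPt (by simp) hF⟩
  set l : List H := c.z :: vs.map m.M.pt with hl
  have hnine : ∀ v ∈ vs, m.M.pt v ∈ closure {x | x ∈ l} := fun v hv =>
    subset_closure (List.mem_cons_of_mem _ (List.mem_map.2 ⟨v, hv, rfl⟩))
  have hzK : c.z ∈ closure {x | x ∈ l} := subset_closure (List.mem_cons_self ..)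
  have h0 := mul_mem (mul_mem (hnine (pl 1 0 0) (by simp [vs])) (hnine (pl 0 1 0) (by simp [vs])))
    (hnine (pl 0 0 1) (by simp [vs]))
  have hfr : ∀ x, c.π x = c.π (m.M.pt (pl 1 0 0) * m.M.pt (pl 0 1 0) * m.M.pt (pl 0 0 1)) →
      x ∈ closure {x | x ∈ l} := fun x hx => by
    rcases same c hx with rfl | rfl
    exacts [h0, mul_mem h0 hzK]
  have s := frame_image m hw h5
  have hle : m.grpz (PL (F := F)) ≤ closure {x | x ∈ l} := by
    refine (closure_le _).2 ?_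
    rintro x (rfl | ⟨v, hv, hv0, rfl⟩)
    · exact hzK
    · exact pts_mem m hw h5 hnine (hfr _ (by simpa using s 0)) (hfr _ (by simpa using s 1))
        (hfr _ (by simpa using s 2)) v hv hv0
  have hsub : ∀ x ∈ l, x ∈ m.grpz (PL (F := F)) := by
    intro x hx
    rcases List.mem_cons.1 hx with rfl | hx
    · exact z_mem m _
    · obtain ⟨v, hv, rfl⟩ := List.mem_map.1 hx
      exact grp_le m _ (pt_mem m (hvs v hv).1 (hvs v hv).2.1)
  obtain ⟨hA2, hAc⟩ := grpz_elementary m (ti_PL hF)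
  refine le_antisymm ((Subgroup.card_le_of_le hle).trans ((card_closure_list l (fun x hx => hA2 x (hsub x hx))
    fun x hx y hy => hAc x (hsub x hx) y (hsub y hy)).trans (by simp [hl, vs]))) ?_
  let f := c.π.comp (m.grpz (PL (F := F))).subtype
  have hr : 512 ≤ Nat.card f.range := by
    refine (image_card m hw).trans (Subgroup.card_le_of_le ?_)
    rintro _ ⟨x, hx, rfl⟩
    exact ⟨⟨x, grp_le m _ hx⟩, rfl⟩
  have hk : 2 ≤ Nat.card f.ker := by
    haveI : Nontrivial ↥f.ker := ⟨⟨⟨⟨c.z, z_mem m _⟩, (c.hker _).2 (Or.inr rfl)⟩, 1, fun h => c.hz1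
      (congrArg (fun x : ↥f.ker => ((x : ↥(m.grpz (PL (F := F)))) : H)) h)⟩⟩
    exact Finite.one_lt_card
  rw [Subgroup.card_eq_card_quotient_mul_card_subgroup f.ker,
    Nat.card_congr (QuotientGroup.quotientKerEquivRange f).toEquiv]
  exact (Nat.mul_le_mul hr hk)

/-- Every elementary abelian subgroup at least as large is conjugate to it. -/
theorem big_eq {P : Subgroup H} (hP : IsPGroup 2 P) (hle : m.grpz (PL (F := F)) ≤ P) {B : Subgroup H}
    (hBP : B ≤ P) (hB2 : ∀ x ∈ B, x * x = 1) (hBc : ∀ x ∈ B, ∀ y ∈ B, Commute x y)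
    (hB : 1024 ≤ Nat.card B) : B = m.grpz (PL (F := F)) := by
  classical
  have hF := c.card
  have hD := group_DS c m.hp m.ha
  obtain ⟨hA2, hAc⟩ := grpz_elementary m (ti_PL hF)
  have hΩ := members_eq m (ti_PL hF) (rank_PL hF) hP hle
  set Ω := insert c.z (pts m.M (PL (F := F))) with hΩd
  have hnT : ∀ {x}, (¬ ∀ k, Commute x k) → x ∈ Ω → x ∈ pts m.M (PL (F := F)) := fun hx h =>
    h.resolve_left fun e => hx (e ▸ c.hzc)
  have hmove : ∀ b ∈ B, ∀ x ∈ Ω, b * x * b⁻¹ ∈ Ω := fun b hb x hx => by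
    rw [← hΩ] at hx ⊢
    exact ⟨hD.2.1 b x hx.1, mul_mem (mul_mem (hBP hb) hx.2) (inv_mem (hBP hb))⟩
  have h := max_le (Ω := Ω) (fun x hx y hy => hAc x (subset_closure hx) y (subset_closure hy))
    (by rw [Set.ncard_insert_of_notMem (z_notMem_pts m (ti_PL hF)) (Set.toFinite _),
      pts_card21 m (ti_PL hF) (rank_PL hF)])
    (fun x hx => hA2 x (subset_closure hx)) B hB2 hBc hmove ?_ ?_
    ((card_A0 m hw h5).le.trans hB)
  · exact eq_of_le_of_card_ge h ((card_A0 m hw h5).le.trans hB)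
  · intro b hb
    have hst : ∀ x ∈ pts m.M (PL (F := F)), b * x * b⁻¹ ∈ pts m.M (PL (F := F)) := fun x hx =>
      (hmove b hb x (Or.inr hx)).resolve_left fun h =>
        T_ne_z c m.hp m.ha (T_conj c m.hp m.ha (pts_T m (ti_PL hF) hx) b) h
    have hbn : b ∈ H43.M22.nearGen (DS c m.a) c.z := nearGen_top c m.hp m.ha ▸ mem_top b
    have hh : (⟨b, hbn⟩ : ↥(H43.M22.nearGen (DS c m.a) c.z)) * ⟨b, hbn⟩ = 1 := Subtype.ext (hB2 b hb)
    rcases five_or_all m.M hD (ti_PL hF) (rank_PL hF) hh hst with hall | hfive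
    · have hc : ∀ x ∈ pts m.M (PL (F := F)), Commute b x := fun x hx =>
        mul_inv_eq_iff_eq_mul.1 (hall x hx)
      refine Or.inl ⟨fun x hx => hx.elim (fun h => h ▸ (c.hzc b).symm) (hc x), ?_⟩
      obtain ⟨a, ha, haz⟩ := fixer_mem m.M hD (ti_PL hF) (rank_PL hF) hh hc
      have hab := center_eq c m.hp m.ha (x := (a : H)⁻¹ * b) fun y => (congrArg Subtype.val
        (mem_center_iff.1 haz ⟨y, nearGen_top c m.hp m.ha ▸ mem_top y⟩)).symm
      have ha' : (a : H) ∈ closure Ω := closure_mono (Set.subset_insert _ _) ha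
      rcases hab with h | h
      · rwa [← inv_mul_eq_one.1 h]
      · rw [inv_mul_eq_iff_eq_mul.1 h]
        exact mul_mem ha' (subset_closure (Set.mem_insert _ _))
    · refine Or.inr ?_
      have e : {x : H | x ∈ Ω ∧ ¬ Commute b x} =
          pts m.M (PL (F := F)) \ {x ∈ pts m.M (PL (F := F)) | b * x * b⁻¹ = x} := by
        ext x
        constructor
        · rintro ⟨hx, hnx⟩
          exact ⟨hx.resolve_left fun e => hnx (e ▸ (c.hzc b).symm),
            fun h => hnx (mul_inv_eq_iff_eq_mul.1 h.2)⟩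
        · rintro ⟨hx, hnx⟩
          exact ⟨Or.inr hx, fun h => hnx ⟨hx, mul_inv_eq_iff_eq_mul.2 h.eq⟩⟩
      simp only at hfive
      rw [e, Set.ncard_diff (fun x hx => hx.1) (Set.toFinite _), hfive, pts_card21 m (ti_PL hF) (rank_PL hF)]
  · intro b hb p hp u hu v hv hbp hu' hv' huv
    have hp' := hnT (fun h => hbp (h b).symm) hp
    have hq : b * p * b⁻¹ ∈ pts m.M (PL (F := F)) :=
      hnT (fun h => hbp (commute_of_conj_central (hB2 b hb) h)) (hmove b hb p hp)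
    have hne : p ≠ b * p * b⁻¹ := fun e => hbp (mul_inv_eq_iff_eq_mul.1 e.symm)
    obtain ⟨p', hp1, hp0, rfl⟩ := hp'
    obtain ⟨q', hq1, hq0, hq2⟩ := hq
    obtain ⟨u', hu1, hu0, rfl⟩ := hnT hu' hu
    obtain ⟨v', hv1, hv0, rfl⟩ := hnT hv' hv
    rw [← hq2] at hne huv ⊢
    have P : ∀ {x : Fin 6 → F}, x ∈ PL (F := F) → x ≠ 0 → IsPt x := isPt_of_mem hF (ti_PL hF)
    have hind : p' ∉ Submodule.span F {q'} := fun hm => by
      obtain ⟨k, hk⟩ := Submodule.mem_span_singleton.1 hm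
      refine hne ?_
      rw [← hk, m.M.pt_smul k q' (fun e => hp0 (by rw [← hk, e, zero_smul])) hq0 (P hq1 hq0).2]
    have e := su_eq hF (sq_two hF (P hp1 hp0) (P hq1 hq0) (ti_PL hF _ hp1 _ hq1))
      (sq_two hF (P hu1 hu0) (P hv1 hv0) (ti_PL hF _ hu1 _ hv1))
      (by rw [← π_pts m (P hp1 hp0) (P hq1 hq0), ← π_pts m (P hu1 hu0) (P hv1 hv0), huv])
    have back : ∀ {x y : Fin 6 → F}, IsPt x → IsPt y → trv hF x = trv hF y → m.M.pt x = m.M.pt y :=
      fun hx hy h => T_unique c m.hp m.ha (m.hpt _ hx).1 (m.hpt _ hy).1 (by rw [(m.hpt _ hx).2, (m.hpt _ hy).2, h])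
    rcases trv_pair hF (P hp1 hp0) (P hq1 hq0) (P hu1 hu0) (P hv1 hv0) (ti_PL hF _ hp1 _ hq1)
      (ti_PL hF _ hu1 _ hv1) hind e with ⟨h1, h2⟩ | ⟨h1, h2⟩
    · exact Or.inl ⟨back (P hu1 hu0) (P hp1 hp0) h1, back (P hv1 hv0) (P hq1 hq0) h2⟩
    · exact Or.inr ⟨back (P hu1 hu0) (P hq1 hq0) h1, back (P hv1 hv0) (P hp1 hp0) h2⟩

/-- Every elementary abelian subgroup of order at least 1024 is conjugate to the group of the plane. -/
theorem big_conj {B : Subgroup H} (hB2 : ∀ x ∈ B, x * x = 1) (hBc : ∀ x ∈ B, ∀ y ∈ B, Commute x y)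
    (hB : 1024 ≤ Nat.card B) : ∃ g : H, B.map (MulAut.conj g).toMonoidHom = m.grpz (PL (F := F)) := by
  haveI : Fact (Nat.Prime 2) := ⟨Nat.prime_two⟩
  obtain ⟨P, hP⟩ := (H53.isPGroup_of_sq hB2).exists_le_sylow
  obtain ⟨P0, hP0⟩ := (H53.isPGroup_of_sq (grpz_elementary m (ti_PL c.card)).1).exists_le_sylow
  obtain ⟨g, hg⟩ := MulAction.exists_smul_eq H P P0
  refine ⟨g, big_eq m hw h5 P0.2 hP0 ?_ ?_ ?_ ?_⟩
  · rintro _ ⟨x, hx, rfl⟩
    rw [← hg, Sylow.coe_subgroup_smul]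
    exact ⟨x, hP hx, rfl⟩
  · rintro _ ⟨x, hx, rfl⟩
    rw [← map_mul, hB2 x hx, map_one]
  · rintro _ ⟨x, hx, rfl⟩ _ ⟨y, hy, rfl⟩
    exact (hBc x hx y hy).map _
  · rw [Subgroup.card_map_of_injective (MulAut.conj g).injective]
    exact hB

end Cfsg.Agent.H98.U62
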